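/-
Counting orbits of a permutation of prime order, and the fixed space of an operator permuting the
blocks of a direct sum decomposition.
-/
import Mathlib

set_option autoImplicit false

namespace Cfsg.Agent.Lib.FGS.BlockCount

open Module

/-- Orbit representatives of a permutation of prime order. -/
theorem exists_orbit_reps {Λ : Type*} [Finite Λ] (σ : Equiv.Perm Λ) {p : ℕ} (hp : p.Prime)
    (hσ : σ ^ p = 1) :
    ∃ R : Finset Λ, (∀ l : Λ, ∃ r ∈ R, ∃ i : ℕ, (σ ^ i) r = l) ∧
      p * R.card = Nat.card Λ + (p - 1) * Nat.card {l : Λ // σ l = l} := by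
  classical
  haveI : Fact p.Prime := ⟨hp⟩
  letI : Fintype Λ := Fintype.ofFinite Λ
  by_cases hσ1 : σ = 1
  · subst hσ1
    refine ⟨Finset.univ, fun l => ⟨l, Finset.mem_univ _, 0, rfl⟩, ?_⟩
    have h1 : Nat.card {l : Λ // (1 : Equiv.Perm Λ) l = l} = Nat.card Λ := by
      apply Nat.card_congr
      exact Equiv.subtypeUnivEquiv (fun l => rfl)
    rw [h1, Finset.card_univ, ← Nat.card_eq_fintype_card]
    have h2 : 1 ≤ p := hp.one_lt.le
    nlinarith [Nat.sub_add_cancel h2]
  · let C : Subgroup (Equiv.Perm Λ) := Subgroup.zpowers σ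
    letI : Fintype C := Fintype.ofFinite C
    have hord : orderOf σ = p := orderOf_eq_prime hσ hσ1
    have hcC : Fintype.card C = p := by
      rw [← Nat.card_eq_fintype_card, Nat.card_zpowers, hord]
    let Ω := MulAction.orbitRel.Quotient C Λ
    letI : Fintype Ω := Fintype.ofFinite Ω
    letI : ∀ g : C, Fintype (MulAction.fixedBy Λ g) := fun g => Fintype.ofFinite _
    have hB := MulAction.sum_card_fixedBy_eq_card_orbits_mul_card_group C Λ
    have hfix : ∀ g : C, g ≠ 1 → Fintype.card (MulAction.fixedBy Λ g) = Nat.card {l : Λ // σ l = l} := by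
      intro g hg
      rw [← Nat.card_eq_fintype_card]
      apply Nat.card_congr
      refine Equiv.subtypeEquivRight (fun l => ?_)
      have hg1 : (g : Equiv.Perm Λ) ≠ 1 := fun h => hg (Subtype.ext h)
      have hgC : (g : Equiv.Perm Λ) ∈ Subgroup.zpowers σ := g.2
      obtain ⟨k, hk⟩ := Subgroup.mem_zpowers_iff.mp hgC
      have hσg : σ ∈ Subgroup.zpowers (g : Equiv.Perm Λ) := by
        have hcard : Nat.card (Subgroup.zpowers σ) = p := by rw [Nat.card_zpowers, hord]
        haveI : Fact p.Prime := ⟨hp⟩
        have h1 : Subgroup.zpowers (g : Equiv.Perm Λ) = Subgroup.zpowers σ := by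
          have hle : Subgroup.zpowers (g : Equiv.Perm Λ) ≤ Subgroup.zpowers σ :=
            Subgroup.zpowers_le.mpr hgC
          have hne : Subgroup.zpowers (g : Equiv.Perm Λ) ≠ ⊥ := by
            simpa using hg1
          have hdvd := Subgroup.card_dvd_of_le hle
          rw [hcard] at hdvd
          rcases (Nat.dvd_prime hp).mp hdvd with h | h
          · exact absurd (Subgroup.eq_bot_of_card_eq _ h) hne
          · exact Subgroup.eq_of_le_of_card_ge hle (by rw [h, hcard])
        rw [h1]
        exact Subgroup.mem_zpowers σ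
      obtain ⟨m, hm⟩ := Subgroup.mem_zpowers_iff.mp hσg
      constructor
      · intro h
        have h2 : (g : Equiv.Perm Λ) l = l := h
        have h3 : ((g : Equiv.Perm Λ) ^ m) l = l := by
          have : Function.IsFixedPt ((g : Equiv.Perm Λ)) l := h2
          exact Equiv.Perm.zpow_apply_eq_self_of_apply_eq_self h2 m
        rw [hm] at h3
        exact h3
      · intro h
        have h3 : (σ ^ k) l = l := Equiv.Perm.zpow_apply_eq_self_of_apply_eq_self h k
        rw [hk] at h3
        exact h3
    have hsum : ∑ g : C, Fintype.card (MulAction.fixedBy Λ g) =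
        Nat.card Λ + (p - 1) * Nat.card {l : Λ // σ l = l} := by
      rw [← Finset.add_sum_erase _ _ (Finset.mem_univ (1 : C))]
      congr 1
      · rw [← Nat.card_eq_fintype_card]
        apply Nat.card_congr
        exact Equiv.subtypeUnivEquiv (fun l => by simp)
      · rw [Finset.sum_congr rfl (fun g hg => hfix g (Finset.ne_of_mem_erase hg))]
        rw [Finset.sum_const, Finset.card_erase_of_mem (Finset.mem_univ _), Finset.card_univ, hcC,
          smul_eq_mul]
    let r : Ω → Λ := Quotient.out
    have hrinj : Function.Injective r := by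
      intro a b hab
      have h1 : (Quotient.mk _ (r a) : Ω) = Quotient.mk _ (r b) := by rw [hab]
      rwa [Quotient.out_eq, Quotient.out_eq] at h1
    refine ⟨Finset.univ.image r, ?_, ?_⟩
    · intro l
      have h1 : (Quotient.mk _ (r (Quotient.mk _ l)) : Ω) = Quotient.mk _ l := Quotient.out_eq _
      have h2 := Quotient.exact h1
      obtain ⟨c, hc⟩ := (MulAction.orbitRel_apply).mp (Setoid.symm' _ h2)
      refine ⟨r (Quotient.mk _ l), Finset.mem_image_of_mem _ (Finset.mem_univ _), ?_⟩
      obtain ⟨k, hk⟩ := Subgroup.mem_zpowers_iff.mp c.2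
      -- use a natural power
      have hfin : IsOfFinOrder σ := isOfFinOrder_of_finite σ
      obtain ⟨n, hn⟩ := hfin.mem_powers_iff_mem_zpowers.mpr c.2
      refine ⟨n, ?_⟩
      have hn' : σ ^ n = (c : Equiv.Perm Λ) := hn
      rw [hn']
      exact hc
    · rw [Finset.card_image_of_injective _ hrinj, Finset.card_univ, ← hsum, hB, hcC, mul_comm]

/-- The dimension of a finite independent sum. -/
theorem finrank_finset_sup {K V ι : Type*} [Field K] [AddCommGroup V] [Module K V]
    [FiniteDimensional K V] (W : ι → Submodule K V) (hind : iSupIndep W) (F : Finset ι) :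
    finrank K ↥(F.sup W) = ∑ i ∈ F, finrank K (W i) := by
  classical
  induction F using Finset.induction_on with
  | empty => simp
  | insert i F hi ih =>
    rw [Finset.sup_insert, Finset.sum_insert hi, ← ih]
    have hd : Disjoint (W i) (F.sup W) := by
      apply (hind i).mono_right
      apply Finset.sup_le
      intro j hj
      have hij : j ≠ i := fun h => hi (h ▸ hj)
      exact le_iSup₂_of_le j hij le_rfl
    have h1 := Submodule.finrank_sup_add_finrank_inf_eq (W i) (F.sup W)
    rw [hd.eq_bot, finrank_bot, add_zero] at h1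
    exact h1

/-- **Block counting.** -/
theorem finrank_fixed_lt {K V Λ : Type*} [Field K] [AddCommGroup V] [Module K V]
    [FiniteDimensional K V] [Finite Λ] (W : Λ → Submodule K V) (hind : iSupIndep W)
    (htop : ⨆ l, W l = ⊤) (T : End K V) (σ : Equiv.Perm Λ)
    (hT : ∀ l, ∀ v ∈ W l, T v ∈ W (σ l)) {p : ℕ} (hp : p.Prime) (hp5 : 5 ≤ p) (hσ : σ ^ p = 1)
    (d : ℕ) (hd : ∀ l, finrank K (W l) = d) (hd0 : 0 < d) [Nonempty Λ]
    (hf : 3 * Nat.card {l : Λ // σ l = l} ≤ Nat.card Λ) :
    2 * finrank K (LinearMap.ker (T - 1 : End K V)) < finrank K V := by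
  classical
  letI : Fintype Λ := Fintype.ofFinite Λ
  obtain ⟨R, hR1, hR2⟩ := exists_orbit_reps σ hp hσ
  set f := Nat.card {l : Λ // σ l = l} with hfdef
  set n := Nat.card Λ with hn
  have hnpos : 0 < n := Nat.card_pos
  have h2R : 2 * R.card < n := by
    obtain ⟨q, rfl⟩ : ∃ q, p = q + 1 := ⟨p - 1, (Nat.sub_add_cancel hp.one_lt.le).symm⟩
    simp only [Nat.add_sub_cancel] at hR2
    have h3 : 3 * ((q + 1) * R.card) = 3 * n + q * (3 * f) := by rw [hR2]; ring
    have h4 : q * (3 * f) ≤ q * n := Nat.mul_le_mul_left _ hf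
    have h5 : 3 * (q + 1) * R.card ≤ (3 + q) * n := by nlinarith
    by_contra hcon
    push Not at hcon
    have h6 : (3 + q) * n < 3 * (q + 1) * n / 2 + 0 ∨ True := Or.inr trivial
    have h7 : 3 * (q + 1) * n ≤ 2 * (3 * (q + 1) * R.card) := by nlinarith
    have hq4 : 4 ≤ q := by omega
    nlinarith
  have hfV : finrank K V = ∑ l : Λ, finrank K (W l) := by
    have h1 := finrank_finset_sup W hind Finset.univ
    have h2 : Finset.univ.sup W = ⊤ := by
      rw [← htop]
      apply le_antisymm
      · exact Finset.sup_le fun l _ => le_iSup W l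
      · exact iSup_le fun l => Finset.le_sup (Finset.mem_univ l)
    rw [h2, finrank_top] at h1
    exact h1
  rw [Finset.sum_congr rfl (fun l _ => hd l), Finset.sum_const, Finset.card_univ, smul_eq_mul,
    ← Nat.card_eq_fintype_card, ← hn] at hfV
  -- the complement of the representatives
  let Rc : Finset Λ := Finset.univ \ R
  let Y : Submodule K V := Rc.sup W
  have hY : finrank K Y = (n - R.card) * d := by
    rw [finrank_finset_sup W hind Rc, Finset.sum_congr rfl (fun l _ => hd l), Finset.sum_const,
      smul_eq_mul, Finset.card_sdiff_of_subset (Finset.subset_univ _), Finset.card_univ,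
      ← Nat.card_eq_fintype_card, ← hn]
  have hdisj : LinearMap.ker (T - 1 : End K V) ⊓ Y = ⊥ := by
    rw [Submodule.eq_bot_iff]
    rintro v ⟨hv1, hv2⟩
    have hv1' : T v = v := by
      have : (T - 1) v = 0 := hv1
      simpa [sub_eq_zero] using this
    -- decomposition of `v`
    have hdec : ∀ F : Finset Λ, ∀ v ∈ F.sup W, ∃ x : Λ → V, (∀ l, x l ∈ W l) ∧ (∀ l, l ∉ F → x l = 0) ∧
        v = ∑ l, x l := by
      intro F
      induction F using Finset.induction_on with
      | empty =>
        intro v hv
        refine ⟨fun _ => 0, fun l => Submodule.zero_mem _, fun _ _ => rfl, ?_⟩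
        simpa using hv
      | insert i F hi ih =>
        intro v hv
        rw [Finset.sup_insert] at hv
        obtain ⟨a, ha, b, hb, rfl⟩ := Submodule.mem_sup.mp hv
        obtain ⟨x, hx1, hx2, rfl⟩ := ih b hb
        refine ⟨fun l => x l + if l = i then a else 0, ?_, ?_, ?_⟩
        · intro l
          refine Submodule.add_mem _ (hx1 l) ?_
          split_ifs with h
          · rw [h]
            exact ha
          · exact Submodule.zero_mem _
        · intro l hl
          rw [Finset.mem_insert, not_or] at hl
          show x l + (if l = i then a else 0) = 0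
          rw [hx2 l hl.2, if_neg hl.1, add_zero]
        · rw [Finset.sum_add_distrib, Finset.sum_ite_eq' , if_pos (Finset.mem_univ _), add_comm]
    obtain ⟨x, hx1, hx2, rfl⟩ := hdec Rc v hv2
    have hxR : ∀ r ∈ R, x r = 0 := fun r hr => hx2 r (by simp [Rc, hr])
    -- `T` permutes the components
    have hshift : ∀ l, T (x l) = x (σ l) := by
      have h0 : ∑ l, (T (x l) - x (σ l)) = 0 := by
        rw [Finset.sum_sub_distrib, ← map_sum, hv1', sub_eq_zero]
        exact (Equiv.sum_comp σ x).symm
      have hmem : ∀ l, T (x l) - x (σ l) ∈ W (σ l) := fun l =>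
        Submodule.sub_mem _ (hT l _ (hx1 l)) (hx1 _)
      have hz : ∀ l, T (x (σ.symm l)) - x l = 0 := by
        have h3 : ∑ l, (T (x (σ.symm l)) - x l) = 0 := by
          rw [← Equiv.sum_comp σ (fun l => T (x (σ.symm l)) - x l), ← h0]
          simp
        have hmem' : ∀ l, T (x (σ.symm l)) - x l ∈ W l := fun l => by
          have := hmem (σ.symm l)
          simpa using this
        -- independence
        intro l
        by_contra hne
        have h4 : T (x (σ.symm l)) - x l = -∑ m ∈ Finset.univ.erase l, (T (x (σ.symm m)) - x m) := by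
          rw [eq_neg_iff_add_eq_zero]
          have h7 := Finset.add_sum_erase Finset.univ (fun m => T (x (σ.symm m)) - x m) (Finset.mem_univ l)
          rw [h7]
          exact h3
        have h5 : T (x (σ.symm l)) - x l ∈ ⨆ (m) (_ : m ≠ l), W m := by
          rw [h4]
          apply Submodule.neg_mem
          apply Submodule.sum_mem
          intro m hm
          exact Submodule.mem_iSup_of_mem m (Submodule.mem_iSup_of_mem (Finset.ne_of_mem_erase hm) (hmem' m))
        have h6 := (hind l).le_bot ⟨hmem' l, h5⟩
        exact hne ((Submodule.mem_bot K).mp h6)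
      intro l
      have h := hz (σ l)
      simp only [Equiv.symm_apply_apply] at h
      exact sub_eq_zero.mp h
    have hall : ∀ l, x l = 0 := by
      intro l
      obtain ⟨r, hr, i, rfl⟩ := hR1 l
      induction i with
      | zero => simpa using hxR r hr
      | succ i ih =>
        rw [pow_succ', Equiv.Perm.mul_apply, ← hshift, ih, map_zero]
    simp [hall]
  have h5 := Submodule.finrank_add_le_finrank_add_finrank (LinearMap.ker (T - 1 : End K V)) Y
  have h6 := Submodule.finrank_sup_add_finrank_inf_eq (LinearMap.ker (T - 1 : End K V)) Y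
  rw [hdisj, finrank_bot, add_zero] at h6
  have h7 : finrank K ↥(LinearMap.ker (T - 1 : End K V) ⊔ Y) ≤ finrank K V := Submodule.finrank_le _
  have hRn : R.card ≤ n := by omega
  have h8 : finrank K (LinearMap.ker (T - 1 : End K V)) ≤ R.card * d := by
    have h9 : (n - R.card) * d + R.card * d = n * d := by
      rw [← add_mul, Nat.sub_add_cancel hRn]
    rw [hY] at h6
    omega
  rw [hfV]
  have : 2 * (R.card * d) < n * d := by
    rw [← mul_assoc]
    exact Nat.mul_lt_mul_of_pos_right h2R hd0
  omega

end Cfsg.Agent.Lib.FGS.BlockCount
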