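/-
Fixed point ratio of a normally generating element of odd prime order in a transitive action of a
finite solvable group: at most a third of the points are fixed.
-/
import Mathlib

set_option autoImplicit false

namespace Cfsg.Agent.Lib.FGS.FixRatio

open scoped commutatorElement

section abstract

variable {B : Type*} [Group B] [Finite B]

/-- An automorphism of odd order of an abelian group never has a fixed subgroup of index two. -/
theorem fixed_index_ne_two (hB : ∀ a b : B, a * b = b * a) (α : B →* B) {p : ℕ} (hp : Odd p)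
    (hα : ∀ b, α^[p] b = b) : (MonoidHom.eqLocus α (MonoidHom.id B)).index ≠ 2 := by
  intro hidx
  set C := MonoidHom.eqLocus α (MonoidHom.id B) with hC
  have hmem : ∀ b, b ∈ C ↔ α b = b := fun b => Iff.rfl
  obtain ⟨b, hb⟩ : ∃ b, b ∉ C := by
    by_contra hall
    push Not at hall
    have : C = ⊤ := by
      rw [eq_top_iff]
      intro b _
      exact hall b
    rw [this, Subgroup.index_top] at hidx
    omega
  have hinj : Function.Injective α := by
    obtain ⟨k, rfl⟩ := hp
    intro u v huv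
    have h1 := hα u
    have h2 := hα v
    have h3 : α^[2 * k + 1] u = α^[2 * k] (α u) := Function.iterate_succ_apply _ _ _
    have h4 : α^[2 * k + 1] v = α^[2 * k] (α v) := Function.iterate_succ_apply _ _ _
    rw [← h1, ← h2, h3, h4, huv]
  have hαb : α b ∉ C := by
    intro h
    rw [hmem] at h
    exact hb ((hmem b).mpr (hinj h))
  set c := b⁻¹ * α b with hc
  have hcC : c ∈ C := by
    rw [hc, Subgroup.mul_mem_iff_of_index_two hidx]
    constructor
    · intro h
      exact absurd (by simpa using C.inv_mem h) hb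
    · intro h
      exact absurd h hαb
  have hαc : α c = c := (hmem c).mp hcC
  have hαb' : α b = b * c := by rw [hc]; group
  have hiter : ∀ i : ℕ, α^[i] b = b * c ^ i := by
    intro i
    induction i with
    | zero => simp
    | succ i ih =>
      rw [Function.iterate_succ_apply', ih, map_mul, map_pow, hαc, hαb', pow_succ]
      simp only [mul_assoc]
      rw [(Commute.pow_self c i).eq]
  have h1 : c ^ p = 1 := by
    have h2 := hα b
    rw [hiter p] at h2
    exact mul_eq_left.mp h2
  have hb2 : b ^ 2 ∈ C := Subgroup.sq_mem_of_index_two hidx b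
  have h3 : c ^ 2 = 1 := by
    have h4 := (hmem _).mp hb2
    rw [map_pow, hαb', pow_two, pow_two] at h4
    have h5 : b * c * (b * c) = b * b * (c * c) := by
      have := hB c b
      calc b * c * (b * c) = b * (c * b) * c := by group
        _ = b * (b * c) * c := by rw [this]
        _ = b * b * (c * c) := by group
    rw [h5] at h4
    rw [pow_two]
    exact mul_eq_left.mp h4
  have h6 : c = 1 := by
    obtain ⟨k, rfl⟩ := hp
    rw [pow_succ, pow_mul, h3, one_pow, one_mul] at h1
    exact h1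
  apply hb
  rw [hmem, hαb', h6, mul_one]

end abstract

variable {G : Type*} [Group G]

/-- A normally generating element moves a point of every proper coset space. -/
theorem exists_moved {S : Subgroup G} (hS : S ≠ ⊤) {x : G}
    (hgen : Subgroup.normalClosure ({x} : Set G) = ⊤) : ∃ q : G ⧸ S, x • q ≠ q := by
  by_contra hall
  push Not at hall
  apply hS
  rw [eq_top_iff, ← hgen]
  have h1 : ({x} : Set G) ⊆ S.normalCore := by
    rw [Set.singleton_subset_iff]
    intro g
    have h2 := hall ((g⁻¹ : G) : G ⧸ S)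
    have h3 : (x • ((g⁻¹ : G) : G ⧸ S)) = ((x * g⁻¹ : G) : G ⧸ S) := rfl
    rw [h3, QuotientGroup.eq] at h2
    have h4 := S.inv_mem h2
    have h5 : ((x * g⁻¹)⁻¹ * g⁻¹)⁻¹ = g * x * g⁻¹ := by group
    rwa [h5] at h4
  exact (Subgroup.normalClosure_le_normal h1).trans S.normalCore_le

/-- **Fixed point ratio.** -/
theorem fix_ratio [Finite G] [Group.IsSolvable G] {p : ℕ} (hp : Odd p) {x : G} (hx : x ^ p = 1)
    (hgen : Subgroup.normalClosure ({x} : Set G) = ⊤) :
    ∀ (n : ℕ) (S : Subgroup G), S.index = n → S ≠ ⊤ →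
      3 * Nat.card {q : G ⧸ S // x • q = q} ≤ n := by
  intro n
  induction n using Nat.strong_induction_on with
  | _ n ih =>
  intro S hSn hS
  classical
  let P : Subgroup G → Prop := fun L => L.Normal ∧ ¬ L ≤ S
  have hP : P ⊤ := ⟨inferInstance, fun h => hS (top_le_iff.mp h)⟩
  obtain ⟨L, hL⟩ := exists_minimal_of_wellFoundedLT P ⟨⊤, hP⟩
  obtain ⟨hLn, hLS⟩ := hL.1
  haveI := hLn
  have hmin : ∀ M : Subgroup G, M.Normal → M < L → M ≤ S := by
    intro M hMn hML
    by_contra hMS
    exact absurd (hL.2 ⟨hMn, hMS⟩ hML.le) (not_le_of_gt hML)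
  have hLne : L ≠ ⊥ := by
    rintro rfl
    exact hLS bot_le
  have hcomm : ⁅L, L⁆ ≤ S := hmin _ inferInstance (Group.IsSolvable.commutator_lt_of_ne_bot hLne)
  have hSle : S ≤ S ⊔ L := le_sup_left
  by_cases hT : S ⊔ L = ⊤
  · -- `L` is transitive
    have hsplit : ∀ g : G, ∃ l ∈ L, ∃ s ∈ S, g = l * s := by
      intro g
      have hg : g ∈ L ⊔ S := by
        rw [sup_comm, hT]
        trivial
      obtain ⟨l, hl, s, hs, h⟩ := Subgroup.mem_sup_of_normal_left.mp hg
      exact ⟨l, hl, s, hs, h.symm⟩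
    -- `L ⊓ S` is normal
    let L₀ : Subgroup G := L ⊓ S
    have hL₀c : ∀ a ∈ L, ∀ b ∈ L, a * b * a⁻¹ * b⁻¹ ∈ L₀ := by
      intro a ha b hb
      have h1 : ⁅a, b⁆ ∈ ⁅L, L⁆ := Subgroup.commutator_mem_commutator ha hb
      refine ⟨Subgroup.commutator_le_self L h1, hcomm h1⟩
    have hL₀n : L₀.Normal := by
      constructor
      rintro u ⟨hu1, hu2⟩ g
      obtain ⟨l, hl, s, hs, rfl⟩ := hsplit g
      have hv : s * u * s⁻¹ ∈ L₀ := ⟨hLn.conj_mem u hu1 s, S.mul_mem (S.mul_mem hs hu2) (S.inv_mem hs)⟩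
      have e : l * s * u * (l * s)⁻¹ = (l * (s * u * s⁻¹) * l⁻¹ * (s * u * s⁻¹)⁻¹) * (s * u * s⁻¹) := by group
      rw [e]
      exact L₀.mul_mem (hL₀c l hl _ hv.1) hv
    haveI := hL₀n
    let N₀ : Subgroup L := L₀.subgroupOf L
    haveI hN₀n : N₀.Normal := inferInstance
    have hB : ∀ a b : L ⧸ N₀, a * b = b * a := by
      intro a b
      obtain ⟨a, rfl⟩ := QuotientGroup.mk_surjective a
      obtain ⟨b, rfl⟩ := QuotientGroup.mk_surjective b
      rw [← QuotientGroup.mk_mul, ← QuotientGroup.mk_mul, QuotientGroup.eq, Subgroup.mem_subgroupOf]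
      have e : (((a * b)⁻¹ * (b * a) : L) : G) =
          (b : G)⁻¹ * (a : G)⁻¹ * ((b : G)⁻¹)⁻¹ * ((a : G)⁻¹)⁻¹ := by
        push_cast
        group
      rw [e]
      exact hL₀c _ (L.inv_mem b.2) _ (L.inv_mem a.2)
    let Φ : L ⧸ N₀ → G ⧸ S := Quotient.map' (fun l : L => (l : G)) (by
      intro a b h
      rw [QuotientGroup.leftRel_apply] at h ⊢
      have h1 : ((a⁻¹ * b : L) : G) ∈ L₀ := h
      have h2 := h1.2
      simpa using h2)
    have hΦ : ∀ l : L, Φ (l : L ⧸ N₀) = ((l : G) : G ⧸ S) := fun l => rfl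
    have hΦinj : Function.Injective Φ := by
      intro a b hab
      obtain ⟨a, rfl⟩ := QuotientGroup.mk_surjective a
      obtain ⟨b, rfl⟩ := QuotientGroup.mk_surjective b
      rw [hΦ, hΦ, QuotientGroup.eq] at hab
      rw [QuotientGroup.eq, Subgroup.mem_subgroupOf]
      refine ⟨(a⁻¹ * b : L).2, ?_⟩
      simpa using hab
    have hΦsurj : Function.Surjective Φ := by
      intro q
      obtain ⟨g, rfl⟩ := QuotientGroup.mk_surjective q
      obtain ⟨l, hl, s, hs, rfl⟩ := hsplit g
      refine ⟨((⟨l, hl⟩ : L) : L ⧸ N₀), ?_⟩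
      rw [hΦ, QuotientGroup.eq]
      simpa using hs
    rcases isEmpty_or_nonempty {q : G ⧸ S // x • q = q} with hE | ⟨⟨q₀, hq₀⟩⟩
    · rw [Nat.card_of_isEmpty]
      omega
    obtain ⟨g₀, rfl⟩ := QuotientGroup.mk_surjective q₀
    -- the conjugate fixing the base point
    let y : G := g₀⁻¹ * x * g₀
    have hyS : y ∈ S := by
      have h1 : x • ((g₀ : G) : G ⧸ S) = ((x * g₀ : G) : G ⧸ S) := rfl
      rw [h1, QuotientGroup.eq] at hq₀
      have h2 := S.inv_mem hq₀
      have e : ((x * g₀)⁻¹ * g₀)⁻¹ = y := by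
        simp only [y]
        group
      rwa [e] at h2
    have hyp : y ^ p = 1 := by
      have e : y = g₀⁻¹ * x * g₀⁻¹⁻¹ := by simp [y]
      rw [e, conj_pow, hx]
      simp
    let cy : L →* L := (MulAut.conjNormal y : MulAut L).toMonoidHom
    have hcy : ∀ l : L, ((cy l : L) : G) = y * l * y⁻¹ := fun l => MulAut.conjNormal_apply y l
    let α : (L ⧸ N₀) →* (L ⧸ N₀) := QuotientGroup.map N₀ N₀ cy (by
      intro l hl
      rw [Subgroup.mem_comap, Subgroup.mem_subgroupOf, hcy]
      exact hL₀n.conj_mem _ hl y)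
    have hα : ∀ l : L, α (l : L ⧸ N₀) = ((cy l : L) : L ⧸ N₀) := fun l => rfl
    have hΦα : ∀ b, Φ (α b) = y • Φ b := by
      intro b
      obtain ⟨l, rfl⟩ := QuotientGroup.mk_surjective b
      rw [hα, hΦ, hΦ, hcy]
      have h1 : y • (((l : G) : G) : G ⧸ S) = ((y * l : G) : G ⧸ S) := rfl
      rw [h1, QuotientGroup.eq]
      have e : (y * (l : G) * y⁻¹)⁻¹ * (y * l) = y := by group
      rw [e]
      exact hyS
    have hαp : ∀ b, α^[p] b = b := by
      intro b
      obtain ⟨l, rfl⟩ := QuotientGroup.mk_surjective b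
      have hiter : ∀ i : ℕ, ∃ l' : L, α^[i] (l : L ⧸ N₀) = (l' : L ⧸ N₀) ∧ (l' : G) = y ^ i * l * (y ^ i)⁻¹ := by
        intro i
        induction i with
        | zero => exact ⟨l, rfl, by simp⟩
        | succ i ih =>
          obtain ⟨l', h1, h2⟩ := ih
          refine ⟨cy l', ?_, ?_⟩
          · rw [Function.iterate_succ_apply', h1, hα]
          · rw [hcy, h2, pow_succ']
            simp only [mul_inv_rev, mul_assoc]
      obtain ⟨l', h1, h2⟩ := hiter p
      rw [h1]
      congr 1
      apply Subtype.ext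
      rw [h2, hyp]
      simp
    let C := MonoidHom.eqLocus α (MonoidHom.id (L ⧸ N₀))
    let E := Equiv.ofBijective Φ ⟨hΦinj, hΦsurj⟩
    have hEΦ : ∀ b, E b = Φ b := fun b => rfl
    -- injection of the fixed points
    let j : {q : G ⧸ S // x • q = q} → C := fun q => ⟨E.symm (g₀⁻¹ • q.1), by
      show α _ = _
      apply E.injective
      rw [hEΦ, hΦα, ← hEΦ, Equiv.apply_symm_apply]
      have e : y • g₀⁻¹ • q.1 = g₀⁻¹ • (x • q.1) := by
        rw [← mul_smul, ← mul_smul]
        congr 1
        simp only [y]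
        group
      rw [e, q.2, MonoidHom.id_apply, Equiv.apply_symm_apply]⟩
    have hj : Function.Injective j := by
      intro a b hab
      have h1 : E.symm (g₀⁻¹ • a.1) = E.symm (g₀⁻¹ • b.1) := congrArg Subtype.val hab
      have h2 := E.symm.injective h1
      exact Subtype.ext (smul_left_cancel _ h2)
    have hcard1 := Nat.card_le_card_of_injective j hj
    have hcard2 : Nat.card C * C.index = Nat.card (L ⧸ N₀) := Subgroup.card_mul_index C
    have hcard3 : Nat.card (L ⧸ N₀) = n := by
      rw [Nat.card_congr E, ← hSn]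
      rfl
    have hi1 : C.index ≠ 1 := by
      intro h
      rw [Subgroup.index_eq_one] at h
      obtain ⟨q, hq⟩ := exists_moved hS hgen (x := x) (S := S)
      apply hq
      have h2 : ∀ b, α b = b := fun b => by
        have : b ∈ C := by rw [h]; trivial
        exact this
      have h3 : y • (g₀⁻¹ • q) = g₀⁻¹ • q := by
        have h4 := hΦα (E.symm (g₀⁻¹ • q))
        rw [h2, ← hEΦ, Equiv.apply_symm_apply] at h4
        exact h4.symm
      have e : y • g₀⁻¹ • q = g₀⁻¹ • (x • q) := by
        rw [← mul_smul, ← mul_smul]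
        congr 1
        simp only [y]
        group
      rw [e] at h3
      exact smul_left_cancel _ h3
    have hi2 : C.index ≠ 2 := fixed_index_ne_two hB α hp hαp
    have hi0 : C.index ≠ 0 := Subgroup.index_ne_zero_of_finite
    have hi3 : 3 ≤ C.index := by omega
    calc 3 * Nat.card {q : G ⧸ S // x • q = q} ≤ 3 * Nat.card C := by omega
      _ ≤ Nat.card C * C.index := by
          rw [mul_comm]
          exact Nat.mul_le_mul_left _ hi3
      _ = n := by rw [hcard2, hcard3]
  · -- induction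
    have hrel := Subgroup.relIndex_mul_index hSle
    have hr1 : S.relIndex (S ⊔ L) ≠ 1 := by
      intro h
      rw [Subgroup.relIndex_eq_one] at h
      exact hLS (le_sup_right.trans h)
    have hn0 : S.index ≠ 0 := Subgroup.index_ne_zero_of_finite
    have hr0 : S.relIndex (S ⊔ L) ≠ 0 := by
      intro h
      rw [h, zero_mul] at hrel
      exact hn0 hrel.symm
    have hi0 : (S ⊔ L).index ≠ 0 := Subgroup.index_ne_zero_of_finite
    have hlt : (S ⊔ L).index < n := by
      rw [← hSn, ← hrel]
      have : 2 ≤ S.relIndex (S ⊔ L) := by omega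
      nlinarith [Nat.pos_of_ne_zero hi0]
    have hIH := ih _ hlt (S ⊔ L) rfl hT
    let e := Subgroup.quotientEquivProdOfLE hSle
    have he1 : ∀ q : G ⧸ S, (e (x • q)).1 = x • (e q).1 := by
      intro q
      induction q using QuotientGroup.induction_on with
      | H g => rfl
    let f : {q : G ⧸ S // x • q = q} → {q : G ⧸ (S ⊔ L) // x • q = q} × ((S ⊔ L : Subgroup G) ⧸ S.subgroupOf (S ⊔ L)) :=
      fun q => (⟨(e q.1).1, by rw [← he1, q.2]⟩, (e q.1).2)
    have hf : Function.Injective f := by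
      intro a b hab
      apply Subtype.ext
      apply e.injective
      have h1 := congrArg (fun z => z.1.1) hab
      have h2 := congrArg (fun z => z.2) hab
      exact Prod.ext h1 h2
    have hcard := Nat.card_le_card_of_injective f hf
    rw [Nat.card_prod] at hcard
    have h3 : Nat.card ((S ⊔ L : Subgroup G) ⧸ S.subgroupOf (S ⊔ L)) = S.relIndex (S ⊔ L) := rfl
    rw [h3] at hcard
    calc 3 * Nat.card {q : G ⧸ S // x • q = q}
        ≤ 3 * (Nat.card {q : G ⧸ (S ⊔ L) // x • q = q} * S.relIndex (S ⊔ L)) := by omega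
      _ = (3 * Nat.card {q : G ⧸ (S ⊔ L) // x • q = q}) * S.relIndex (S ⊔ L) := by ring
      _ ≤ (S ⊔ L).index * S.relIndex (S ⊔ L) := Nat.mul_le_mul_right _ hIH
      _ = n := by rw [mul_comm, hrel, hSn]

/-- **Fixed point ratio**, for a transitive action. -/
theorem fix_ratio_of_transitive [Finite G] [Group.IsSolvable G] {p : ℕ} (hp : Odd p) {x : G}
    (hx : x ^ p = 1) (hgen : Subgroup.normalClosure ({x} : Set G) = ⊤)
    {Ω : Type*} [MulAction G Ω] [Finite Ω] (ω₀ : Ω) (htrans : ∀ ω : Ω, ∃ g : G, g • ω₀ = ω)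
    (hne : ∃ ω : Ω, ω ≠ ω₀) : 3 * Nat.card {ω : Ω // x • ω = ω} ≤ Nat.card Ω := by
  classical
  let S := MulAction.stabilizer G ω₀
  let φ : G ⧸ S → Ω := MulAction.ofQuotientStabilizer G ω₀
  have hφi : Function.Injective φ := MulAction.injective_ofQuotientStabilizer G ω₀
  have hφs : Function.Surjective φ := by
    intro ω
    obtain ⟨g, rfl⟩ := htrans ω
    exact ⟨(g : G ⧸ S), rfl⟩
  have hS : S ≠ ⊤ := by
    intro h
    obtain ⟨ω, hω⟩ := hne
    obtain ⟨g, rfl⟩ := htrans ω
    have : g ∈ S := by rw [h]; trivial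
    exact hω this
  have h1 := fix_ratio hp hx hgen _ S rfl hS
  have h2 : Nat.card {ω : Ω // x • ω = ω} = Nat.card {q : G ⧸ S // x • q = q} := by
    symm
    apply Nat.card_congr
    refine Equiv.subtypeEquiv (Equiv.ofBijective φ ⟨hφi, hφs⟩) ?_
    intro q
    have h3 : φ (x • q) = x • φ q := MulAction.ofQuotientStabilizer_smul G ω₀ x q
    show x • q = q ↔ x • φ q = φ q
    rw [← h3]
    exact hφi.eq_iff.symm
  have h3 : Nat.card Ω = S.index := by
    symm
    exact Nat.card_congr (Equiv.ofBijective φ ⟨hφi, hφs⟩)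
  rw [h2, h3]
  exact h1

end Cfsg.Agent.Lib.FGS.FixRatio
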