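/-
Fixed spaces in the imprimitive case: a noncentral abelian normal subgroup gives a system of
imprimitivity, permuted transitively, with weight spaces as blocks.
-/
import Mathlib
import Cfsg.Agent.Lib.FGS.FixRatio
import Cfsg.Agent.Lib.FGS.BlockCount
import Cfsg.Agent.Lib.HallHigman.FrobFree

set_option autoImplicit false

namespace Cfsg.Agent.Lib.FGS.AbelCase

open Module Cfsg.Agent.Lib.HallHigman.FrobFree

universe u v w

section eigen

variable {K : Type u} [Field K] [IsAlgClosed K] {W : Type v} [AddCommGroup W] [Module K W]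
  [FiniteDimensional K W] [Nontrivial W]

/-- A commuting family of operators has a common eigenvector. -/
theorem exists_wt_ne_bot {ι : Type*} (T : ι → End K W) (hc : ∀ i j, Commute (T i) (T j)) :
    ∃ χ : ι → K, wt T χ ≠ ⊥ := by
  classical
  let P : Submodule K W → Prop := fun U => U ≠ ⊥ ∧ ∀ i, ∀ u ∈ U, T i u ∈ U
  obtain ⟨U₁, hU₁⟩ := exists_minimal_of_wellFoundedLT P ⟨⊤, top_ne_bot, fun i u _ => Submodule.mem_top⟩
  obtain ⟨h1, h2⟩ := hU₁.1
  haveI : Nontrivial U₁ := Submodule.nontrivial_iff_ne_bot.mpr h1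
  have hscal : ∀ i, ∃ c : K, ∀ u ∈ U₁, T i u = c • u := by
    intro i
    obtain ⟨c, hc'⟩ := Module.End.exists_eigenvalue ((T i).restrict (h2 i))
    obtain ⟨v, hv⟩ := hc'.exists_hasEigenvector
    refine ⟨c, ?_⟩
    let U₂ : Submodule K W := U₁ ⊓ (T i).eigenspace c
    have hU₂ : P U₂ := by
      constructor
      · intro hbot
        have hv1 : (v : W) ∈ U₂ := by
          refine ⟨v.2, ?_⟩
          rw [SetLike.mem_coe, Module.End.mem_eigenspace_iff]
          have := hv.apply_eq_smul
          exact congrArg Subtype.val this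
        rw [hbot, Submodule.mem_bot] at hv1
        exact hv.2 (Subtype.ext hv1)
      · intro j u hu
        refine ⟨h2 j u hu.1, ?_⟩
        have hu2 : T i u = c • u := Module.End.mem_eigenspace_iff.mp hu.2
        rw [SetLike.mem_coe, Module.End.mem_eigenspace_iff]
        have h3 : T i (T j u) = T j (T i u) := by
          have := LinearMap.congr_fun (hc i j) u
          simpa using this
        rw [h3, hu2, map_smul]
    have hle : U₁ ≤ U₂ := hU₁.2 hU₂ inf_le_left
    intro u hu
    exact Module.End.mem_eigenspace_iff.mp (hle hu).2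
  choose χ hχ using hscal
  refine ⟨χ, fun hbot => h1 ?_⟩
  rw [eq_bot_iff, ← hbot]
  intro u hu
  exact mem_wt.mpr (fun i => hχ i u hu)

omit [IsAlgClosed K] [FiniteDimensional K W] [Nontrivial W] in
theorem wt_indep' {ι : Type*} (T : ι → End K W) (hc : ∀ i j, Commute (T i) (T j)) :
    iSupIndep (wt T) := by
  have h := Module.End.independent_iInf_maxGenEigenspace_of_forall_mapsTo T
    (fun i j φ => Module.End.mapsTo_maxGenEigenspace_of_comm (hc j i) φ)
  refine h.mono (fun χ => ?_)
  exact iInf_mono (fun i => Module.End.eigenspace_le_maxGenEigenspace)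

end eigen

section main

variable {K : Type u} [Field K] [IsAlgClosed K] {G : Type w} [Group G] [Finite G]
  {W : Type v} [AddCommGroup W] [Module K W] [FiniteDimensional K W] [Nontrivial W]

theorem abelian_case [Group.IsSolvable G] (ρ : G →* End K W) (hfaith : Function.Injective ρ)
    (hirr : ∀ U : Submodule K W, (∀ g, ∀ u ∈ U, ρ g u ∈ U) → U = ⊥ ∨ U = ⊤)
    {p : ℕ} (hp : p.Prime) (hp5 : 5 ≤ p) (x : G) (hord : orderOf x = p)
    (hgen : Subgroup.normalClosure ({x} : Set G) = ⊤) (A : Subgroup G) [hA : A.Normal]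
    (hab : ∀ a ∈ A, ∀ b ∈ A, a * b = b * a) (hnc : ¬ A ≤ Subgroup.center G) :
    2 * finrank K (LinearMap.ker (ρ x - 1 : End K W)) < finrank K W := by
  classical
  have hxp : x ^ p = 1 := by rw [← hord, pow_orderOf_eq_one]
  let T : A → End K W := fun a => ρ a
  have hc : ∀ i j, Commute (T i) (T j) := by
    intro i j
    change ρ i * ρ j = ρ j * ρ i
    rw [← map_mul, ← map_mul, hab i i.2 j j.2]
  obtain ⟨χ₀, hχ₀⟩ := exists_wt_ne_bot T hc
  letI act : MulAction G (A → K) :=
    { smul := fun g χ a => χ ⟨g⁻¹ * a * g, hA.conj_mem' a a.2 g⟩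
      one_smul := by
        intro χ
        funext a
        change χ _ = χ a
        congr 1
        apply Subtype.ext
        simp
      mul_smul := by
        intro g h χ
        funext a
        change χ _ = χ _
        congr 1
        apply Subtype.ext
        simp [mul_assoc] }
  have hact : ∀ (g : G) (χ : A → K) (a : A), (g • χ) a = χ ⟨g⁻¹ * a * g, hA.conj_mem' a a.2 g⟩ :=
    fun g χ a => rfl
  -- action on weight spaces
  have hmove : ∀ (g : G) (χ : A → K), ∀ v ∈ wt T χ, ρ g v ∈ wt T (g • χ) := by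
    intro g χ v hv
    rw [mem_wt] at hv ⊢
    intro a
    have h1 := hv ⟨g⁻¹ * a * g, hA.conj_mem' a a.2 g⟩
    change ρ a (ρ g v) = (g • χ) a • ρ g v
    rw [hact, ← map_smul, ← h1]
    change _ = ρ g (ρ (g⁻¹ * a * g) v)
    rw [← Module.End.mul_apply, ← Module.End.mul_apply, ← map_mul, ← map_mul]
    congr 2
    group
  let Ω := MulAction.orbit G χ₀
  haveI : Finite Ω := Set.finite_range _
  let ω₀ : Ω := ⟨χ₀, MulAction.mem_orbit_self χ₀⟩
  have htrans : ∀ ω : Ω, ∃ g : G, g • ω₀ = ω := by
    rintro ⟨_, g, rfl⟩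
    exact ⟨g, rfl⟩
  let B : Ω → Submodule K W := fun ω => wt T (ω : A → K)
  have hmoveB : ∀ (g : G) (ω : Ω), ∀ v ∈ B ω, ρ g v ∈ B (g • ω) := fun g ω v hv => hmove g ω v hv
  have hind : iSupIndep B := (wt_indep' T hc).comp Subtype.val_injective
  have htop : ⨆ ω, B ω = ⊤ := by
    have hinv : ∀ g, ∀ u ∈ (⨆ ω, B ω), ρ g u ∈ (⨆ ω, B ω) := by
      intro g u hu
      refine Submodule.iSup_induction (motive := fun z => ρ g z ∈ (⨆ ω, B ω)) B hu ?_ ?_ ?_
      · intro ω z hz
        exact Submodule.mem_iSup_of_mem (g • ω) (hmoveB g ω z hz)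
      · simp
      · intro a b ha hb
        rw [map_add]
        exact Submodule.add_mem _ ha hb
    rcases hirr _ hinv with h | h
    · exfalso
      apply hχ₀
      have h1 : B ω₀ ≤ ⨆ ω, B ω := le_iSup B _
      rw [h] at h1
      exact le_bot_iff.mp h1
    · exact h
  have hne : ∃ ω : Ω, ω ≠ ω₀ := by
    by_contra hall
    push Not at hall
    have h1 : B ω₀ = ⊤ := by
      rw [← htop]
      apply le_antisymm (le_iSup B _)
      refine iSup_le (fun ω => ?_)
      rw [hall ω]
    apply hnc
    intro a ha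
    rw [Subgroup.mem_center_iff]
    intro g
    have hs : ρ a = χ₀ ⟨a, ha⟩ • 1 := by
      ext v
      have hv : v ∈ B ω₀ := by
        rw [h1]
        trivial
      have := mem_wt.mp hv ⟨a, ha⟩
      simpa using this
    apply hfaith
    rw [map_mul, map_mul, hs, mul_smul_comm, smul_mul_assoc, mul_one, one_mul]
  have hf := FixRatio.fix_ratio_of_transitive (hp.odd_of_ne_two (by omega)) hxp hgen ω₀ htrans hne
  let σ : Equiv.Perm Ω := MulAction.toPermHom G Ω x
  have hσ : ∀ ω, σ ω = x • ω := fun ω => rfl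
  have hσp : σ ^ p = 1 := by
    change (MulAction.toPermHom G Ω x) ^ p = 1
    rw [← map_pow, hxp, map_one]
  have hle : ∀ (g : G) (ω : Ω), finrank K (B ω) ≤ finrank K (B (g • ω)) := by
    intro g ω
    let f : B ω →ₗ[K] B (g • ω) := (ρ g).restrict (hmoveB g ω)
    refine LinearMap.finrank_le_finrank_of_injective (f := f) ?_
    rw [← LinearMap.ker_eq_bot, LinearMap.ker_eq_bot']
    intro v hv
    apply Subtype.ext
    have h1 : ρ g (v : W) = 0 := congrArg Subtype.val hv
    have h2 : ρ g⁻¹ (ρ g (v : W)) = v := by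
      rw [← Module.End.mul_apply, ← map_mul, inv_mul_cancel, map_one, Module.End.one_apply]
    rw [← h2, h1, map_zero]
    rfl
  have hd : ∀ ω, finrank K (B ω) = finrank K (B ω₀) := by
    intro ω
    obtain ⟨g, rfl⟩ := htrans ω
    apply le_antisymm _ (hle g ω₀)
    have := hle g⁻¹ (g • ω₀)
    rwa [inv_smul_smul] at this
  haveI : Nonempty Ω := ⟨ω₀⟩
  have hd0 : 0 < finrank K (B ω₀) := by
    rw [Nat.pos_iff_ne_zero, Ne, Submodule.finrank_eq_zero]
    exact hχ₀
  exact BlockCount.finrank_fixed_lt B hind htop (ρ x) σ (fun l v hv => hmoveB x l v hv) hp hp5 hσp _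
    hd hd0 hf

end main

end Cfsg.Agent.Lib.FGS.AbelCase
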