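/-
Burnside's theorem on matrix algebras, from the Jacobson density theorem, and a lower bound for the
dimension of the centralizer of an operator.
-/
import Mathlib

set_option autoImplicit false

namespace Cfsg.Agent.Lib.FGS.Density

open Module

section burnside

variable {K W Q : Type*} [Field K] [AddCommGroup W] [Module K W] [Monoid Q]

/-- **Burnside's theorem.** -/
theorem span_range_eq_top [IsAlgClosed K] [FiniteDimensional K W] [Nontrivial W]
    (σ : Q →* End K W)
    (hirr : ∀ U : Submodule K W, (∀ g, ∀ u ∈ U, σ g u ∈ U) → U = ⊥ ∨ U = ⊤) :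
    Submodule.span K (Set.range σ) = ⊤ := by
  classical
  let A : Subalgebra K (End K W) := Algebra.adjoin K (Set.range σ)
  have hσA : ∀ g, σ g ∈ A := fun g => Algebra.subset_adjoin ⟨g, rfl⟩
  have hsmul : ∀ (a : A) (v : W), a • v = (a : End K W) v := fun a v => rfl
  -- simple
  haveI hsimple : IsSimpleModule A W := by
    haveI : Nontrivial (Submodule A W) := Submodule.nontrivial_iff A |>.mpr inferInstance
    haveI hso : IsSimpleOrder (Submodule A W) := by
      refine ⟨?_⟩
      intro U
      rcases hirr (U.restrictScalars K) (fun g u hu => by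
        have h1 : (⟨σ g, hσA g⟩ : A) • u ∈ U := U.smul_mem _ hu
        exact h1) with h | h
      · left
        ext v
        have h2 : v ∈ U.restrictScalars K ↔ v ∈ (⊥ : Submodule K W) := by rw [h]
        simpa using h2
      · right
        ext v
        have h2 : v ∈ U.restrictScalars K ↔ v ∈ (⊤ : Submodule K W) := by rw [h]
        simpa using h2
    exact {}
  -- Schur
  have hschur : ∀ f : End A W, ∃ μ : K, ∀ v, f v = μ • v := by
    intro f
    let f' : End K W := f.restrictScalars K
    obtain ⟨μ, hμ⟩ := Module.End.exists_eigenvalue f'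
    refine ⟨μ, ?_⟩
    have hinv : ∀ g, ∀ u ∈ f'.eigenspace μ, σ g u ∈ f'.eigenspace μ := by
      intro g u hu
      rw [Module.End.mem_eigenspace_iff] at hu ⊢
      have h1 : f' (σ g u) = σ g (f' u) := by
        have := f.map_smul (⟨σ g, hσA g⟩ : A) u
        exact this
      rw [h1, hu, map_smul]
    rcases hirr _ hinv with h | h
    · exact absurd h hμ
    · intro v
      have hv : v ∈ f'.eigenspace μ := by
        rw [h]
        trivial
      exact Module.End.mem_eigenspace_iff.mp hv
  -- finiteness over the endomorphism ring
  haveI hfin : Module.Finite (End A W) W := Module.Finite.of_restrictScalars_finite K (End A W) W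
  have hsurj := Module.Finite.toModuleEnd_moduleEnd_surjective (R := A) (M := W)
  have htop : A = ⊤ := by
    rw [eq_top_iff]
    intro T _
    let T' : End (End A W) W :=
      { toFun := T
        map_add' := T.map_add
        map_smul' := by
          intro φ v
          obtain ⟨μ, hμ⟩ := hschur φ
          have h1 : φ • v = φ v := rfl
          have h2 : φ • (T v) = φ (T v) := rfl
          simp only [RingHom.id_apply]
          rw [h1, h2, hμ, hμ, map_smul] }
    obtain ⟨a, ha⟩ := hsurj T'
    have h3 : (a : End K W) = T := by
      ext v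
      have h4 := LinearMap.congr_fun ha v
      exact h4
    rw [← h3]
    exact a.2
  have h1 : Subalgebra.toSubmodule A = ⊤ := by
    rw [htop]
    rfl
  rw [← h1]
  have h2 := Algebra.adjoin_eq_span K (Set.range σ)
  have h3 : Submonoid.closure (Set.range σ) = MonoidHom.mrange σ := by
    rw [← MonoidHom.coe_mrange]
    exact Submonoid.closure_eq _
  rw [h2, h3, MonoidHom.coe_mrange]

end burnside

section centralizer

variable {K W : Type*} [Field K] [AddCommGroup W] [Module K W] [FiniteDimensional K W]

/-- The centralizer of an operator has dimension at least `e² + 1`, where `e` is the dimension of the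
fixed space of `T ≠ 1`. -/
theorem finrank_centralizer_ge (T : End K W) (hT : T ≠ 1) (C : Submodule K (End K W))
    (hC : ∀ A : End K W, A * T = T * A → A ∈ C) :
    (finrank K (LinearMap.ker (T - 1 : End K W))) ^ 2 + 1 ≤ finrank K C := by
  classical
  set N : End K W := T - 1 with hN
  let K₀ := LinearMap.ker N
  let I := LinearMap.range N
  have hNne : N ≠ 0 := fun h => hT (sub_eq_zero.mp h)
  -- the dimension of the cokernel
  have hdim : finrank K (W ⧸ I) = finrank K K₀ := by
    have h1 : finrank K (LinearMap.range N) + finrank K (LinearMap.ker N) = finrank K W :=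
      LinearMap.finrank_range_add_finrank_ker N
    have h2 : finrank K (W ⧸ I) + finrank K I = finrank K W :=
      Submodule.finrank_quotient_add_finrank I
    have h3 : finrank K I = finrank K (LinearMap.range N) := rfl
    have h4 : finrank K K₀ = finrank K (LinearMap.ker N) := rfl
    omega
  let Φ : ((W ⧸ I) →ₗ[K] K₀) × K →ₗ[K] End K W :=
    { toFun := fun p => K₀.subtype ∘ₗ p.1 ∘ₗ I.mkQ + p.2 • 1
      map_add' := by
        intro p q
        ext v
        simp [add_smul]
        abel
      map_smul' := by
        intro c p
        ext v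
        simp [smul_add, mul_smul] }
  have hΦ : ∀ p v, Φ p v = (p.1 (I.mkQ v) : W) + p.2 • v := fun p v => rfl
  have hNI : ∀ v, I.mkQ (N v) = 0 := by
    intro v
    rw [Submodule.mkQ_apply, Submodule.Quotient.mk_eq_zero]
    exact ⟨v, rfl⟩
  have hNK : ∀ u : K₀, N (u : W) = 0 := fun u => u.2
  have hinj : Function.Injective Φ := by
    rw [← LinearMap.ker_eq_bot, LinearMap.ker_eq_bot']
    rintro ⟨ψ, c⟩ h
    have h0 : ∀ v, (ψ (I.mkQ v) : W) + c • v = 0 := fun v => LinearMap.congr_fun h v
    have hc : c = 0 := by
      by_contra hc
      apply hNne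
      ext v
      have h1 := h0 (N v)
      rw [hNI, map_zero] at h1
      simp only [ZeroMemClass.coe_zero, zero_add] at h1
      have h2 := (smul_eq_zero.mp h1).resolve_left hc
      simpa using h2
    subst hc
    have hψ : ψ = 0 := by
      refine LinearMap.ext fun q => ?_
      obtain ⟨v, rfl⟩ := I.mkQ_surjective q
      have h1 := h0 v
      simpa using h1
    rw [hψ]
    rfl
  have hmem : ∀ p, Φ p ∈ C := by
    intro p
    apply hC
    ext v
    have e1 : T = N + 1 := by rw [hN]; abel
    have e2 : ∀ w, T w = N w + w := fun w => by rw [e1]; rfl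
    simp only [Module.End.mul_apply, hΦ, e2, map_add]
    rw [hNI, map_zero]
    simp only [ZeroMemClass.coe_zero, zero_add, map_smul, hNK, smul_add, add_zero]
    abel
  let Φ' : ((W ⧸ I) →ₗ[K] K₀) × K →ₗ[K] C := Φ.codRestrict C hmem
  have hinj' : Function.Injective Φ' := fun a b h => hinj (congrArg Subtype.val h)
  have h1 := LinearMap.finrank_le_finrank_of_injective hinj'
  rw [Module.finrank_prod, Module.finrank_linearMap, hdim, Module.finrank_self] at h1
  rw [sq]
  exact h1

end centralizer

end Cfsg.Agent.Lib.FGS.Density
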