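/-
The key estimate for fixed spaces: when a group `Q` of class two (modulo scalars) acts absolutely
irreducibly, its image spans the full matrix algebra with a basis indexed by `Q / Z(Q)`, and an
automorphism permutes this basis up to scalars.
-/
import Mathlib
import Cfsg.Agent.Lib.FGS.BlockCount
import Cfsg.Agent.Lib.FGS.Density
import Cfsg.Agent.Lib.HallHigman.Extraspecial
import Cfsg.Agent.Lib.HallHigman.Jordan

set_option autoImplicit false

namespace Cfsg.Agent.Lib.FGS.KeyFix

open Module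
open scoped commutatorElement

section abstractBasis

variable {K W Λ : Type*} [Field K] [AddCommGroup W] [Module K W] [FiniteDimensional K W] [Finite Λ]

theorem key_abstract (b : Basis Λ K (End K W)) (α : Equiv.Perm Λ) {p : ℕ} (hp : p.Prime)
    (hα : α ^ p = 1) (T : End K W) (hTp : T ^ p = 1) (d : Λ → K)
    (hT : ∀ t, T * b t = d t • (b (α t) * T)) (hT1 : T ≠ 1)
    (hd0 : ∀ t, d t ≠ 0)
    (hnum : 4 * (Nat.card Λ + (p - 1) * Nat.card {l : Λ // α l = l}) < p * (Nat.card Λ + 4)) :
    2 * finrank K (LinearMap.ker (T - 1 : End K W)) < finrank K W := by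
  classical
  letI : Fintype Λ := Fintype.ofFinite Λ
  obtain ⟨R, hR, hRc⟩ := BlockCount.exists_orbit_reps α hp hα
  have hinv : T * T ^ (p - 1) = 1 := by
    rw [← pow_succ', Nat.sub_add_cancel hp.one_lt.le, hTp]
  let L : End K W →ₗ[K] End K W := (LinearMap.mulLeft K T).comp (LinearMap.mulRight K (T ^ (p - 1)))
  have hL : ∀ A, L A = T * (A * T ^ (p - 1)) := fun A => rfl
  have hLb : ∀ t, L (b t) = d t • b (α t) := by
    intro t
    rw [hL, ← mul_assoc, hT, smul_mul_assoc, mul_assoc, hinv, mul_one]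
  have hcoord : ∀ t, (b.coord (α t)) ∘ₗ L = d t • b.coord t := by
    intro t
    apply b.ext
    intro s
    simp only [LinearMap.comp_apply, hLb, map_smul, LinearMap.smul_apply, Basis.coord_apply,
      Basis.repr_self, smul_eq_mul]
    by_cases hst : s = t
    · subst hst
      simp
    · have h1 : α s ≠ α t := fun h => hst (α.injective h)
      simp [Finsupp.single_apply, hst, h1]
  let C : Submodule K (End K W) := Cfsg.Agent.Lib.HallHigman.Jordan.centralizerSub T
  have hCfix : ∀ A ∈ C, L A = A := by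
    intro A hA
    have h1 : T * A = A * T := Cfsg.Agent.Lib.HallHigman.Jordan.mem_centralizerSub.mp hA
    rw [hL, ← mul_assoc, h1, mul_assoc, hinv, mul_one]
  have hcoordC : ∀ A ∈ C, ∀ t, b.coord (α t) A = d t * b.coord t A := by
    intro A hA t
    have h1 := LinearMap.congr_fun (hcoord t) A
    simp only [LinearMap.comp_apply, LinearMap.smul_apply, smul_eq_mul, hCfix A hA] at h1
    exact h1
  let Φ : C →ₗ[K] (R → K) :=
    LinearMap.pi (fun r : R => (b.coord (r : Λ)) ∘ₗ C.subtype)
  have hΦ : ∀ (A : C) (r : R), Φ A r = b.coord (r : Λ) (A : End K W) := fun A r => rfl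
  have hΦinj : Function.Injective Φ := by
    rw [← LinearMap.ker_eq_bot, LinearMap.ker_eq_bot']
    intro A hA
    apply Subtype.ext
    apply b.ext_elem
    intro t
    obtain ⟨r, hr, i, rfl⟩ := hR t
    have h0 : b.coord r (A : End K W) = 0 := by
      have := congrFun hA ⟨r, hr⟩
      rwa [hΦ] at this
    have hi : ∀ i : ℕ, b.coord ((α ^ i) r) (A : End K W) = 0 := by
      intro i
      induction i with
      | zero => simpa using h0
      | succ i ih =>
        rw [pow_succ', Equiv.Perm.mul_apply, hcoordC _ A.2, ih, mul_zero]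
    have := hi i
    simpa using this
  have h1 : finrank K C ≤ R.card := by
    have := LinearMap.finrank_le_finrank_of_injective hΦinj
    rwa [Module.finrank_fintype_fun_eq_card, Fintype.card_coe] at this
  have h2 : (finrank K (LinearMap.ker (T - 1 : End K W))) ^ 2 + 1 ≤ finrank K C :=
    Density.finrank_centralizer_ge T hT1 C (fun A hA => Cfsg.Agent.Lib.HallHigman.Jordan.mem_centralizerSub.mpr hA.symm)
  have h3 : finrank K W ^ 2 = Nat.card Λ := by
    have h4 : finrank K (End K W) = finrank K W * finrank K W := Module.finrank_linearMap K K W W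
    have h5 : finrank K (End K W) = Fintype.card Λ := Module.finrank_eq_card_basis b
    rw [sq, ← h4, h5, Nat.card_eq_fintype_card]
  by_contra hcon
  push Not at hcon
  set e := finrank K (LinearMap.ker (T - 1 : End K W))
  set n := finrank K W
  set m := Nat.card Λ
  set c := Nat.card {l : Λ // α l = l}
  have h6 : n ^ 2 ≤ 4 * e ^ 2 := by
    calc n ^ 2 ≤ (2 * e) ^ 2 := Nat.pow_le_pow_left hcon 2
      _ = 4 * e ^ 2 := by ring
  have h7 : p * (e ^ 2 + 1) ≤ p * R.card := Nat.mul_le_mul_left _ (h2.trans h1)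
  have h8 : p * (m + 4) ≤ 4 * (p * (e ^ 2 + 1)) := by
    calc p * (m + 4) ≤ p * (4 * e ^ 2 + 4) := by
          apply Nat.mul_le_mul_left
          omega
      _ = 4 * (p * (e ^ 2 + 1)) := by ring
  omega

end abstractBasis

section group

variable {K W Q : Type*} [Field K] [IsAlgClosed K] [AddCommGroup W] [Module K W]
  [FiniteDimensional K W] [Nontrivial W] [Group Q] [Finite Q]

theorem key_fixed (σ : Q →* End K W)
    (hirr : ∀ U : Submodule K W, (∀ g, ∀ u ∈ U, σ g u ∈ U) → U = ⊥ ∨ U = ⊤)
    (cx : Q ≃* Q) (T : End K W) {p : ℕ} (hp : p.Prime) (hTp : T ^ p = 1)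
    (hT : ∀ q, T * σ q = σ (cx q) * T)
    (hC : ∀ a b : Q, ∃ c : K, σ ⁅a, b⁆ = c • 1 ∧ (⁅a, b⁆ ≠ 1 → c ≠ 1))
    (α : Equiv.Perm (Q ⧸ Subgroup.center Q))
    (hα : ∀ q : Q, α (q : Q ⧸ Subgroup.center Q) = (cx q : Q ⧸ Subgroup.center Q))
    (hαp : α ^ p = 1) (hm : 1 < Nat.card (Q ⧸ Subgroup.center Q))
    (hnum : 4 * (Nat.card (Q ⧸ Subgroup.center Q) +
        (p - 1) * Nat.card {l : Q ⧸ Subgroup.center Q // α l = l}) <
      p * (Nat.card (Q ⧸ Subgroup.center Q) + 4)) :
    2 * finrank K (LinearMap.ker (T - 1 : End K W)) < finrank K W := by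
  classical
  letI : Fintype (Q ⧸ Subgroup.center Q) := Fintype.ofFinite _
  let s : Q ⧸ Subgroup.center Q → Q := Quotient.out
  have hs : ∀ t : Q ⧸ Subgroup.center Q, ((s t : Q) : Q ⧸ Subgroup.center Q) = t :=
    fun t => QuotientGroup.out_eq' t
  have hu1 : ∀ q, σ q * σ q⁻¹ = 1 := fun q => by rw [← map_mul, mul_inv_cancel, map_one]
  have hu2 : ∀ q, σ q⁻¹ * σ q = 1 := fun q => by rw [← map_mul, inv_mul_cancel, map_one]
  have hne : ∀ q, σ q ≠ 0 := by
    intro q h
    have := hu1 q
    rw [h, zero_mul] at this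
    exact zero_ne_one this
  have hZ : ∀ z ∈ Subgroup.center Q, ∃ c : K, σ z = c • 1 := by
    intro z hz
    refine Cfsg.Agent.Lib.HallHigman.Extraspecial.schur σ hirr (σ z) (fun g => ?_)
    rw [← map_mul, ← map_mul, ← Subgroup.mem_center_iff.mp hz g]
  have hdec : ∀ q : Q, ∃ c : K, c ≠ 0 ∧ σ q = c • σ (s (q : Q ⧸ Subgroup.center Q)) := by
    intro q
    have h1 : (s (q : Q ⧸ Subgroup.center Q))⁻¹ * q ∈ Subgroup.center Q :=
      QuotientGroup.eq.mp (hs q)
    obtain ⟨c, hc⟩ := hZ _ h1
    have h2 : σ q = σ (s (q : Q ⧸ Subgroup.center Q)) *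
        σ ((s (q : Q ⧸ Subgroup.center Q))⁻¹ * q) := by
      rw [← map_mul, mul_inv_cancel_left]
    refine ⟨c, ?_, ?_⟩
    · rintro rfl
      rw [zero_smul] at hc
      exact hne _ hc
    · rw [hc, mul_smul_comm, mul_one] at h2
      exact h2
  have hchi : ∀ f q : Q, ∃ c : K, σ f * σ q * σ f⁻¹ = c • σ q ∧ (⁅f, q⁆ ≠ 1 → c ≠ 1) := by
    intro f q
    obtain ⟨c, hc, hc1⟩ := hC f q
    refine ⟨c, ?_, hc1⟩
    have h1 : σ f * σ q * σ f⁻¹ * σ q⁻¹ = c • 1 := by
      rw [← hc, commutatorElement_def, map_mul, map_mul, map_mul]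
    calc σ f * σ q * σ f⁻¹ = σ f * σ q * σ f⁻¹ * (σ q⁻¹ * σ q) := by rw [hu2, mul_one]
      _ = (σ f * σ q * σ f⁻¹ * σ q⁻¹) * σ q := by simp only [mul_assoc]
      _ = c • σ q := by rw [h1, smul_mul_assoc, one_mul]
  choose chi hchi1 hchi2 using hchi
  have huniq : ∀ (q : Q) (c c' : K), c • σ q = c' • σ q → c = c' := by
    intro q c c' h
    by_contra hcc
    have h1 : (c - c') • σ q = 0 := by rw [sub_smul, h, sub_self]
    rcases smul_eq_zero.mp h1 with h2 | h2
    · exact hcc (sub_eq_zero.mp h2)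
    · exact hne q h2
  have hchi_one : ∀ q, chi 1 q = 1 := by
    intro q
    apply huniq q
    rw [← hchi1, one_smul, inv_one, map_one, one_mul, mul_one]
  have hchi_mul : ∀ f g q, chi (f * g) q = chi f q * chi g q := by
    intro f g q
    apply huniq q
    rw [← hchi1 (f * g) q, map_mul, mul_inv_rev, map_mul]
    calc σ f * σ g * σ q * (σ g⁻¹ * σ f⁻¹) = σ f * (σ g * σ q * σ g⁻¹) * σ f⁻¹ := by
          simp only [mul_assoc]
      _ = chi g q • (σ f * σ q * σ f⁻¹) := by rw [hchi1 g q, mul_smul_comm, smul_mul_assoc]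
      _ = (chi f q * chi g q) • σ q := by rw [hchi1 f q, smul_smul, mul_comm]
  have hchi_mulr : ∀ f q q', chi f (q * q') = chi f q * chi f q' := by
    intro f q q'
    apply huniq (q * q')
    rw [← hchi1 f (q * q'), map_mul]
    calc σ f * (σ q * σ q') * σ f⁻¹ = σ f * σ q * (σ f⁻¹ * σ f) * σ q' * σ f⁻¹ := by
          rw [hu2 f]
          simp only [mul_assoc, mul_one]
      _ = (σ f * σ q * σ f⁻¹) * (σ f * σ q' * σ f⁻¹) := by simp only [mul_assoc]
      _ = (chi f q * chi f q') • (σ q * σ q') := by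
          rw [hchi1 f q, hchi1 f q', smul_mul_smul_comm]
  have hchi_oner : ∀ f, chi f 1 = 1 := by
    intro f
    apply huniq 1
    rw [← hchi1 f 1, map_one, mul_one, hu1, one_smul]
  let X : (Q ⧸ Subgroup.center Q) → (Q →* K) := fun t =>
    { toFun := fun f => chi f (s t)
      map_one' := hchi_one _
      map_mul' := fun f g => hchi_mul f g _ }
  have hX : ∀ t f, X t f = chi f (s t) := fun t f => rfl
  have hXinj : Function.Injective X := by
    intro t t' h
    have h1 : ∀ f, chi f (s t) = chi f (s t') := fun f => by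
      rw [← hX, ← hX, h]
    have h2 : (s t')⁻¹ * s t ∈ Subgroup.center Q := by
      rw [Subgroup.mem_center_iff]
      intro f
      by_contra hf
      have h3 : ⁅f, (s t')⁻¹ * s t⁆ ≠ 1 := by
        intro h4
        apply hf
        exact commutatorElement_eq_one_iff_mul_comm.mp h4
      apply hchi2 f _ h3
      rw [hchi_mulr, h1]
      rw [← hchi_mulr, inv_mul_cancel, hchi_oner]
    have h5 : ((s t' : Q) : Q ⧸ Subgroup.center Q) = (s t : Q) := QuotientGroup.eq.mpr h2
    rw [hs, hs] at h5
    exact h5.symm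
  have hli : LinearIndependent K (fun t : Q ⧸ Subgroup.center Q => σ (s t)) := by
    rw [Fintype.linearIndependent_iff]
    intro g hg t
    by_contra hgt
    obtain ⟨φ, hφ⟩ : ∃ φ : Module.Dual K (End K W), φ (σ (s t)) ≠ 0 := by
      by_contra hall
      push Not at hall
      exact hne _ ((Module.forall_dual_apply_eq_zero_iff K _).mp hall)
    have hXli := (linearIndependent_monoidHom Q K).comp X hXinj
    rw [Fintype.linearIndependent_iff] at hXli
    have h1 := hXli (fun t' => g t' * φ (σ (s t'))) ?_ t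
    · exact (mul_ne_zero hgt hφ) h1
    · funext f
      have h2 : σ f * (∑ t', g t' • σ (s t')) * σ f⁻¹ = 0 := by
        rw [hg, mul_zero, zero_mul]
      have h3 : ∑ t', (g t' * chi f (s t')) • σ (s t') = 0 := by
        rw [← h2, Finset.mul_sum, Finset.sum_mul]
        refine Finset.sum_congr rfl (fun t' _ => ?_)
        rw [mul_smul_comm, smul_mul_assoc, hchi1, smul_smul]
      have h4 := congrArg φ h3
      rw [map_sum, map_zero] at h4
      simp only [Finset.sum_apply, Function.comp_apply, Pi.smul_apply, smul_eq_mul, Pi.zero_apply]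
      rw [← h4]
      refine Finset.sum_congr rfl (fun t' _ => ?_)
      rw [map_smul, smul_eq_mul, hX]
      ring
  have hspan : ⊤ ≤ Submodule.span K (Set.range (fun t : Q ⧸ Subgroup.center Q => σ (s t))) := by
    rw [← Density.span_range_eq_top σ hirr, Submodule.span_le]
    rintro _ ⟨q, rfl⟩
    obtain ⟨c, _, hc⟩ := hdec q
    rw [hc]
    exact Submodule.smul_mem _ c (Submodule.subset_span ⟨_, rfl⟩)
  let b := Basis.mk hli hspan
  have hb : ∀ t, b t = σ (s t) := fun t => Basis.mk_apply hli hspan t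
  choose d hd0 hd using fun t : Q ⧸ Subgroup.center Q => hdec (cx (s t))
  have hαs : ∀ t, ((cx (s t) : Q) : Q ⧸ Subgroup.center Q) = α t := by
    intro t
    rw [← hα, hs]
  have hT' : ∀ t, T * b t = d t • (b (α t) * T) := by
    intro t
    rw [hb, hT, hd, hαs, hb, smul_mul_assoc]
  have hT1 : T ≠ 1 := by
    rintro rfl
    have hαid : ∀ t, α t = t := by
      intro t
      by_contra hne'
      have h1 : b t = d t • b (α t) := by simpa using hT' t
      have h2 := congrArg (fun A => b.repr A t) h1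
      simp [Basis.repr_self, Finsupp.single_apply, Ne.symm hne'] at h2
    have h3 : Nat.card {l : Q ⧸ Subgroup.center Q // α l = l} =
        Nat.card (Q ⧸ Subgroup.center Q) :=
      Nat.card_congr (Equiv.subtypeUnivEquiv hαid)
    rw [h3] at hnum
    obtain ⟨q, rfl⟩ : ∃ q, p = q + 1 := ⟨p - 1, (Nat.sub_add_cancel hp.one_lt.le).symm⟩
    simp only [Nat.add_sub_cancel] at hnum
    nlinarith
  exact key_abstract b α hp hαp T hTp d hT' hT1 hd0 hnum

end group

end Cfsg.Agent.Lib.FGS.KeyFix
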