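/-
Subrepresentations and quotient representations, and the subadditivity of fixed spaces of one operator.
-/
import Mathlib

set_option autoImplicit false

namespace Cfsg.Agent.Lib.FGS.SubRep

open Module

variable {K H W : Type*} [Field K] [Group H] [AddCommGroup W] [Module K W]

/-- The representation on an invariant subspace. -/
def subRep (ρ : H →* End K W) (U : Submodule K W) (hU : ∀ g, ∀ u ∈ U, ρ g u ∈ U) : H →* End K U where
  toFun g := (ρ g).restrict (hU g)
  map_one' := by
    ext u
    simp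
  map_mul' g h := by
    ext u
    simp

@[simp] theorem subRep_apply (ρ : H →* End K W) (U : Submodule K W) (hU : ∀ g, ∀ u ∈ U, ρ g u ∈ U)
    (g : H) (u : U) : ((subRep ρ U hU g u : U) : W) = ρ g u := rfl

/-- The representation on a quotient by an invariant subspace. -/
def quoRep (ρ : H →* End K W) (U : Submodule K W) (hU : ∀ g, ∀ u ∈ U, ρ g u ∈ U) :
    H →* End K (W ⧸ U) where
  toFun g := U.mapQ U (ρ g) (fun u hu => hU g u hu)
  map_one' := by
    apply LinearMap.ext
    intro v
    obtain ⟨w, rfl⟩ := U.mkQ_surjective v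
    simp
  map_mul' g h := by
    apply LinearMap.ext
    intro v
    obtain ⟨w, rfl⟩ := U.mkQ_surjective v
    simp

@[simp] theorem quoRep_mk (ρ : H →* End K W) (U : Submodule K W) (hU : ∀ g, ∀ u ∈ U, ρ g u ∈ U)
    (g : H) (w : W) : quoRep ρ U hU g (U.mkQ w) = U.mkQ (ρ g w) := rfl

theorem finrank_ker_le [FiniteDimensional K W] (T : End K W) (U : Submodule K W)
    (T₁ : End K U) (T₂ : End K (W ⧸ U))
    (h₁ : ∀ u : U, ((T₁ u : U) : W) = T u) (h₂ : ∀ w, T₂ (U.mkQ w) = U.mkQ (T w)) :
    finrank K (LinearMap.ker (T - 1 : End K W)) ≤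
      finrank K (LinearMap.ker (T₁ - 1 : End K U)) +
        finrank K (LinearMap.ker (T₂ - 1 : End K (W ⧸ U))) := by
  set K₀ := LinearMap.ker (T - 1 : End K W) with hK₀
  set K₁ := LinearMap.ker (T₁ - 1 : End K U) with hK₁
  set K₂ := LinearMap.ker (T₂ - 1 : End K (W ⧸ U)) with hK₂
  have hm₀ : ∀ v : K₀, T v = v := by
    intro v
    have h0 : (T - 1 : End K W) (v : W) = 0 := v.2
    rw [LinearMap.sub_apply, Module.End.one_apply, sub_eq_zero] at h0
    exact h0
  let π : K₀ →ₗ[K] K₂ := (U.mkQ ∘ₗ K₀.subtype).codRestrict K₂ (by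
    intro v
    change (T₂ - 1 : End K (W ⧸ U)) _ = 0
    rw [LinearMap.sub_apply, Module.End.one_apply, sub_eq_zero]
    simp only [LinearMap.comp_apply, Submodule.subtype_apply]
    rw [h₂, hm₀])
  have hπ : ∀ v, ((π v : K₂) : W ⧸ U) = U.mkQ (v : W) := fun v => rfl
  have hker : ∀ v : LinearMap.ker π, ((v : K₀) : W) ∈ U := by
    intro v
    have h1 : π (v : K₀) = 0 := v.2
    have h2 := congrArg Subtype.val h1
    rw [hπ] at h2
    exact (Submodule.Quotient.mk_eq_zero U).mp h2
  let θ : LinearMap.ker π →ₗ[K] K₁ :=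
    { toFun := fun v => ⟨⟨((v : K₀) : W), hker v⟩, by
        change (T₁ - 1 : End K U) _ = 0
        rw [LinearMap.sub_apply, Module.End.one_apply, sub_eq_zero]
        apply Subtype.ext
        rw [h₁]
        exact hm₀ _⟩
      map_add' := fun _ _ => rfl
      map_smul' := fun _ _ => rfl }
  have hθ : Function.Injective θ := by
    intro a b h
    have h1 := congrArg (fun y : K₁ => (((y : U) : W))) h
    exact Subtype.ext (Subtype.ext h1)
  have h1 := LinearMap.finrank_range_add_finrank_ker π
  have h2 := LinearMap.finrank_le_finrank_of_injective hθ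
  have h3 : finrank K (LinearMap.range π) ≤ finrank K K₂ := Submodule.finrank_le _
  omega

/-- Strict inequality for the fixed spaces passes through an extension. -/
theorem fixed_lt_of_sub_quot [FiniteDimensional K W] (T : End K W) (U : Submodule K W)
    (T₁ : End K U) (T₂ : End K (W ⧸ U))
    (h₁ : ∀ u : U, ((T₁ u : U) : W) = T u) (h₂ : ∀ w, T₂ (U.mkQ w) = U.mkQ (T w))
    (h3 : 2 * finrank K (LinearMap.ker (T₁ - 1 : End K U)) < finrank K U)
    (h4 : 2 * finrank K (LinearMap.ker (T₂ - 1 : End K (W ⧸ U))) < finrank K (W ⧸ U)) :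
    2 * finrank K (LinearMap.ker (T - 1 : End K W)) < finrank K W := by
  have h5 := finrank_ker_le T U T₁ T₂ h₁ h₂
  have h6 := Submodule.finrank_quotient_add_finrank U
  omega

end Cfsg.Agent.Lib.FGS.SubRep
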