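/-
The fixed space of `x` on any representation of `⟨E, x⟩`, when `E` is of class two modulo scalars.
-/
import Mathlib
import Cfsg.Agent.Lib.FGS.KeyFix
import Cfsg.Agent.Lib.FGS.SubRep
import Cfsg.Agent.Lib.HallHigman.Clifford
import Cfsg.Agent.Lib.HallHigman.FrobRep

set_option autoImplicit false

namespace Cfsg.Agent.Lib.FGS.KeySub

open Module Cfsg.Agent.Lib.HallHigman.Irr Cfsg.Agent.Lib.HallHigman.Clifford
open Cfsg.Agent.Lib.HallHigman.FrobRep
open scoped commutatorElement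

universe u v w w'

section

variable {K : Type u} [Field K] [IsAlgClosed K] {H : Type w} [Group H] [Finite H]
  {Q : Type w'} [Group Q] [Finite Q]

theorem irr_case {W : Type v} [AddCommGroup W] [Module K W] [FiniteDimensional K W] [Nontrivial W]
    (ρ : H →* End K W)
    (hirr : ∀ U : Submodule K W, (∀ g, ∀ u ∈ U, ρ g u ∈ U) → U = ⊥ ∨ U = ⊤)
    (j : Q →* H) (x : H) {p : ℕ} (hp : p.Prime) (hp5 : 5 ≤ p) (hord : orderOf x = p)
    (cx : Q ≃* Q) (hcx : ∀ q, j (cx q) = x * j q * x⁻¹)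
    (hcx' : ∀ q, j (cx.symm q) = x⁻¹ * j q * x)
    (hgen : ∀ g : H, ∃ q : Q, ∃ k : ℕ, g = j q * x ^ k)
    (hC : ∀ a b : Q, ∃ c : K, ρ (j ⁅a, b⁆) = c • 1 ∧ (⁅a, b⁆ ≠ 1 → c ≠ 1))
    (α : Equiv.Perm (Q ⧸ Subgroup.center Q))
    (hα : ∀ q : Q, α (q : Q ⧸ Subgroup.center Q) = (cx q : Q ⧸ Subgroup.center Q))
    (hαp : α ^ p = 1) (hm : 1 < Nat.card (Q ⧸ Subgroup.center Q))
    (hnum : 4 * (Nat.card (Q ⧸ Subgroup.center Q) +
        (p - 1) * Nat.card {l : Q ⧸ Subgroup.center Q // α l = l}) <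
      p * (Nat.card (Q ⧸ Subgroup.center Q) + 4)) :
    2 * finrank K (LinearMap.ker (ρ x - 1 : End K W)) < finrank K W := by
  classical
  have hxp : x ^ p = 1 := by rw [← hord, pow_orderOf_eq_one]
  haveI : Fact p.Prime := ⟨hp⟩
  set Q' : Subgroup H := j.range with hQ'
  have hxn : x ∈ Subgroup.normalizer (Q' : Set H) := by
    rw [Subgroup.mem_normalizer_iff]
    intro h
    constructor
    · rintro ⟨q, rfl⟩
      exact ⟨cx q, hcx q⟩
    · rintro ⟨q, hq⟩
      refine ⟨cx.symm q, ?_⟩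
      rw [hcx', hq]
      group
  -- an irreducible `Q'`-subspace
  obtain ⟨U₁, hU₁⟩ : ∃ U₁, IsIrr ρ Q' U₁ := by
    let P : Submodule K W → Prop := fun W' => W' ≠ ⊥ ∧ IsInv ρ Q' W'
    obtain ⟨U₁, hU₁⟩ := exists_minimal_of_wellFoundedLT P
      ⟨⊤, top_ne_bot, fun g _ w _ => Submodule.mem_top⟩
    obtain ⟨h1, h3⟩ := hU₁.1
    refine ⟨U₁, ⟨h1, h3, fun W' hW' hinv => ?_⟩⟩
    by_cases h0 : W' = ⊥
    · exact Or.inl h0
    · exact Or.inr (le_antisymm hW' (hU₁.2 ⟨h0, hinv⟩ hW'))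
  by_cases hS : HomNZ ρ Q' (tw ρ x U₁) U₁
  · -- stable
    obtain ⟨U, hU, hUx, -⟩ := exists_invariant_irr hxn hU₁ hS
    have hUx' : ∀ k : ℕ, ∀ u ∈ U, ρ (x ^ k) u ∈ U := by
      intro k
      induction k with
      | zero => simp
      | succ k ih =>
        intro u hu
        rw [pow_succ', map_mul, Module.End.mul_apply]
        exact hUx _ (ih u hu)
    have hUH : ∀ g, ∀ u ∈ U, ρ g u ∈ U := by
      intro g u hu
      obtain ⟨q, k, rfl⟩ := hgen g
      rw [map_mul, Module.End.mul_apply]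
      exact hU.inv _ ⟨q, rfl⟩ _ (hUx' k u hu)
    have hUtop : U = ⊤ := (hirr U hUH).resolve_left hU.ne_bot
    let σ : Q →* End K W := ρ.comp j
    have hσ : ∀ q, σ q = ρ (j q) := fun q => rfl
    have hirrQ : ∀ U' : Submodule K W, (∀ g, ∀ u ∈ U', σ g u ∈ U') → U' = ⊥ ∨ U' = ⊤ := by
      intro U' hU'
      have h1 := hU.min U' (by rw [hUtop]; exact le_top) (by
        rintro g ⟨q, rfl⟩ w hw
        exact hU' q w hw)
      rwa [hUtop] at h1
    have hT : ∀ q, ρ x * σ q = σ (cx q) * ρ x := by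
      intro q
      rw [hσ, hσ, hcx, ← map_mul, ← map_mul]
      congr 1
      group
    have hTp : (ρ x) ^ p = 1 := by rw [← map_pow, hxp, map_one]
    exact KeyFix.key_fixed σ hirrQ cx (ρ x) hp hTp hT hC α hα hαp hm hnum
  · -- not stable
    have hind := indep_of_not_stable hp hord hxn hU₁ hS
    let B : Fin p → Submodule K W := fun i => tw ρ (x ^ (i : ℕ)) U₁
    haveI : NeZero p := ⟨hp.ne_zero⟩
    let s : Equiv.Perm (Fin p) := Equiv.addRight (1 : Fin p)
    have hs : ∀ i : Fin p, s i = i + 1 := fun i => rfl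
    have hTB : ∀ l, ∀ v ∈ B l, ρ x v ∈ B (s l) := by
      intro l v hv
      obtain ⟨w, hw, rfl⟩ := hv
      refine ⟨w, hw, ?_⟩
      rw [hs, ← Module.End.mul_apply, ← map_mul, ← pow_succ']
      have h1 : x ^ ((l + 1 : Fin p) : ℕ) = x ^ ((l : ℕ) + 1) := by
        rw [← pow_mod_orderOf x ((l : ℕ) + 1), hord]
        congr 1
        haveI : Fact (1 < p) := ⟨hp.one_lt⟩
        rw [Fin.val_add, Fin.val_one']
        simp [Nat.mod_eq_of_lt hp.one_lt]
      rw [h1]
    have htop : ⨆ l, B l = ⊤ := by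
      have hinv : ∀ g, ∀ u ∈ (⨆ l, B l), ρ g u ∈ (⨆ l, B l) := by
        intro g u hu
        obtain ⟨q, k, rfl⟩ := hgen g
        have hxk : ∀ k : ℕ, ∀ u ∈ (⨆ l, B l), ρ (x ^ k) u ∈ (⨆ l, B l) := by
          intro k
          induction k with
          | zero => simp
          | succ k ih =>
            intro u hu
            rw [pow_succ', map_mul, Module.End.mul_apply]
            have h2 := ih u hu
            refine Submodule.iSup_induction (motive := fun z => ρ x z ∈ (⨆ l, B l)) B h2 ?_ ?_ ?_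
            · intro l z hz
              exact Submodule.mem_iSup_of_mem (s l) (hTB l z hz)
            · simp
            · intro a b ha hb
              rw [map_add]
              exact Submodule.add_mem _ ha hb
        have hq : ∀ u ∈ (⨆ l, B l), ρ (j q) u ∈ (⨆ l, B l) := by
          intro u hu
          refine Submodule.iSup_induction (motive := fun z => ρ (j q) z ∈ (⨆ l, B l)) B hu ?_ ?_ ?_
          · intro l z hz
            refine Submodule.mem_iSup_of_mem l ?_
            obtain ⟨w, hw, rfl⟩ := hz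
            have hnq : (x ^ (l : ℕ))⁻¹ * j q * x ^ (l : ℕ) ∈ Q' := by
              have h3 : (x ^ (l : ℕ))⁻¹ ∈ Subgroup.normalizer (Q' : Set H) :=
                Subgroup.inv_mem _ (Subgroup.pow_mem _ hxn _)
              have h4 := (Subgroup.mem_normalizer_iff.mp h3 (j q)).mp ⟨q, rfl⟩
              simpa using h4
            refine ⟨ρ ((x ^ (l : ℕ))⁻¹ * j q * x ^ (l : ℕ)) w, hU₁.inv _ hnq w hw, ?_⟩
            rw [← Module.End.mul_apply, ← Module.End.mul_apply, ← map_mul, ← map_mul]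
            congr 2
            group
          · simp
          · intro a b ha hb
            rw [map_add]
            exact Submodule.add_mem _ ha hb
        rw [map_mul, Module.End.mul_apply]
        exact hq _ (hxk k u hu)
      rcases hirr _ hinv with h | h
      · exfalso
        apply hU₁.ne_bot
        have h1 : B ⟨0, hp.pos⟩ ≤ ⨆ l, B l := le_iSup B _
        rw [h] at h1
        have h2 : B ⟨0, hp.pos⟩ = U₁ := by
          simp [B, tw_one]
        rw [h2] at h1
        exact le_bot_iff.mp h1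
      · exact h
    have hσp : s ^ p = 1 := by
      ext i
      have h1 : ∀ k : ℕ, ((s ^ k) i : ℕ) = ((i : ℕ) + k) % p := by
        intro k
        induction k with
        | zero => simp [Nat.mod_eq_of_lt i.2]
        | succ k ih =>
          haveI : Fact (1 < p) := ⟨hp.one_lt⟩
          rw [pow_succ', Equiv.Perm.mul_apply, hs, Fin.val_add, ih, Fin.val_one']
          simp [Nat.mod_eq_of_lt hp.one_lt, Nat.add_assoc]
      rw [h1]
      simp [Nat.mod_eq_of_lt i.2]
    have hd : ∀ l, finrank K (B l) = finrank K U₁ := by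
      intro l
      refine LinearEquiv.finrank_eq (Submodule.equivMapOfInjective _ ?_ U₁).symm
      intro a b hab
      have h2 : ρ (x ^ (l : ℕ))⁻¹ (ρ (x ^ (l : ℕ)) a) = ρ (x ^ (l : ℕ))⁻¹ (ρ (x ^ (l : ℕ)) b) := by
        rw [show ρ (x ^ (l : ℕ)) a = ρ (x ^ (l : ℕ)) b from hab]
      rwa [rho_inv_apply, rho_inv_apply] at h2
    have hd0 : 0 < finrank K U₁ := by
      rw [Nat.pos_iff_ne_zero, Ne, Submodule.finrank_eq_zero]
      exact hU₁.ne_bot
    haveI : Nonempty (Fin p) := ⟨⟨0, hp.pos⟩⟩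
    refine BlockCount.finrank_fixed_lt B hind htop (ρ x) s hTB hp hp5 hσp _ hd hd0 ?_
    have h0 : IsEmpty {l : Fin p // s l = l} := by
      refine ⟨fun l => ?_⟩
      have h1 := l.2
      rw [hs] at h1
      have h2 : (1 : Fin p) = 0 := by simpa using h1
      haveI : Fact (1 < p) := ⟨hp.one_lt⟩
      have h3 := congrArg Fin.val h2
      rw [Fin.val_one'] at h3
      simp [Nat.mod_eq_of_lt hp.one_lt] at h3
    rw [Nat.card_of_isEmpty]
    simp

theorem fil_case (j : Q →* H) (x : H) {p : ℕ} (hp : p.Prime) (hp5 : 5 ≤ p) (hord : orderOf x = p)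
    (cx : Q ≃* Q) (hcx : ∀ q, j (cx q) = x * j q * x⁻¹)
    (hcx' : ∀ q, j (cx.symm q) = x⁻¹ * j q * x)
    (hgen : ∀ g : H, ∃ q : Q, ∃ k : ℕ, g = j q * x ^ k)
    (α : Equiv.Perm (Q ⧸ Subgroup.center Q))
    (hα : ∀ q : Q, α (q : Q ⧸ Subgroup.center Q) = (cx q : Q ⧸ Subgroup.center Q))
    (hαp : α ^ p = 1) (hm : 1 < Nat.card (Q ⧸ Subgroup.center Q))
    (hnum : 4 * (Nat.card (Q ⧸ Subgroup.center Q) +
        (p - 1) * Nat.card {l : Q ⧸ Subgroup.center Q // α l = l}) <
      p * (Nat.card (Q ⧸ Subgroup.center Q) + 4)) :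
    ∀ (n : ℕ) (W : Type v) [AddCommGroup W] [Module K W] [FiniteDimensional K W] [Nontrivial W]
      (ρ : H →* End K W), finrank K W = n →
      (∀ a b : Q, ∃ c : K, ρ (j ⁅a, b⁆) = c • 1 ∧ (⁅a, b⁆ ≠ 1 → c ≠ 1)) →
      2 * finrank K (LinearMap.ker (ρ x - 1 : End K W)) < finrank K W := by
  intro n
  induction n using Nat.strong_induction_on with
  | _ n ih =>
    intro W _ _ _ _ ρ hn hC
    by_cases hirr : ∀ U : Submodule K W, (∀ g, ∀ u ∈ U, ρ g u ∈ U) → U = ⊥ ∨ U = ⊤
    · exact irr_case ρ hirr j x hp hp5 hord cx hcx hcx' hgen hC α hα hαp hm hnum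
    · push Not at hirr
      obtain ⟨U, hU, hU1, hU2⟩ := hirr
      haveI : Nontrivial U := Submodule.nontrivial_iff_ne_bot.mpr hU1
      haveI : Nontrivial (W ⧸ U) := Submodule.Quotient.nontrivial_iff.mpr hU2
      have hd := Submodule.finrank_quotient_add_finrank U
      have hd1 : 0 < finrank K U := Module.finrank_pos
      have hd2 : 0 < finrank K (W ⧸ U) := Module.finrank_pos
      have h1 := ih (finrank K U) (by omega) U (SubRep.subRep ρ U hU) rfl (by
        intro a b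
        obtain ⟨c, hc, hc1⟩ := hC a b
        refine ⟨c, ?_, hc1⟩
        ext u
        rw [SubRep.subRep_apply, hc]
        rfl)
      have h2 := ih (finrank K (W ⧸ U)) (by omega) (W ⧸ U) (SubRep.quoRep ρ U hU) rfl (by
        intro a b
        obtain ⟨c, hc, hc1⟩ := hC a b
        refine ⟨c, ?_, hc1⟩
        apply LinearMap.ext
        intro v
        obtain ⟨w, rfl⟩ := U.mkQ_surjective v
        rw [SubRep.quoRep_mk, hc]
        rfl)
      exact SubRep.fixed_lt_of_sub_quot (ρ x) U _ _ (fun u => rfl) (fun w => rfl) h1 h2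

end

section

variable {K : Type u} [Field K] [IsAlgClosed K] {G : Type w} [Group G] [Finite G]

/-- Conjugation on a subgroup normalized by `x`, when `x` has finite order. -/
theorem exists_cx (E : Subgroup G) (x : G) (hE : x ∈ Subgroup.normalizer (E : Set G)) :
    ∃ cx : E ≃* E, ∀ q : E, ((cx q : E) : G) = x * q * x⁻¹ := by
  have h1 : ∀ q ∈ E, x * q * x⁻¹ ∈ E := fun q hq => (Subgroup.mem_normalizer_iff.mp hE q).mp hq
  have h2 : ∀ q ∈ E, x⁻¹ * q * x ∈ E := fun q hq => by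
    have := (Subgroup.mem_normalizer_iff.mp hE (x⁻¹ * q * x)).mpr (by
      have h3 : x * (x⁻¹ * q * x) * x⁻¹ = q := by group
      rwa [h3])
    exact this
  refine ⟨{ toFun := fun q => ⟨x * q * x⁻¹, h1 q q.2⟩
            invFun := fun q => ⟨x⁻¹ * q * x, h2 q q.2⟩
            left_inv := fun q => Subtype.ext (by
              show x⁻¹ * (x * (q : G) * x⁻¹) * x = q
              group)
            right_inv := fun q => Subtype.ext (by
              show x * (x⁻¹ * (q : G) * x) * x⁻¹ = q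
              group)
            map_mul' := fun a b => Subtype.ext (by
              show x * ((a : G) * b) * x⁻¹ = (x * a * x⁻¹) * (x * b * x⁻¹)
              group) }, fun q => rfl⟩

theorem exists_alpha {Q : Type*} [Group Q] (cx : Q ≃* Q) :
    ∃ α : Equiv.Perm (Q ⧸ Subgroup.center Q),
      ∀ q : Q, α (q : Q ⧸ Subgroup.center Q) = (cx q : Q ⧸ Subgroup.center Q) := by
  have hm : (Subgroup.center Q).map cx.toMonoidHom = Subgroup.center Q :=
    Subgroup.characteristic_iff_map_eq.mp inferInstance cx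
  exact ⟨(QuotientGroup.congr (Subgroup.center Q) (Subgroup.center Q) cx hm).toEquiv, fun q => rfl⟩

theorem T_sub {W : Type v} [AddCommGroup W] [Module K W] [FiniteDimensional K W] [Nontrivial W]
    (ρ : G →* End K W) (E : Subgroup G) (x : G) {p : ℕ} (hp : p.Prime) (hp5 : 5 ≤ p)
    (hord : orderOf x = p) (cx : E ≃* E) (hcx : ∀ q : E, ((cx q : E) : G) = x * q * x⁻¹)
    (hC : ∀ a b : E, ∃ c : K, ρ ((⁅a, b⁆ : E) : G) = c • 1 ∧ (⁅a, b⁆ ≠ 1 → c ≠ 1))
    (α : Equiv.Perm (E ⧸ Subgroup.center E))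
    (hα : ∀ q : E, α (q : E ⧸ Subgroup.center E) = (cx q : E ⧸ Subgroup.center E))
    (hm : 1 < Nat.card (E ⧸ Subgroup.center E))
    (hnum : 4 * (Nat.card (E ⧸ Subgroup.center E) +
        (p - 1) * Nat.card {l : E ⧸ Subgroup.center E // α l = l}) <
      p * (Nat.card (E ⧸ Subgroup.center E) + 4)) :
    2 * finrank K (LinearMap.ker (ρ x - 1 : End K W)) < finrank K W := by
  classical
  have hxp : x ^ p = 1 := by rw [← hord, pow_orderOf_eq_one]
  have hcxit : ∀ (k : ℕ) (q : E), (((cx ^ k) q : E) : G) = x ^ k * q * (x ^ k)⁻¹ := by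
    intro k
    induction k with
    | zero => simp
    | succ k ih =>
      intro q
      rw [pow_succ', MulAut.mul_apply, hcx, ih, pow_succ']
      group
  have hαit : ∀ (k : ℕ) (q : E), (α ^ k) (q : E ⧸ Subgroup.center E) =
      (((cx ^ k) q : E) : E ⧸ Subgroup.center E) := by
    intro k
    induction k with
    | zero => simp
    | succ k ih =>
      intro q
      rw [pow_succ', Equiv.Perm.mul_apply, ih, hα, pow_succ', MulAut.mul_apply]
  have hαp : α ^ p = 1 := by
    ext t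
    obtain ⟨q, rfl⟩ := QuotientGroup.mk_surjective t
    rw [hαit]
    have h1 : (cx ^ p) q = q := by
      apply Subtype.ext
      rw [hcxit, hxp]
      simp
    rw [h1]
    rfl
  have hcx' : ∀ q : E, ((cx.symm q : E) : G) = x⁻¹ * q * x := by
    intro q
    have h1 := hcx (cx.symm q)
    rw [MulEquiv.apply_symm_apply] at h1
    rw [h1]
    group
  have hpowE : ∀ (k : ℕ) (q : G), q ∈ E → x ^ k * q * (x ^ k)⁻¹ ∈ E := by
    intro k q hq
    have h0 : (((cx ^ k) ⟨q, hq⟩ : E) : G) = x ^ k * q * (x ^ k)⁻¹ := hcxit k ⟨q, hq⟩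
    rw [← h0]
    exact ((cx ^ k) ⟨q, hq⟩).2
  have hinvx : ∀ k : ℕ, (x ^ k)⁻¹ = x ^ ((p - 1) * k) := by
    intro k
    rw [← inv_pow, pow_mul]
    congr 1
    apply inv_eq_of_mul_eq_one_right
    rw [← pow_succ', Nat.sub_add_cancel hp.one_lt.le, hxp]
  let H₀ : Subgroup G :=
    { carrier := {g | ∃ e ∈ E, ∃ k : ℕ, g = e * x ^ k}
      mul_mem' := by
        rintro _ _ ⟨e, he, k, rfl⟩ ⟨e', he', l, rfl⟩
        refine ⟨e * (x ^ k * e' * (x ^ k)⁻¹), E.mul_mem he (hpowE k e' he'), k + l, ?_⟩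
        rw [pow_add]
        group
      one_mem' := ⟨1, E.one_mem, 0, by simp⟩
      inv_mem' := by
        rintro _ ⟨e, he, k, rfl⟩
        refine ⟨x ^ ((p - 1) * k) * e⁻¹ * (x ^ ((p - 1) * k))⁻¹,
          hpowE _ _ (E.inv_mem he), (p - 1) * k, ?_⟩
        rw [mul_inv_rev, hinvx k]
        group }
  have hH₀ : ∀ g, g ∈ H₀ ↔ ∃ e ∈ E, ∃ k : ℕ, g = e * x ^ k := fun g => Iff.rfl
  have hEH : ∀ e ∈ E, e ∈ H₀ := fun e he => ⟨e, he, 0, by simp⟩
  have hxH : x ∈ H₀ := ⟨1, E.one_mem, 1, by simp⟩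
  let j : E →* H₀ :=
    { toFun := fun q => ⟨q, hEH q q.2⟩
      map_one' := rfl
      map_mul' := fun _ _ => rfl }
  have hj : ∀ q, ((j q : H₀) : G) = q := fun q => rfl
  let x₀ : H₀ := ⟨x, hxH⟩
  have hord₀ : orderOf x₀ = p := by
    rw [← hord]
    exact Subgroup.orderOf_mk x hxH
  let ρ₀ : H₀ →* End K W := ρ.comp H₀.subtype
  have h := fil_case (K := K) j x₀ hp hp5 hord₀ cx
    (fun q => Subtype.ext (hcx q)) (fun q => Subtype.ext (hcx' q))
    (by
      rintro ⟨g, e, he, k, rfl⟩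
      refine ⟨⟨e, he⟩, k, Subtype.ext ?_⟩
      rfl)
    α hα hαp hm hnum (finrank K W) W ρ₀ rfl hC
  exact h

end

end Cfsg.Agent.Lib.FGS.KeySub
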