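/-
Minimal noncentral normal subgroups: structure, and the exclusion of quadratic action by p-stability.
-/
import Mathlib
import Cfsg.Agent.Lib.QuadAct.OmegaZ
import Cfsg.Agent.Lib.QuadAct.PStable
import Cfsg.Agent.Lib.Core.PSolvable2
import Cfsg.Agent.Lib.Core.Basic
import Cfsg.Agent.Lib.Solvable.Basic
import Cfsg.Agent.Lib.Involutions2.NormalFour

set_option autoImplicit false

namespace Cfsg.Agent.Lib.FGS.MinNC

open Cfsg.Agent.Lib.Solvable.Basic
open scoped commutatorElement Pointwise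

universe w

variable {G : Type w} [Group G] [Finite G]

theorem pCore_quot_bot {p : ℕ} [Fact p.Prime] (V : Subgroup G) [hVn : V.Normal] (hVp : IsPGroup p V)
    (hmin : IsMinNormal V) : Cfsg.pCore p (G ⧸ Subgroup.centralizer (V : Set G)) = ⊥ := by
  apply Cfsg.Agent.Lib.QuadAct.OmegaZ.pCore_quotient_centralizer_eq_bot
  set W : Subgroup G := ⨆ S : Sylow p G, V ⊓ Subgroup.centralizer ((S : Subgroup G) : Set G) with hW
  have hWV : W ≤ V := iSup_le fun S => inf_le_left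
  have hWn : W.Normal := by
    constructor
    intro v hv g
    refine Subgroup.iSup_induction _
      (C := fun v => g * v * g⁻¹ ∈ W) hv ?_ ?_ ?_
    · intro S z hz
      refine Subgroup.mem_iSup_of_mem (g • S) ⟨hVn.conj_mem z hz.1 g, ?_⟩
      refine Subgroup.mem_centralizer_iff.mpr ?_
      intro h hh
      have h1 : g⁻¹ * h * g ∈ (S : Subgroup G) := by
        have h2 : h ∈ ((g • S : Sylow p G) : Subgroup G) := hh
        rw [Sylow.coe_subgroup_smul, Subgroup.mem_pointwise_smul_iff_inv_smul_mem] at h2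
        simpa [MulAut.smul_def, MulAut.conj_apply] using h2
      have h3 := Subgroup.mem_centralizer_iff.mp hz.2 _ h1
      calc h * (g * z * g⁻¹) = g * ((g⁻¹ * h * g) * z) * g⁻¹ := by group
        _ = g * (z * (g⁻¹ * h * g)) * g⁻¹ := by rw [h3]
        _ = g * z * g⁻¹ * h := by group
    · simp [W.one_mem]
    · intro a b ha hb
      have : g * (a * b) * g⁻¹ = (g * a * g⁻¹) * (g * b * g⁻¹) := by group
      rw [this]
      exact W.mul_mem ha hb
  have hWne : W ≠ ⊥ := by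
    obtain ⟨S⟩ : Nonempty (Sylow p G) := inferInstance
    have hVS : V ≤ (S : Subgroup G) :=
      (Cfsg.Agent.Lib.Core.Basic.le_pCore hVn hVp).trans (Cfsg.Agent.Lib.Core.Basic.pCore_le_sylow S)
    let V' : Subgroup (S : Subgroup G) := V.subgroupOf (S : Subgroup G)
    haveI : V'.Normal := Subgroup.Normal.subgroupOf hVn _
    have hV'1 : V' ≠ ⊥ := by
      intro h
      apply hmin.2.1
      rw [eq_bot_iff]
      intro v hv
      have h1 : (⟨v, hVS hv⟩ : (S : Subgroup G)) ∈ V' := hv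
      rw [h] at h1
      have h2 := (Subgroup.mem_bot).mp h1
      simpa using congrArg Subtype.val h2
    have h1 := Cfsg.Agent.Lib.Involutions2.NormalFour.inf_center_ne_bot S.isPGroup' V' hV'1
    obtain ⟨⟨z, hz⟩, hz1⟩ := Subgroup.ne_bot_iff_exists_ne_one.mp h1
    have hz2 : (z : G) ∈ W := by
      refine Subgroup.mem_iSup_of_mem S ⟨hz.1, ?_⟩
      refine Subgroup.mem_centralizer_iff.mpr ?_
      intro h hh
      have h3 := Subgroup.mem_center_iff.mp hz.2 ⟨h, hh⟩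
      exact congrArg Subtype.val h3
    intro hbot
    rw [hbot, Subgroup.mem_bot] at hz2
    apply hz1
    apply Subtype.ext
    exact Subtype.ext hz2
  exact ((hmin.2.2 W hWn hWV).resolve_left hWne).symm

/-- Quadratic elements centralize minimal normal `p`-subgroups of solvable groups, `p ≥ 5`. -/
theorem mem_centralizer_of_quad {Γ : Type w} [Group Γ] [Finite Γ] [Group.IsSolvable Γ] {p : ℕ}
    [hp : Fact p.Prime] (hp5 : 5 ≤ p) (V : Subgroup Γ) [hVn : V.Normal] (hmin : IsMinNormal V)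
    (hVp : IsPGroup p V) (a : Γ)
    (hquad : ⁅⁅V, Subgroup.zpowers a⁆, Subgroup.zpowers a⁆ = ⊥) :
    a ∈ Subgroup.centralizer (V : Set Γ) := by
  have hVE : Cfsg.IsElementaryAbelian p V := by
    refine ⟨⟨⟨fun x y => Subtype.ext (isMinNormal_comm hmin x x.2 y y.2)⟩⟩, ?_⟩
    obtain ⟨q, hq, hqV⟩ := isMinNormal_exponent hmin
    obtain ⟨⟨v₀, hv₀⟩, hv₁⟩ := Subgroup.ne_bot_iff_exists_ne_one.mp hmin.2.1
    have hv₂ : v₀ ≠ 1 := fun h => hv₁ (Subtype.ext h)
    have h1 : orderOf v₀ = q := by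
      have := orderOf_eq_prime (hqV v₀ hv₀) hv₂ (hp := ⟨hq⟩)
      exact this
    obtain ⟨k, hk⟩ := (IsPGroup.iff_orderOf.mp hVp) ⟨v₀, hv₀⟩
    have h2 : orderOf v₀ = p ^ k := by
      rw [← hk]
      exact (Subgroup.orderOf_mk v₀ hv₀).symm
    have h3 : q = p := by
      rw [h1] at h2
      have h4 : q ∣ p ^ k := h2 ▸ dvd_rfl
      exact (Nat.prime_dvd_prime_iff_eq hq hp.out).mp (hq.dvd_of_dvd_pow h4)
    rw [← h3]
    exact hqV
  have hst := Cfsg.Agent.Lib.QuadAct.PStable.s0625 hp5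
    (Cfsg.Agent.Lib.Core.PSolvable2.isPSolvable_of_isSolvable (p := p) (G := Γ))
  have h1 := hst.1 V hVE a hquad
  rw [pCore_quot_bot V hVp hmin, Subgroup.mem_bot] at h1
  exact (QuotientGroup.eq_one_iff a).mp h1

/-- Quadratic action of an element on a normal subgroup, from the pointwise condition. -/
theorem quad_of_pointwise {Γ : Type w} [Group Γ] [Finite Γ] (V : Subgroup Γ) [hVn : V.Normal] (u : Γ)
    (hq : ∀ h ∈ V, ⁅⁅h, u⁆, u⁆ = 1) :
    ⁅⁅V, Subgroup.zpowers u⁆, Subgroup.zpowers u⁆ = ⊥ := by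
  let C₁ : Subgroup Γ := V ⊓ Subgroup.centralizer ({u} : Set Γ)
  have hC₁u : ∀ z ∈ C₁, u * z = z * u := by
    intro z hz
    exact (Subgroup.mem_centralizer_iff.mp hz.2 u rfl)
  have hcomm1 : ∀ h ∈ V, ⁅h, u⁆ ∈ C₁ := by
    intro h hh
    refine ⟨?_, ?_⟩
    · rw [commutatorElement_def, mul_assoc, mul_assoc]
      refine V.mul_mem hh ?_
      have := hVn.conj_mem _ (V.inv_mem hh) u
      rwa [← mul_assoc]
    · refine Subgroup.mem_centralizer_iff.mpr ?_
      intro w hw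
      rw [Set.mem_singleton_iff.mp hw]
      have := hq h hh
      rw [commutatorElement_eq_one_iff_mul_comm] at this
      exact this.symm
  have hpow : ∀ h ∈ V, ∀ n : ℕ, ⁅h, u ^ n⁆ ∈ C₁ := by
    intro h hh n
    induction n with
    | zero => simp [C₁.one_mem]
    | succ n ih =>
      have e : ⁅h, u ^ (n + 1)⁆ = ⁅h, u⁆ * (u * ⁅h, u ^ n⁆ * u⁻¹) := by
        rw [pow_succ']
        simp only [commutatorElement_def]
        group
      rw [e, hC₁u _ ih, mul_inv_cancel_right]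
      exact C₁.mul_mem (hcomm1 h hh) ih
  have hle : ⁅V, Subgroup.zpowers u⁆ ≤ C₁ := by
    rw [Subgroup.commutator_le]
    intro h hh k hk
    obtain ⟨n, rfl⟩ := (mem_powers_iff_mem_zpowers.mpr hk : k ∈ Submonoid.powers u)
    exact hpow h hh n
  rw [eq_bot_iff]
  refine (Subgroup.commutator_mono hle le_rfl).trans ?_
  rw [Subgroup.commutator_le]
  intro z hz k hk
  rw [Subgroup.mem_bot, commutatorElement_eq_one_iff_mul_comm]
  obtain ⟨n, rfl⟩ := Subgroup.mem_zpowers_iff.mp hk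
  have h1 : Commute u z := hC₁u z hz
  exact (h1.zpow_left n).eq.symm

section structureN

variable [Group.IsSolvable G] (N : Subgroup G) [hN : N.Normal]

/-- `Z(N)` as a subgroup of `G`. -/
theorem centerN_le (hmin : ∀ N₁ : Subgroup G, N₁.Normal → N₁ ≤ N → N₁ ≠ N → N₁ ≤ Subgroup.center G)
    (hnab : ¬ ∀ a ∈ N, ∀ b ∈ N, a * b = b * a) :
    N ⊓ Subgroup.centralizer (N : Set G) ≤ Subgroup.center G := by
  apply hmin _ inferInstance inf_le_left
  intro h
  apply hnab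
  intro a ha b hb
  have h1 : a ∈ N ⊓ Subgroup.centralizer (N : Set G) := by rw [h]; exact ha
  exact (Subgroup.mem_centralizer_iff.mp h1.2 b hb).symm

theorem commN_le (hmin : ∀ N₁ : Subgroup G, N₁.Normal → N₁ ≤ N → N₁ ≠ N → N₁ ≤ Subgroup.center G)
    (hnab : ¬ ∀ a ∈ N, ∀ b ∈ N, a * b = b * a) : ⁅N, N⁆ ≤ Subgroup.center G := by
  have hN1 : N ≠ ⊥ := by
    rintro rfl
    apply hnab
    intro a ha b hb
    rw [Subgroup.mem_bot] at ha hb
    rw [ha, hb]
  have h1 : ⁅N, N⁆ < N := Group.IsSolvable.commutator_lt_of_ne_bot hN1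
  exact hmin _ (Subgroup.commutator_normal N N) h1.le h1.ne

/-- `x` acts nontrivially on `N / Z(N)`. -/
theorem not_fixed_mod_center
    (hmin : ∀ N₁ : Subgroup G, N₁.Normal → N₁ ≤ N → N₁ ≠ N → N₁ ≤ Subgroup.center G)
    (hnab : ¬ ∀ a ∈ N, ∀ b ∈ N, a * b = b * a) (x : G)
    (hgen : Subgroup.normalClosure ({x} : Set G) = ⊤) :
    ¬ ∀ y ∈ N, x * y * x⁻¹ * y⁻¹ ∈ N ⊓ Subgroup.centralizer (N : Set G) := by
  intro hx
  set ZN : Subgroup G := N ⊓ Subgroup.centralizer (N : Set G) with hZN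
  haveI hZNn : ZN.Normal := inferInstance
  let D : Subgroup G :=
    { carrier := {g | ∀ y ∈ N, g * y * g⁻¹ * y⁻¹ ∈ ZN}
      one_mem' := by
        intro y _
        simp [ZN.one_mem]
      mul_mem' := by
        intro g₁ g₂ h1 h2 y hy
        have e : (g₁ * g₂) * y * (g₁ * g₂)⁻¹ * y⁻¹ =
            (g₁ * (g₂ * y * g₂⁻¹ * y⁻¹) * g₁⁻¹) * (g₁ * y * g₁⁻¹ * y⁻¹) := by group
        rw [e]
        exact ZN.mul_mem (hZNn.conj_mem _ (h2 y hy) g₁) (h1 y hy)
      inv_mem' := by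
        intro g h1 y hy
        have hy' : g⁻¹ * y * g ∈ N := hN.conj_mem' y hy g
        have h2 := ZN.inv_mem (h1 _ hy')
        have e : g⁻¹ * y * g⁻¹⁻¹ * y⁻¹ = (g * (g⁻¹ * y * g) * g⁻¹ * (g⁻¹ * y * g)⁻¹)⁻¹ := by group
        rw [e]
        exact h2 }
  have hD : ∀ g, g ∈ D ↔ ∀ y ∈ N, g * y * g⁻¹ * y⁻¹ ∈ ZN := fun g => Iff.rfl
  haveI hDn : D.Normal := by
    constructor
    intro g hg t y hy
    have hy' : t⁻¹ * y * t ∈ N := hN.conj_mem' y hy t
    have h1 := hZNn.conj_mem _ (hg _ hy') t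
    have e : t * g * t⁻¹ * y * (t * g * t⁻¹)⁻¹ * y⁻¹ =
        t * (g * (t⁻¹ * y * t) * g⁻¹ * (t⁻¹ * y * t)⁻¹) * t⁻¹ := by group
    rw [e]
    exact h1
  have hDtop : ∀ g, g ∈ D := by
    have h1 : Subgroup.normalClosure ({x} : Set G) ≤ D :=
      Subgroup.normalClosure_le_normal (by
        intro w hw
        rw [Set.mem_singleton_iff.mp hw]
        exact hx)
    rw [hgen] at h1
    exact fun g => h1 trivial
  -- a noncentral element of `N`
  push Not at hnab
  obtain ⟨a, ha, b, hb, hab⟩ := hnab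
  have hav : a ∉ ZN := by
    intro h
    exact hab (Subgroup.mem_centralizer_iff.mp h.2 b hb).symm
  let N₁ : Subgroup G := ZN ⊔ Subgroup.zpowers a
  have hN₁ : ∀ z, z ∈ N₁ ↔ ∃ n ∈ ZN, ∃ k : ℤ, n * a ^ k = z := by
    intro z
    rw [Subgroup.mem_sup_of_normal_left]
    constructor
    · rintro ⟨n, hn, w, hw, rfl⟩
      obtain ⟨k, rfl⟩ := Subgroup.mem_zpowers_iff.mp hw
      exact ⟨n, hn, k, rfl⟩
    · rintro ⟨n, hn, k, rfl⟩
      exact ⟨n, hn, a ^ k, Subgroup.zpow_mem_zpowers a k, rfl⟩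
  have hZ1 : ZN ≤ N₁ := le_sup_left
  have haN₁ : a ∈ N₁ := (le_sup_right : Subgroup.zpowers a ≤ N₁) (Subgroup.mem_zpowers a)
  have hN₁n : N₁.Normal := by
    constructor
    intro z hz g
    obtain ⟨n, hn, k, rfl⟩ := (hN₁ z).mp hz
    have e : g * (n * a ^ k) * g⁻¹ = (g * n * g⁻¹) * (g * a * g⁻¹) ^ k := by
      rw [conj_zpow]
      group
    rw [e]
    refine N₁.mul_mem (hZ1 (hZNn.conj_mem n hn g)) (N₁.zpow_mem ?_ k)
    have h2 := hDtop g a ha
    have e2 : g * a * g⁻¹ = (g * a * g⁻¹ * a⁻¹) * a := by group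
    rw [e2]
    exact N₁.mul_mem (hZ1 h2) haN₁
  have hN₁le : N₁ ≤ N := sup_le inf_le_left ((Subgroup.zpowers_le).mpr ha)
  have hN₁ab : ∀ z ∈ N₁, ∀ z' ∈ N₁, z * z' = z' * z := by
    intro z hz z' hz'
    obtain ⟨n, hn, k, rfl⟩ := (hN₁ z).mp hz
    obtain ⟨n', hn', l, rfl⟩ := (hN₁ z').mp hz'
    have h1 : n' * a ^ k = a ^ k * n' :=
      (Subgroup.mem_centralizer_iff.mp hn'.2 _ (N.zpow_mem ha k)).symm
    have h2 : n * a ^ l = a ^ l * n :=
      (Subgroup.mem_centralizer_iff.mp hn.2 _ (N.zpow_mem ha l)).symm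
    have h3 : n * n' = n' * n :=
      (Subgroup.mem_centralizer_iff.mp hn.2 _ hn'.1).symm
    have h4 : a ^ k * a ^ l = a ^ l * a ^ k := (Commute.refl a).zpow_zpow k l
    calc n * a ^ k * (n' * a ^ l) = n * (a ^ k * n') * a ^ l := by group
      _ = n * n' * (a ^ k * a ^ l) := by rw [← h1]; group
      _ = n' * n * (a ^ l * a ^ k) := by rw [h3, h4]
      _ = n' * (n * a ^ l) * a ^ k := by group
      _ = n' * a ^ l * (n * a ^ k) := by rw [h2]; group
  have hne : N₁ ≠ N := by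
    intro h
    exact hab (hN₁ab a (h ▸ ha) b (h ▸ hb))
  have hc := hmin N₁ hN₁n hN₁le hne haN₁
  apply hav
  refine ⟨ha, ?_⟩
  refine Subgroup.mem_centralizer_iff.mpr ?_
  intro w _
  exact (Subgroup.mem_center_iff.mp hc w)

end structureN

end Cfsg.Agent.Lib.FGS.MinNC
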