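/-
The fixed space of an element of prime order `p ≥ 5` generating a solvable group `G` normally, on a
faithful irreducible module over an algebraically closed field, has less than half the dimension.
-/
import Mathlib
import Cfsg.Agent.Lib.FGS.MinNC
import Cfsg.Agent.Lib.FGS.AbelCase
import Cfsg.Agent.Lib.FGS.KeySub
import Cfsg.Agent.Lib.Coprime.Action
import Cfsg.Agent.Lib.Solvable.Fitting
import Cfsg.Agent.Lib.Core.Basic

set_option autoImplicit false

namespace Cfsg.Agent.Lib.FGS.TAlg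

open Module Cfsg.Agent.Lib.Solvable.Basic Cfsg.Agent.Lib.FGS.MinNC Cfsg.Agent.Lib.FGS.KeySub
open scoped commutatorElement

universe u v w

theorem one_lt_card_quot_center {Q : Type*} [Group Q] [Finite Q] (h : ¬ ∀ a b : Q, a * b = b * a) :
    1 < Nat.card (Q ⧸ Subgroup.center Q) := by
  push Not at h
  obtain ⟨a, b, hab⟩ := h
  haveI : Nontrivial (Q ⧸ Subgroup.center Q) := by
    refine ⟨⟨(a : Q ⧸ Subgroup.center Q), 1, fun e => hab ?_⟩⟩
    exact (Subgroup.mem_center_iff.mp ((QuotientGroup.eq_one_iff a).mp e) b).symm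
  exact Finite.one_lt_card_iff_nontrivial.mpr this

/-- An automorphism of `p`-power order of a group of order `p` is trivial. -/
theorem fix_of_card_prime {M : Type*} [Group M] [Finite M] (α : MulAut M) {p : ℕ} [hp : Fact p.Prime]
    (hαp : ∀ t, (α ^ p) t = t) (I : Subgroup M) (hI : ∀ t ∈ I, α t ∈ I)
    (hc : Nat.card I = p) : ∀ t ∈ I, α t = t := by
  classical
  have hne : I ≠ ⊥ := by
    rintro rfl
    rw [Subgroup.card_bot] at hc
    exact hp.out.one_lt.ne hc
  obtain ⟨⟨y, hy⟩, hy1⟩ := Subgroup.ne_bot_iff_exists_ne_one.mp hne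
  have hy2 : y ≠ 1 := fun h => hy1 (Subtype.ext h)
  have hord : orderOf y = p := by
    have h1 : orderOf y ∣ p := hc ▸ Subgroup.orderOf_dvd_natCard I hy
    rcases (Nat.dvd_prime hp.out).mp h1 with h2 | h2
    · exact absurd (orderOf_eq_one_iff.mp h2) hy2
    · exact h2
  have hIz : I = Subgroup.zpowers y := by
    symm
    apply Subgroup.eq_of_le_of_card_ge ((Subgroup.zpowers_le).mpr hy)
    rw [Nat.card_zpowers, hord, hc]
  have hαy : α y ∈ Subgroup.zpowers y := hIz ▸ hI y hy
  obtain ⟨k, hk₀⟩ := (mem_powers_iff_mem_zpowers.mpr hαy : α y ∈ Submonoid.powers y)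
  have hk : y ^ k = α y := hk₀
  have hit : ∀ i : ℕ, (α ^ i) y = y ^ (k ^ i) := by
    intro i
    induction i with
    | zero => simp
    | succ i ih =>
      rw [pow_succ', MulAut.mul_apply, ih, map_pow, ← hk, ← pow_mul, pow_succ']
  have h1 : y ^ (k ^ p) = y ^ 1 := by
    rw [← hit, hαp, pow_one]
  rw [pow_eq_pow_iff_modEq, hord] at h1
  have h2 : (k : ZMod p) = 1 := by
    have h3 := (ZMod.natCast_eq_natCast_iff _ _ _).mpr h1
    push_cast at h3
    rwa [ZMod.pow_card] at h3
  have h4 : k ≡ 1 [MOD p] := by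
    apply (ZMod.natCast_eq_natCast_iff _ _ _).mp
    push_cast
    exact h2
  have h5 : α y = y := by
    rw [← hk]
    have : y ^ k = y ^ 1 := by
      rw [pow_eq_pow_iff_modEq, hord]
      exact h4
    rw [this, pow_one]
  intro t ht
  rw [hIz] at ht
  obtain ⟨n, rfl⟩ := (mem_powers_iff_mem_zpowers.mpr ht : t ∈ Submonoid.powers y)
  rw [map_pow, h5]

section cases

variable {K : Type u} [Field K] [IsAlgClosed K] {G : Type w} [Group G] [Finite G]
  {W : Type v} [AddCommGroup W] [Module K W] [FiniteDimensional K W] [Nontrivial W]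

omit [IsAlgClosed K] [FiniteDimensional K W] [Nontrivial W] [Finite G] in
theorem hC_of (ρ : G →* End K W) (hfaith : Function.Injective ρ)
    (hZ : ∀ z ∈ Subgroup.center G, ∃ c : K, ρ z = c • 1) (E : Subgroup G)
    (hcc : ∀ a ∈ E, ∀ b ∈ E, ⁅a, b⁆ ∈ Subgroup.center G) (a b : E) :
    ∃ c : K, ρ ((⁅a, b⁆ : E) : G) = c • 1 ∧ (⁅a, b⁆ ≠ 1 → c ≠ 1) := by
  obtain ⟨c, hc⟩ := hZ _ (hcc a a.2 b b.2)
  refine ⟨c, hc, fun h hc1 => h ?_⟩
  rw [hc1, one_smul] at hc
  apply Subtype.ext
  apply hfaith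
  have h1 : ρ ((⁅a, b⁆ : E) : G) = 1 := hc
  rw [h1]
  simp

theorem case_coprime [Group.IsSolvable G] (ρ : G →* End K W) (hfaith : Function.Injective ρ)
    (hZ : ∀ z ∈ Subgroup.center G, ∃ c : K, ρ z = c • 1) {p : ℕ} (hp : p.Prime) (hp5 : 5 ≤ p) (x : G)
    (hord : orderOf x = p) (hgen : Subgroup.normalClosure ({x} : Set G) = ⊤)
    {r : ℕ} (hr : r.Prime) (hrp : r ≠ p) (N : Subgroup G) [hN : N.Normal] (hNr : IsPGroup r N)
    (hmin : ∀ N₁ : Subgroup G, N₁.Normal → N₁ ≤ N → N₁ ≠ N → N₁ ≤ Subgroup.center G)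
    (hnab : ¬ ∀ a ∈ N, ∀ b ∈ N, a * b = b * a) :
    2 * finrank K (LinearMap.ker (ρ x - 1 : End K W)) < finrank K W := by
  classical
  open Cfsg.Agent.Lib.Coprime.Action in
  haveI : Fact p.Prime := ⟨hp⟩
  haveI : Fact r.Prime := ⟨hr⟩
  set A : Subgroup G := Subgroup.zpowers x with hA
  have hxA : x ∈ A := Subgroup.mem_zpowers x
  have hAN : A ≤ Subgroup.normalizer (N : Set G) := by
    intro g _
    refine Subgroup.mem_normalizer_iff.mpr fun h => ⟨fun hh => hN.conj_mem h hh g, fun hh => ?_⟩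
    have := hN.conj_mem' _ hh g
    simpa [mul_assoc] using this
  have hcardA : Nat.card A = p := by rw [hA, Nat.card_zpowers, hord]
  have hcop : (Nat.card A).Coprime (Nat.card N) := by
    obtain ⟨k, hk⟩ := IsPGroup.iff_card.mp hNr
    rw [hcardA, hk]
    exact Nat.Coprime.pow_right k ((Nat.coprime_primes hp hr).mpr (Ne.symm hrp))
  have hsolv : Group.IsSolvable A ∨ Group.IsSolvable N := Or.inl inferInstance
  set E : Subgroup G := ⁅N, A⁆ with hE
  have hEN : E ≤ N := Cfsg.Agent.Lib.Coprime.Action.commutator_le_of_le_normalizer hAN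
  have hsup : E ⊔ (N ⊓ Subgroup.centralizer (A : Set G)) = N :=
    Cfsg.Agent.Lib.Coprime.Action.commutator_sup_fixed hAN hcop hsolv
  have hcN : ⁅N, N⁆ ≤ Subgroup.center G := commN_le N hmin hnab
  have hcc : ∀ a ∈ N, ∀ b ∈ N, ⁅a, b⁆ ∈ Subgroup.center G :=
    fun a ha b hb => hcN (Subgroup.commutator_mem_commutator ha hb)
  set C : Subgroup G := N ⊓ Subgroup.centralizer (A : Set G) with hCdef
  have hEC : ⁅E, C⁆ = ⊥ := by
    apply Subgroup.commutator_commutator_eq_bot_of_rotate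
    · have h1 : ⁅A, C⁆ = ⊥ := by
        rw [Subgroup.commutator_eq_bot_iff_le_centralizer]
        intro a ha
        refine Subgroup.mem_centralizer_iff.mpr fun c hc => ?_
        exact (Subgroup.mem_centralizer_iff.mp hc.2 a ha).symm
      rw [h1]
      exact Subgroup.commutator_bot_left _
    · rw [eq_bot_iff]
      have h1 : ⁅C, N⁆ ≤ Subgroup.center G :=
        (Subgroup.commutator_mono inf_le_left le_rfl).trans hcN
      refine (Subgroup.commutator_mono h1 le_rfl).trans ?_
      rw [Subgroup.commutator_le]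
      intro z hz a _
      rw [Subgroup.mem_bot, commutatorElement_eq_one_iff_mul_comm]
      exact (Subgroup.mem_center_iff.mp hz a).symm
  have hEcomm : ∀ e ∈ E, ∀ c ∈ C, e * c = c * e := by
    intro e he c hc
    have h1 := Subgroup.commutator_mem_commutator he hc
    rwa [hEC, Subgroup.mem_bot, commutatorElement_eq_one_iff_mul_comm] at h1
  have hnabE : ¬ ∀ a ∈ E, ∀ b ∈ E, a * b = b * a := by
    intro hab
    apply not_fixed_mod_center N hmin hnab x hgen
    intro y hy
    have h1 : ⁅y, x⁆ ∈ E := Subgroup.commutator_mem_commutator hy hxA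
    have h2 : ∀ e ∈ E, e ∈ N ⊓ Subgroup.centralizer (N : Set G) := by
      intro e he
      refine Subgroup.mem_inf.mpr ⟨hEN he, Subgroup.mem_centralizer_iff.mpr ?_⟩
      have h3 : N ≤ Subgroup.centralizer ({e} : Set G) := by
        refine hsup.ge.trans (sup_le ?_ ?_)
        · intro e' he'
          refine Subgroup.mem_centralizer_iff.mpr fun w hw => ?_
          rw [Set.mem_singleton_iff.mp hw]
          exact hab e he e' he'
        · intro c hc
          refine Subgroup.mem_centralizer_iff.mpr fun w hw => ?_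
          rw [Set.mem_singleton_iff.mp hw]
          exact hEcomm e he c hc
      intro n hn
      exact (Subgroup.mem_centralizer_iff.mp (h3 hn) e rfl).symm
    have h4 := Subgroup.inv_mem _ (h2 _ h1)
    have e1 : x * y * x⁻¹ * y⁻¹ = ⁅y, x⁆⁻¹ := by
      rw [commutatorElement_def]
      group
    rw [e1]
    exact h4
  have hAE : A ≤ Subgroup.normalizer (E : Set G) :=
    Cfsg.Agent.Lib.Coprime.Action.le_normalizer_commutator_right N A
  have hxn : x ∈ Subgroup.normalizer (E : Set G) := hAE hxA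
  obtain ⟨cx, hcx⟩ := exists_cx E x hxn
  obtain ⟨α, hα⟩ := exists_alpha cx
  have hm : 1 < Nat.card (E ⧸ Subgroup.center E) := by
    apply one_lt_card_quot_center
    intro hall
    apply hnabE
    intro a ha b hb
    exact congrArg Subtype.val (hall ⟨a, ha⟩ ⟨b, hb⟩)
  -- the fixed points
  set ZE : Subgroup G := E ⊓ Subgroup.centralizer (E : Set G) with hZE
  have hZEiff : ∀ q : E, q ∈ Subgroup.center E ↔ (q : G) ∈ ZE := by
    intro q
    constructor
    · intro h
      refine Subgroup.mem_inf.mpr ⟨q.2, Subgroup.mem_centralizer_iff.mpr fun g hg => ?_⟩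
      exact congrArg Subtype.val (Subgroup.mem_center_iff.mp h ⟨g, hg⟩)
    · intro h
      refine Subgroup.mem_center_iff.mpr fun g => Subtype.ext ?_
      exact Subgroup.mem_centralizer_iff.mp (Subgroup.mem_inf.mp h).2 g g.2
  have hENZ : E ≤ Subgroup.normalizer (ZE : Set G) := by
    intro e he
    refine Subgroup.mem_normalizer_iff.mpr fun h => ?_
    have hcomm : ∀ h ∈ ZE, e * h * e⁻¹ = h := by
      intro h hh
      have := Subgroup.mem_centralizer_iff.mp (Subgroup.mem_inf.mp hh).2 e he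
      rw [this]
      group
    constructor
    · intro hh
      rw [hcomm h hh]
      exact hh
    · intro hh
      have hz := Subgroup.mem_centralizer_iff.mp (Subgroup.mem_inf.mp hh).2 e he
      have h3 : h = e * h * e⁻¹ := mul_left_cancel (a := e) (by rw [hz]; group)
      rw [h3]
      exact hh
  have hxZ : x ∈ Subgroup.normalizer (ZE : Set G) := by
    refine Subgroup.mem_normalizer_iff.mpr fun h => ?_
    have hn := Subgroup.mem_normalizer_iff.mp hxn
    have hfw : ∀ h ∈ ZE, x * h * x⁻¹ ∈ ZE := by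
      intro h hh
      have h1 := Subgroup.mem_inf.mp hh
      refine Subgroup.mem_inf.mpr ⟨(hn h).mp h1.1, Subgroup.mem_centralizer_iff.mpr fun e he => ?_⟩
      have he' : x⁻¹ * e * x ∈ E := by
        apply (hn _).mpr
        have : x * (x⁻¹ * e * x) * x⁻¹ = e := by group
        rwa [this]
      have h3 := Subgroup.mem_centralizer_iff.mp h1.2 _ he'
      calc e * (x * h * x⁻¹) = x * ((x⁻¹ * e * x) * h) * x⁻¹ := by group
        _ = x * (h * (x⁻¹ * e * x)) * x⁻¹ := by rw [h3]
        _ = x * h * x⁻¹ * e := by group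
    have hbw : ∀ h ∈ ZE, x⁻¹ * h * x ∈ ZE := by
      intro h hh
      have h1 := Subgroup.mem_inf.mp hh
      have hin : ∀ e, e ∈ E → x⁻¹ * e * x ∈ E := by
        intro e he
        apply (hn _).mpr
        have : x * (x⁻¹ * e * x) * x⁻¹ = e := by group
        rwa [this]
      refine Subgroup.mem_inf.mpr ⟨hin h h1.1, Subgroup.mem_centralizer_iff.mpr fun e he => ?_⟩
      have he' : x * e * x⁻¹ ∈ E := (hn e).mp he
      have h3 := Subgroup.mem_centralizer_iff.mp h1.2 _ he'
      calc e * (x⁻¹ * h * x) = x⁻¹ * ((x * e * x⁻¹) * h) * x := by group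
        _ = x⁻¹ * (h * (x * e * x⁻¹)) * x := by rw [h3]
        _ = x⁻¹ * h * x * e := by group
    refine ⟨hfw h, fun hh => ?_⟩
    have := hbw _ hh
    have e1 : x⁻¹ * (x * h * x⁻¹) * x = h := by group
    rwa [e1] at this
  have hAZ : A ≤ Subgroup.normalizer (ZE : Set G) := (Subgroup.zpowers_le).mpr hxZ
  have hfix : ∀ q : E, α (q : E ⧸ Subgroup.center E) = q → q ∈ Subgroup.center E := by
    intro q hq
    rw [hα] at hq
    have h1 : (cx q)⁻¹ * q ∈ Subgroup.center E := QuotientGroup.eq.mp hq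
    rw [hZEiff] at h1
    have h2 : (x * q * x⁻¹)⁻¹ * q ∈ ZE := by
      have h3 := h1
      simp only [InvMemClass.coe_inv, MulMemClass.coe_mul, hcx] at h3
      exact h3
    have h3 : x * (q : G) * x⁻¹ * (q : G)⁻¹ ∈ ZE := by
      have h4 := ZE.inv_mem h2
      have hc1 := Subgroup.mem_centralizer_iff.mp (Subgroup.mem_inf.mp h4).2 q q.2
      have e1 : x * (q : G) * x⁻¹ * (q : G)⁻¹ = ((x * q * x⁻¹)⁻¹ * q)⁻¹ := by
        have e2 : ((x * (q : G) * x⁻¹)⁻¹ * q)⁻¹ = (q : G)⁻¹ * (x * q * x⁻¹) := by group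
        have e3 : (q : G) * ((q : G)⁻¹ * (x * q * x⁻¹)) = ((q : G)⁻¹ * (x * q * x⁻¹)) * q := by
          rw [← e2]
          exact hc1
        rw [e2]
        apply mul_right_cancel (b := (q : G))
        rw [← e3]
        group
      rw [e1]
      exact h4
    have hfixA : ∀ a ∈ A, a * (q : G) * a⁻¹ * (q : G)⁻¹ ∈ ZE := by
      intro a ha
      obtain ⟨n, rfl⟩ := (mem_powers_iff_mem_zpowers.mpr ha : a ∈ Submonoid.powers x)
      induction n with
      | zero => simp [ZE.one_mem]
      | succ n ih =>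
        have ih' := ih (Subgroup.pow_mem _ hxA n)
        have e1 : x ^ (n + 1) * (q : G) * (x ^ (n + 1))⁻¹ * (q : G)⁻¹ =
            (x * (x ^ n * (q : G) * (x ^ n)⁻¹ * (q : G)⁻¹) * x⁻¹) * (x * q * x⁻¹ * (q : G)⁻¹) := by
          rw [pow_succ']
          group
        rw [e1]
        refine ZE.mul_mem ?_ h3
        exact (Subgroup.mem_normalizer_iff.mp hxZ _).mp ih'
    obtain ⟨c, hc, hc2⟩ := Cfsg.Agent.Lib.Coprime.Action.exists_fixed_of_fixed_mod ZE hAE
      (Nat.Coprime.coprime_dvd_right (Subgroup.card_dvd_of_le hEN) hcop) (Or.inl inferInstance) inf_le_left hENZ hAZ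
      q.2 hfixA
    have hcZ : c ∈ ZE := by
      have h1 := Subgroup.mem_inf.mp hc
      refine Subgroup.mem_inf.mpr ⟨h1.1, Subgroup.mem_centralizer_iff.mpr fun e he => ?_⟩
      exact hEcomm e he c (Subgroup.mem_inf.mpr ⟨hEN h1.1, h1.2⟩)
    rw [hZEiff]
    have e1 : (q : G) = c * ((q : G)⁻¹ * c)⁻¹ := by group
    rw [e1]
    exact ZE.mul_mem hcZ (ZE.inv_mem hc2)
  have hcard : Nat.card {l : E ⧸ Subgroup.center E // α l = l} = 1 := by
    rw [Nat.card_eq_one_iff_unique]
    constructor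
    · constructor
      rintro ⟨l, hl⟩ ⟨l', hl'⟩
      obtain ⟨q, rfl⟩ := QuotientGroup.mk_surjective l
      obtain ⟨q', rfl⟩ := QuotientGroup.mk_surjective l'
      apply Subtype.ext
      change (q : E ⧸ Subgroup.center E) = q'
      rw [(QuotientGroup.eq_one_iff q).mpr (hfix q hl), (QuotientGroup.eq_one_iff q').mpr (hfix q' hl')]
    · refine ⟨⟨1, ?_⟩⟩
      have := hα 1
      rw [map_one] at this
      exact this
  have hnum : 4 * (Nat.card (E ⧸ Subgroup.center E) +
      (p - 1) * Nat.card {l : E ⧸ Subgroup.center E // α l = l}) <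
      p * (Nat.card (E ⧸ Subgroup.center E) + 4) := by
    rw [hcard]
    obtain ⟨q, rfl⟩ : ∃ q, p = q + 5 := ⟨p - 5, by omega⟩
    simp only [show q + 5 - 1 = q + 4 from rfl]
    nlinarith
  exact T_sub ρ E x hp hp5 hord cx hcx (hC_of ρ hfaith hZ E (fun a ha b hb => hcc a (hEN ha) b (hEN hb)))
    α hα hm hnum

theorem case_p [Group.IsSolvable G] (ρ : G →* End K W) (hfaith : Function.Injective ρ)
    (hZ : ∀ z ∈ Subgroup.center G, ∃ c : K, ρ z = c • 1) {p : ℕ} (hp : p.Prime) (hp5 : 5 ≤ p) (x : G)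
    (hord : orderOf x = p) (hgen : Subgroup.normalClosure ({x} : Set G) = ⊤)
    (N : Subgroup G) [hN : N.Normal] (hNp : IsPGroup p N)
    (hmin : ∀ N₁ : Subgroup G, N₁.Normal → N₁ ≤ N → N₁ ≠ N → N₁ ≤ Subgroup.center G)
    (hnab : ¬ ∀ a ∈ N, ∀ b ∈ N, a * b = b * a) :
    2 * finrank K (LinearMap.ker (ρ x - 1 : End K W)) < finrank K W := by
  classical
  haveI : Fact p.Prime := ⟨hp⟩
  have hxp : x ^ p = 1 := by rw [← hord, pow_orderOf_eq_one]
  have hxn : x ∈ Subgroup.normalizer (N : Set G) := by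
    refine Subgroup.mem_normalizer_iff.mpr fun h => ⟨fun hh => hN.conj_mem h hh x, fun hh => ?_⟩
    have := hN.conj_mem' _ hh x
    simpa [mul_assoc] using this
  have hcN : ⁅N, N⁆ ≤ Subgroup.center G := commN_le N hmin hnab
  have hcc : ∀ a ∈ N, ∀ b ∈ N, ⁅a, b⁆ ∈ Subgroup.center G :=
    fun a ha b hb => hcN (Subgroup.commutator_mem_commutator ha hb)
  obtain ⟨cx, hcx⟩ := exists_cx N x hxn
  have hmap : (Subgroup.center N).map cx.toMonoidHom = Subgroup.center N :=
    Subgroup.characteristic_iff_map_eq.mp inferInstance cx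
  let α' : MulAut (N ⧸ Subgroup.center N) :=
    QuotientGroup.congr (Subgroup.center N) (Subgroup.center N) cx hmap
  have hα' : ∀ q : N, α' (q : N ⧸ Subgroup.center N) = (cx q : N ⧸ Subgroup.center N) :=
    fun q => rfl
  have hcxit : ∀ (k : ℕ) (q : N), (((cx ^ k) q : N) : G) = x ^ k * q * (x ^ k)⁻¹ := by
    intro k
    induction k with
    | zero => simp
    | succ k ih =>
      intro q
      rw [pow_succ', MulAut.mul_apply, hcx, ih, pow_succ']
      group
  have hαit : ∀ (k : ℕ) (q : N), (α' ^ k) (q : N ⧸ Subgroup.center N) =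
      (((cx ^ k) q : N) : N ⧸ Subgroup.center N) := by
    intro k
    induction k with
    | zero => simp
    | succ k ih =>
      intro q
      rw [pow_succ', MulAut.mul_apply, ih, hα', pow_succ', MulAut.mul_apply]
  have hαp' : ∀ t, (α' ^ p) t = t := by
    intro t
    obtain ⟨q, rfl⟩ := QuotientGroup.mk_surjective t
    rw [hαit]
    have h1 : (cx ^ p) q = q := by
      apply Subtype.ext
      rw [hcxit, hxp]
      simp
    rw [h1]
  set ZN : Subgroup G := N ⊓ Subgroup.centralizer (N : Set G) with hZN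
  haveI hZNn : ZN.Normal := inferInstance
  have hZNiff : ∀ q : N, q ∈ Subgroup.center N ↔ (q : G) ∈ ZN := by
    intro q
    constructor
    · intro h
      refine Subgroup.mem_inf.mpr ⟨q.2, Subgroup.mem_centralizer_iff.mpr fun g hg => ?_⟩
      exact congrArg Subtype.val (Subgroup.mem_center_iff.mp h ⟨g, hg⟩)
    · intro h
      refine Subgroup.mem_center_iff.mpr fun g => Subtype.ext ?_
      exact Subgroup.mem_centralizer_iff.mp (Subgroup.mem_inf.mp h).2 g g.2
  have hMcomm : ∀ s t : N ⧸ Subgroup.center N, s * t = t * s := by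
    intro s t
    obtain ⟨a, rfl⟩ := QuotientGroup.mk_surjective s
    obtain ⟨b, rfl⟩ := QuotientGroup.mk_surjective t
    rw [← QuotientGroup.mk_mul, ← QuotientGroup.mk_mul, QuotientGroup.eq]
    rw [hZNiff]
    have h1 : (b : G)⁻¹ * (a : G)⁻¹ * b * a = ⁅(b : G)⁻¹, (a : G)⁻¹⁆ := by
      rw [commutatorElement_def]
      group
    have h2 := hcc _ (N.inv_mem b.2) _ (N.inv_mem a.2)
    rw [← h1] at h2
    refine Subgroup.mem_inf.mpr ⟨?_, Subgroup.mem_centralizer_iff.mpr fun g _ => ?_⟩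
    · exact ((a * b)⁻¹ * (b * a)).2
    · have e1 : (((a * b)⁻¹ * (b * a) : N) : G) = (b : G)⁻¹ * (a : G)⁻¹ * b * a := by
        simp [mul_assoc]
      rw [e1]
      exact (Subgroup.mem_center_iff.mp h2 g)
  let f : (N ⧸ Subgroup.center N) →* (N ⧸ Subgroup.center N) :=
    MonoidHom.mk' (fun t => α' t * t⁻¹) (by
      intro s t
      have e1 : α' (s * t) = α' s * α' t := map_mul _ _ _
      rw [e1, mul_inv_rev]
      have e2 := hMcomm (α' t) (t⁻¹ * s⁻¹)
      have e3 := hMcomm s⁻¹ t⁻¹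
      calc α' s * α' t * (t⁻¹ * s⁻¹) = α' s * (α' t * (t⁻¹ * s⁻¹)) := by group
        _ = α' s * (α' t * (s⁻¹ * t⁻¹)) := by rw [e3]
        _ = α' s * ((α' t * s⁻¹) * t⁻¹) := by group
        _ = α' s * ((s⁻¹ * α' t) * t⁻¹) := by rw [hMcomm (α' t) s⁻¹]
        _ = α' s * s⁻¹ * (α' t * t⁻¹) := by group)
  have hf : ∀ t, f t = α' t * t⁻¹ := fun t => rfl
  have hfix : ∀ t, f t = 1 ↔ α' t = t := fun t => by rw [hf, mul_inv_eq_one]
  have hnot := not_fixed_mod_center N hmin hnab x hgen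
  -- translation of fixed points to `G`
  have htrans : ∀ (y : G) (hy : y ∈ N), α' ((⟨y, hy⟩ : N) : N ⧸ Subgroup.center N) =
      ((⟨y, hy⟩ : N) : N ⧸ Subgroup.center N) → x * y * x⁻¹ * y⁻¹ ∈ ZN := by
    intro y hy h
    rw [hα'] at h
    have h1 : (cx ⟨y, hy⟩)⁻¹ * ⟨y, hy⟩ ∈ Subgroup.center N := QuotientGroup.eq.mp h
    rw [hZNiff] at h1
    have h2 : (x * y * x⁻¹)⁻¹ * y ∈ ZN := by
      have h3 := h1
      simp only [InvMemClass.coe_inv, MulMemClass.coe_mul, hcx] at h3
      exact h3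
    have h4 := ZN.inv_mem h2
    have hc1 := Subgroup.mem_centralizer_iff.mp (Subgroup.mem_inf.mp h4).2 y hy
    have e2 : ((x * y * x⁻¹)⁻¹ * y)⁻¹ = y⁻¹ * (x * y * x⁻¹) := by group
    rw [e2] at hc1 h4
    have e1 : x * y * x⁻¹ * y⁻¹ = y⁻¹ * (x * y * x⁻¹) := by
      apply mul_right_cancel (b := y)
      rw [← hc1]
      group
    rw [e1]
    exact h4
  have hMp : IsPGroup p (N ⧸ Subgroup.center N) := hNp.to_quotient _
  obtain ⟨a, ha⟩ := IsPGroup.iff_card.mp (hMp.to_subgroup f.range)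
  have hcardM : Nat.card f.ker * Nat.card f.range = Nat.card (N ⧸ Subgroup.center N) := by
    rw [← Subgroup.index_ker, Subgroup.card_mul_index]
  have hcardfix : Nat.card {l : N ⧸ Subgroup.center N // α' l = l} = Nat.card f.ker :=
    Nat.card_congr (Equiv.subtypeEquivRight (fun l => by
      rw [MonoidHom.mem_ker, hfix]))
  -- `a ≠ 0`
  have ha0 : a ≠ 0 := by
    rintro rfl
    rw [pow_zero] at ha
    have h1 : f.range = ⊥ := Subgroup.eq_bot_of_card_eq _ ha
    apply hnot
    intro y hy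
    apply htrans y hy
    rw [← hfix]
    have : f ((⟨y, hy⟩ : N) : N ⧸ Subgroup.center N) ∈ f.range := ⟨_, rfl⟩
    rw [h1] at this
    exact this
  -- `a ≠ 1`
  have ha1 : a ≠ 1 := by
    rintro rfl
    rw [pow_one] at ha
    have hI : ∀ t ∈ f.range, α' t ∈ f.range := by
      rintro _ ⟨s, rfl⟩
      refine ⟨α' s, ?_⟩
      rw [hf, hf, map_mul, map_inv]
    have hfixI := fix_of_card_prime α' hαp' f.range hI ha
    -- quadratic in the quotient
    let Γ := G ⧸ ZN
    let V : Subgroup (G ⧸ ZN) := N.map (QuotientGroup.mk' ZN)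
    haveI hVn : V.Normal := Subgroup.Normal.map hN _ (QuotientGroup.mk'_surjective ZN)
    have hVp : IsPGroup p V := hNp.map _
    have hZNle : ZN ≤ N := inf_le_left
    have hminV : IsMinNormal V := by
      refine ⟨hVn, ?_, ?_⟩
      · intro h
        apply hnab
        intro u hu v hv
        have h1 : (u : G ⧸ ZN) ∈ V := ⟨u, hu, rfl⟩
        rw [h, Subgroup.mem_bot, QuotientGroup.eq_one_iff] at h1
        exact (Subgroup.mem_centralizer_iff.mp (Subgroup.mem_inf.mp h1).2 v hv).symm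
      · intro M hM hMV
        let N₁ : Subgroup G := M.comap (QuotientGroup.mk' ZN)
        haveI hN₁n : N₁.Normal := Subgroup.Normal.comap hM _
        have hN₁le : N₁ ≤ N := by
          intro z hz
          obtain ⟨y, hy, hyz⟩ := hMV hz
          have h1 : y⁻¹ * z ∈ ZN := QuotientGroup.eq.mp hyz
          have h2 : z = y * (y⁻¹ * z) := by group
          rw [h2]
          exact N.mul_mem hy (hZNle h1)
        by_cases hN₁N : N₁ = N
        · right
          apply le_antisymm hMV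
          rintro _ ⟨y, hy, rfl⟩
          have : y ∈ N₁ := hN₁N ▸ hy
          exact this
        · left
          rw [eq_bot_iff]
          intro m hm
          obtain ⟨z, rfl⟩ := QuotientGroup.mk_surjective m
          have hz1 : z ∈ N₁ := hm
          have hz2 := hmin N₁ hN₁n hN₁le hN₁N hz1
          rw [Subgroup.mem_bot, QuotientGroup.eq_one_iff]
          refine Subgroup.mem_inf.mpr ⟨hN₁le hz1, Subgroup.mem_centralizer_iff.mpr fun g _ => ?_⟩
          exact Subgroup.mem_center_iff.mp hz2 g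
    have hq : ∀ h ∈ V, ⁅⁅h, (x : G ⧸ ZN)⁆, (x : G ⧸ ZN)⁆ = 1 := by
      rintro _ ⟨y, hy, rfl⟩
      set w : G := x * y * x⁻¹ * y⁻¹ with hw
      have hwN : w ∈ N := by
        have h1 : x * y * x⁻¹ ∈ N := hN.conj_mem y hy x
        exact N.mul_mem h1 (N.inv_mem hy)
      have h1 : x * w * x⁻¹ * w⁻¹ ∈ ZN := by
        apply htrans w hwN
        have h2 := hfixI (f ((⟨y, hy⟩ : N) : N ⧸ Subgroup.center N)) ⟨_, rfl⟩
        have h3 : f ((⟨y, hy⟩ : N) : N ⧸ Subgroup.center N) =
            ((⟨w, hwN⟩ : N) : N ⧸ Subgroup.center N) := by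
          rw [hf, hα', ← QuotientGroup.mk_inv, ← QuotientGroup.mk_mul]
          congr 1
          apply Subtype.ext
          simp only [MulMemClass.coe_mul, InvMemClass.coe_inv, hcx, hw]
        rwa [h3] at h2
      have h2 : ⁅⁅y, x⁆, x⁆ ∈ ZN := by
        have e1 : ⁅⁅y, x⁆, x⁆ = w⁻¹ * (x * w * x⁻¹ * w⁻¹) * w⁻¹⁻¹ := by
          simp only [commutatorElement_def, hw]
          group
        rw [e1]
        exact hZNn.conj_mem _ h1 _
      change (QuotientGroup.mk' ZN) ⁅⁅y, x⁆, x⁆ = 1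
      rw [← MonoidHom.mem_ker, QuotientGroup.ker_mk']
      exact h2
    have hcent := mem_centralizer_of_quad hp5 V hminV hVp (x : G ⧸ ZN)
      (quad_of_pointwise V (x : G ⧸ ZN) hq)
    apply hnot
    intro y hy
    have h1 := Subgroup.mem_centralizer_iff.mp hcent (y : G ⧸ ZN) ⟨y, hy, rfl⟩
    have h2 : ((y * x : G) : G ⧸ ZN) = ((x * y : G) : G ⧸ ZN) := h1
    have h3 := QuotientGroup.eq.mp h2
    have e1 : x * y * x⁻¹ * y⁻¹ = (y * x) * ((y * x)⁻¹ * (x * y)) * (y * x)⁻¹ := by group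
    rw [e1]
    exact hZNn.conj_mem _ h3 (y * x)
  have hι : p ^ 2 ≤ Nat.card f.range := by
    rw [ha]
    apply Nat.pow_le_pow_right hp.pos
    omega
  let α : Equiv.Perm (N ⧸ Subgroup.center N) := α'.toEquiv
  have hα : ∀ q : N, α (q : N ⧸ Subgroup.center N) = (cx q : N ⧸ Subgroup.center N) := hα'
  have hm : 1 < Nat.card (N ⧸ Subgroup.center N) := by
    apply one_lt_card_quot_center
    intro hall
    apply hnab
    intro a ha b hb
    exact congrArg Subtype.val (hall ⟨a, ha⟩ ⟨b, hb⟩)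
  have hnum : 4 * (Nat.card (N ⧸ Subgroup.center N) +
      (p - 1) * Nat.card {l : N ⧸ Subgroup.center N // α l = l}) <
      p * (Nat.card (N ⧸ Subgroup.center N) + 4) := by
    have e : Nat.card {l : N ⧸ Subgroup.center N // α l = l} = Nat.card f.ker := hcardfix
    rw [e, ← hcardM]
    set c := Nat.card f.ker
    set ι := Nat.card f.range
    obtain ⟨q, rfl⟩ : ∃ q, p = q + 5 := ⟨p - 5, by omega⟩
    simp only [show q + 5 - 1 = q + 4 from rfl]
    have h1 : (q + 5) ^ 2 ≤ ι := hι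
    have h2 : 4 * q + 16 ≤ (q + 1) * ι := by nlinarith
    have h3 : c * (4 * q + 16) ≤ c * ((q + 1) * ι) := Nat.mul_le_mul_left _ h2
    nlinarith
  exact T_sub ρ N x hp hp5 hord cx hcx (hC_of ρ hfaith hZ N hcc) α hα hm hnum

/-- **The main theorem over algebraically closed fields.** -/
theorem T_alg [Group.IsSolvable G] (ρ : G →* End K W) (hfaith : Function.Injective ρ)
    (hirr : ∀ U : Submodule K W, (∀ g, ∀ u ∈ U, ρ g u ∈ U) → U = ⊥ ∨ U = ⊤)
    {p : ℕ} (hp : p.Prime) (hp5 : 5 ≤ p) (x : G) (hord : orderOf x = p)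
    (hgen : Subgroup.normalClosure ({x} : Set G) = ⊤) :
    2 * finrank K (LinearMap.ker (ρ x - 1 : End K W)) < finrank K W := by
  classical
  haveI : Fact p.Prime := ⟨hp⟩
  have hZ : ∀ z ∈ Subgroup.center G, ∃ c : K, ρ z = c • 1 := by
    intro z hz
    refine Cfsg.Agent.Lib.HallHigman.Extraspecial.schur ρ hirr (ρ z) (fun g => ?_)
    rw [← map_mul, ← map_mul, ← Subgroup.mem_center_iff.mp hz g]
  by_cases hxc : x ∈ Subgroup.center G
  · obtain ⟨c, hc⟩ := hZ x hxc
    have hc1 : c ≠ 1 := by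
      rintro rfl
      rw [one_smul] at hc
      have h1 : x = 1 := hfaith (by rw [hc, map_one])
      rw [h1, orderOf_one] at hord
      exact hp.one_lt.ne hord
    have h0 : LinearMap.ker (ρ x - 1 : End K W) = ⊥ := by
      rw [LinearMap.ker_eq_bot']
      intro v hv
      rw [LinearMap.sub_apply, hc, Module.End.one_apply, LinearMap.smul_apply,
        Module.End.one_apply] at hv
      have hv2 : (c - 1) • v = 0 := by
        rw [sub_smul, one_smul]
        exact hv
      exact (smul_eq_zero.mp hv2).resolve_left (sub_ne_zero.mpr hc1)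
    rw [h0, finrank_bot]
    exact Module.finrank_pos
  · have hF : ¬ Cfsg.fittingSubgroup G ≤ Subgroup.center G := by
      intro h
      apply hxc
      have h1 := Cfsg.Agent.Lib.Solvable.Fitting.centralizer_fittingSubgroup_le (G := G)
      refine h (h1 (Subgroup.mem_centralizer_iff.mpr fun f hf => ?_))
      exact (Subgroup.mem_center_iff.mp (h hf) x).symm
    rw [Cfsg.Agent.Lib.Core.Basic.fittingSubgroup_eq_iSup_pCore] at hF
    obtain ⟨r, hr⟩ : ∃ r : Nat.Primes, ¬ Cfsg.pCore (r : ℕ) G ≤ Subgroup.center G := by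
      by_contra hall
      push Not at hall
      exact hF (iSup_le hall)
    haveI : Fact (r : ℕ).Prime := ⟨r.2⟩
    let P : Subgroup G → Prop := fun N => N.Normal ∧ IsPGroup (r : ℕ) N ∧ ¬ N ≤ Subgroup.center G
    obtain ⟨N, hNmin⟩ := exists_minimal_of_wellFoundedLT P
      ⟨Cfsg.pCore (r : ℕ) G, inferInstance, Cfsg.Agent.Lib.Core.Basic.pCore_isPGroup, hr⟩
    obtain ⟨hNn, hNp, hNc⟩ := hNmin.1
    have hmin : ∀ N₁ : Subgroup G, N₁.Normal → N₁ ≤ N → N₁ ≠ N → N₁ ≤ Subgroup.center G := by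
      intro N₁ h1 h2 h3
      by_contra h4
      exact h3 (le_antisymm h2 (hNmin.2 ⟨h1, hNp.to_le h2, h4⟩ h2))
    by_cases hab : ∀ a ∈ N, ∀ b ∈ N, a * b = b * a
    · exact Cfsg.Agent.Lib.FGS.AbelCase.abelian_case ρ hfaith hirr hp hp5 x hord hgen N hab hNc
    · by_cases hrp : (r : ℕ) = p
      · rw [hrp] at hNp
        exact case_p ρ hfaith hZ hp hp5 x hord hgen N hNp hmin hab
      · exact case_coprime ρ hfaith hZ hp hp5 x hord hgen r.2 hrp N hNp hmin hab

end cases

end Cfsg.Agent.Lib.FGS.TAlg
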