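/-
From algebraically closed fields to arbitrary fields: the fixed space of `x` has less than half of the
dimension, for faithful irreducible modules.
-/
import Mathlib
import Cfsg.Agent.Lib.FGS.TAlg

set_option autoImplicit false

namespace Cfsg.Agent.Lib.FGS.TGen

open Module Cfsg.Agent.Lib.Solvable.Basic

universe u v w

section fil

variable {K : Type u} [Field K] [IsAlgClosed K] {G : Type w} [Group G] [Finite G]
  [Group.IsSolvable G]

omit [IsAlgClosed K] in
theorem quot_aux {W : Type v} [AddCommGroup W] [Module K W] (ρ : G →* End K W)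
    (x : G) (hgen : Subgroup.normalClosure ({x} : Set G) = ⊤) :
    ∃ (Γ : Type w) (_ : Group Γ) (_ : Finite Γ) (_ : Group.IsSolvable Γ) (ρ' : Γ →* End K W)
      (π : G →* Γ), Function.Injective ρ' ∧ Function.Surjective π ∧ (∀ g, ρ' (π g) = ρ g) ∧
        Subgroup.normalClosure ({π x} : Set Γ) = ⊤ ∧ ∀ g, π g = 1 ↔ g ∈ ρ.ker := by
  have hlift : Function.Injective (QuotientGroup.lift ρ.ker ρ (le_refl _)) := by
    intro a b hab
    obtain ⟨g, rfl⟩ := QuotientGroup.mk_surjective a
    obtain ⟨h, rfl⟩ := QuotientGroup.mk_surjective b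
    have h1 : ρ g = ρ h := hab
    rw [QuotientGroup.eq, MonoidHom.mem_ker, map_mul, ← h1, ← map_mul, inv_mul_cancel, map_one]
  refine ⟨G ⧸ ρ.ker, inferInstance, inferInstance, inferInstance, QuotientGroup.lift ρ.ker ρ (le_refl _),
    QuotientGroup.mk' ρ.ker, hlift, QuotientGroup.mk'_surjective _,
    fun g => rfl, ?_, fun g => QuotientGroup.eq_one_iff g⟩
  have h1 := Subgroup.map_normalClosure ({x} : Set G) (QuotientGroup.mk' ρ.ker)
    (QuotientGroup.mk'_surjective _)
  rw [hgen, Set.image_singleton] at h1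
  rw [← h1]
  exact Subgroup.map_top_of_surjective _ (QuotientGroup.mk'_surjective _)

theorem irr_gen {p : ℕ} (hp : p.Prime) (hp5 : 5 ≤ p) (x : G) (hord : orderOf x = p)
    (hgen : Subgroup.normalClosure ({x} : Set G) = ⊤) {W : Type v} [AddCommGroup W] [Module K W]
    [FiniteDimensional K W] [Nontrivial W] (ρ : G →* End K W)
    (hirr : ∀ U : Submodule K W, (∀ g, ∀ u ∈ U, ρ g u ∈ U) → U = ⊥ ∨ U = ⊤) (hxker : x ∉ ρ.ker) :
    2 * finrank K (LinearMap.ker (ρ x - 1 : End K W)) < finrank K W := by
  haveI : Fact p.Prime := ⟨hp⟩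
  have hxp : x ^ p = 1 := by rw [← hord, pow_orderOf_eq_one]
  obtain ⟨Γ, i1, i2, i3, ρ', π, hinj, hsurj, hρ', hgen', hker⟩ := quot_aux ρ x hgen
  have hx1 : π x ≠ 1 := fun h => hxker ((hker x).mp h)
  have hord' : orderOf (π x) = p := by
    apply orderOf_eq_prime _ hx1
    rw [← map_pow, hxp, map_one]
  have h := TAlg.T_alg ρ' hinj (by
    intro U hU
    apply hirr U
    intro g u hu
    rw [← hρ']
    exact hU (π g) u hu) hp hp5 (π x) hord' hgen'
  rwa [hρ'] at h

theorem fil_gen {p : ℕ} (hp : p.Prime) (hp5 : 5 ≤ p) (x : G) (hord : orderOf x = p)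
    (hgen : Subgroup.normalClosure ({x} : Set G) = ⊤) (F₀ : Subgroup G) [Fintype F₀]
    (hc : ((Fintype.card F₀ : ℕ) : K) ≠ 0) :
    ∀ (n : ℕ) (W : Type v) [AddCommGroup W] [Module K W] [FiniteDimensional K W] [Nontrivial W]
      (ρ : G →* End K W), finrank K W = n → ∑ f : F₀, ρ (f : G) = 0 →
      2 * finrank K (LinearMap.ker (ρ x - 1 : End K W)) < finrank K W := by
  classical
  haveI : Fact p.Prime := ⟨hp⟩
  have hxp : x ^ p = 1 := by rw [← hord, pow_orderOf_eq_one]
  intro n
  induction n using Nat.strong_induction_on with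
  | _ n ih =>
    intro W _ _ _ _ ρ hn hS
    by_cases hirr : ∀ U : Submodule K W, (∀ g, ∀ u ∈ U, ρ g u ∈ U) → U = ⊥ ∨ U = ⊤
    · have hxker : x ∉ ρ.ker := by
        intro hx
        have h1 : Subgroup.normalClosure ({x} : Set G) ≤ ρ.ker :=
          Subgroup.normalClosure_le_normal (by
            intro w hw
            rw [Set.mem_singleton_iff.mp hw]
            exact hx)
        rw [hgen] at h1
        have h2 : ∀ g, ρ g = 1 := fun g => h1 trivial
        have h3 : ∑ f : F₀, ρ (f : G) = ((Fintype.card F₀ : ℕ) : K) • (1 : End K W) := by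
          simp [h2, Nat.cast_smul_eq_nsmul]
        rw [h3] at hS
        rcases smul_eq_zero.mp hS with h4 | h4
        · exact hc h4
        · exact one_ne_zero h4
      exact irr_gen hp hp5 x hord hgen ρ hirr hxker
    · push Not at hirr
      obtain ⟨U, hU, hU1, hU2⟩ := hirr
      haveI : Nontrivial U := Submodule.nontrivial_iff_ne_bot.mpr hU1
      haveI : Nontrivial (W ⧸ U) := Submodule.Quotient.nontrivial_iff.mpr hU2
      have hd := Submodule.finrank_quotient_add_finrank U
      have hd1 : 0 < finrank K U := Module.finrank_pos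
      have hd2 : 0 < finrank K (W ⧸ U) := Module.finrank_pos
      have h1 := ih (finrank K U) (by omega) U (SubRep.subRep ρ U hU) rfl (by
        ext u
        have h2 := LinearMap.congr_fun hS (u : W)
        simp only [LinearMap.sum_apply, LinearMap.zero_apply] at h2 ⊢
        rw [AddSubmonoidClass.coe_finsetSum]
        simpa using h2)
      have h2 := ih (finrank K (W ⧸ U)) (by omega) (W ⧸ U) (SubRep.quoRep ρ U hU) rfl (by
        apply LinearMap.ext
        intro v
        obtain ⟨w, rfl⟩ := U.mkQ_surjective v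
        have h2 := LinearMap.congr_fun hS w
        simp only [LinearMap.sum_apply, LinearMap.zero_apply] at h2 ⊢
        simp only [SubRep.quoRep_mk]
        rw [← map_sum, h2, map_zero])
      exact SubRep.fixed_lt_of_sub_quot (ρ x) U _ _ (fun u => rfl) (fun w => rfl) h1 h2

end fil

section gen

variable {k : Type u} [Field k] {G : Type w} [Group G] [Finite G] [Group.IsSolvable G]
  {V : Type v} [AddCommGroup V] [Module k V] [FiniteDimensional k V]

theorem finrank_ker_le_baseChange (K : Type*) [Field K] [Algebra k K] (f : V →ₗ[k] V) :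
    finrank k (LinearMap.ker f) ≤ finrank K (LinearMap.ker (f.baseChange K)) := by
  let g := (LinearMap.ker f).subtype
  have hinj : Function.Injective (g.baseChange K) :=
    Module.Flat.lTensor_preserves_injective_linearMap g (Submodule.subtype_injective _)
  have hcomp : ∀ z, g.baseChange K z ∈ LinearMap.ker (f.baseChange K) := by
    intro z
    rw [LinearMap.mem_ker, ← LinearMap.comp_apply, ← LinearMap.baseChange_comp]
    have h0 : f ∘ₗ g = 0 := by
      ext v
      exact v.2
    rw [h0]
    simp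
  let g' : TensorProduct k K (LinearMap.ker f) →ₗ[K] LinearMap.ker (f.baseChange K) :=
    (g.baseChange K).codRestrict _ hcomp
  have hinj' : Function.Injective g' := fun a b h => hinj (congrArg Subtype.val h)
  have h1 := LinearMap.finrank_le_finrank_of_injective hinj'
  rwa [Module.finrank_baseChange] at h1

theorem T_gen (ℓ : ℕ) [hℓ : Fact ℓ.Prime] [CharP k ℓ] (ρ : G →* End k V)
    (hfaith : Function.Injective ρ)
    (hirr : ∀ U : Submodule k V, (∀ g, ∀ u ∈ U, ρ g u ∈ U) → U = ⊥ ∨ U = ⊤)
    {p : ℕ} (hp : p.Prime) (hp5 : 5 ≤ p) (x : G) (hord : orderOf x = p)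
    (hgen : Subgroup.normalClosure ({x} : Set G) = ⊤) :
    2 * finrank k (LinearMap.ker (ρ x - 1 : End k V)) < finrank k V := by
  classical
  haveI : Fact p.Prime := ⟨hp⟩
  have hx1 : x ≠ 1 := by
    rintro rfl
    rw [orderOf_one] at hord
    exact hp.one_lt.ne hord
  haveI : Nontrivial G := ⟨⟨x, 1, hx1⟩⟩
  have hV : Nontrivial V := by
    by_contra hV
    rw [not_nontrivial_iff_subsingleton] at hV
    apply hx1
    apply hfaith
    ext v
    exact Subsingleton.elim _ _
  obtain ⟨F₀, q, hq, hmin, hcomm, hexp⟩ := exists_normal_elemAbelian (G := G)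
  haveI hF₀n : F₀.Normal := hmin.1
  letI : Fintype F₀ := Fintype.ofFinite F₀
  let C : Submodule k V := ⨅ f : F₀, LinearMap.ker (ρ (f : G) - 1 : End k V)
  have hC : ∀ v, v ∈ C ↔ ∀ f : F₀, ρ (f : G) v = v := by
    intro v
    simp only [C, Submodule.mem_iInf, LinearMap.mem_ker, LinearMap.sub_apply, Module.End.one_apply,
      sub_eq_zero]
  have hCinv : ∀ g, ∀ u ∈ C, ρ g u ∈ C := by
    intro g u hu
    rw [hC] at hu ⊢
    intro f
    have h1 := hu ⟨g⁻¹ * f * g, hF₀n.conj_mem' f f.2 g⟩
    have h2 : (f : G) * g = g * (g⁻¹ * f * g) := by group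
    rw [← Module.End.mul_apply, ← map_mul, h2, map_mul, Module.End.mul_apply]
    congr 1
  have hCtop : C ≠ ⊤ := by
    intro h
    apply hmin.2.1
    rw [eq_bot_iff]
    intro f hf
    rw [Subgroup.mem_bot]
    apply hfaith
    rw [map_one]
    ext v
    have hv : v ∈ C := by rw [h]; trivial
    exact (hC v).mp hv ⟨f, hf⟩
  have hCbot : C = ⊥ := (hirr C hCinv).resolve_right hCtop
  have hqℓ : q ≠ ℓ := by
    rintro rfl
    let P : Submodule k V → Prop := fun U => U ≠ ⊥ ∧ ∀ f : F₀, ∀ u ∈ U, ρ (f : G) u ∈ U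
    obtain ⟨U₁, hU₁⟩ := exists_minimal_of_wellFoundedLT P
      ⟨⊤, top_ne_bot, fun f u _ => Submodule.mem_top⟩
    obtain ⟨h1, h2⟩ := hU₁.1
    apply h1
    rw [eq_bot_iff, ← hCbot]
    intro u hu
    rw [hC]
    intro f
    -- nilpotent
    let T : End k V := ρ (f : G)
    have hnil : (T - 1) ^ q = 0 := by
      have h3 : Polynomial.aeval T ((Polynomial.X - 1 : Polynomial k) ^ q) =
          Polynomial.aeval T (Polynomial.X ^ q - 1 : Polynomial k) := by
        rw [sub_pow_char]
        simp
      simp only [map_pow, map_sub, Polynomial.aeval_X, map_one] at h3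
      rw [h3, sub_eq_zero, ← map_pow, hexp f f.2, map_one]
    let U₂ : Submodule k V := U₁ ⊓ LinearMap.ker (T - 1 : End k V)
    have hU₂ : P U₂ := by
      constructor
      · obtain ⟨u₀, hu₀, hu₀1⟩ := Submodule.exists_mem_ne_zero_of_ne_bot h1
        have hex : ∃ i : ℕ, ((T - 1) ^ i) u₀ = 0 := ⟨q, by rw [hnil]; rfl⟩
        let i := Nat.find hex
        have hi := Nat.find_spec hex
        have hi0 : i ≠ 0 := by
          intro h0
          have : ((T - 1) ^ i) u₀ = 0 := hi
          rw [h0] at this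
          exact hu₀1 (by simpa using this)
        obtain ⟨j, hj⟩ := Nat.exists_eq_succ_of_ne_zero hi0
        have hj1 : ((T - 1) ^ j) u₀ ≠ 0 := Nat.find_min hex (by omega : j < i)
        have hj2 : ∀ i : ℕ, ∀ u ∈ U₁, ((T - 1) ^ i) u ∈ U₁ := by
          intro i
          induction i with
          | zero => simp
          | succ i ih =>
            intro u hu
            rw [pow_succ', Module.End.mul_apply, LinearMap.sub_apply, Module.End.one_apply]
            exact U₁.sub_mem (h2 f _ (ih u hu)) (ih u hu)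
        intro hbot
        apply hj1
        have hmem : ((T - 1) ^ j) u₀ ∈ U₂ := by
          refine ⟨hj2 j u₀ hu₀, ?_⟩
          change (T - 1) (((T - 1) ^ j) u₀) = 0
          rw [← Module.End.mul_apply, ← pow_succ']
          rw [← Nat.succ_eq_add_one, ← hj]
          exact hi
        rw [hbot, Submodule.mem_bot] at hmem
        exact hmem
      · intro f' u hu
        refine ⟨h2 f' u hu.1, ?_⟩
        have hu2 : (T - 1) u = 0 := hu.2
        rw [LinearMap.sub_apply, Module.End.one_apply, sub_eq_zero] at hu2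
        change (T - 1) _ = 0
        rw [LinearMap.sub_apply, Module.End.one_apply, sub_eq_zero]
        change ρ (f : G) (ρ (f' : G) u) = _
        rw [← Module.End.mul_apply, ← map_mul, hcomm f f.2 f' f'.2, map_mul, Module.End.mul_apply]
        congr 1
    have hle : U₁ ≤ U₂ := hU₁.2 hU₂ inf_le_left
    have h4 : (T - 1) u = 0 := (hle hu).2
    rw [LinearMap.sub_apply, Module.End.one_apply, sub_eq_zero] at h4
    exact h4
  have hS : ∑ f : F₀, ρ (f : G) = 0 := by
    ext v
    have h1 : (∑ f : F₀, ρ (f : G)) v ∈ C := by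
      rw [hC]
      intro h
      rw [LinearMap.sum_apply, map_sum]
      refine Fintype.sum_equiv (Equiv.mulLeft h) _ _ (fun f => ?_)
      rw [← Module.End.mul_apply, ← map_mul]
      rfl
    rw [hCbot, Submodule.mem_bot] at h1
    simpa using h1
  have hcard : ((Fintype.card F₀ : ℕ) : k) ≠ 0 := by
    have h1 : IsPGroup q F₀ := isPGroup_of_pow_eq_one hexp
    haveI : Fact q.Prime := ⟨hq⟩
    obtain ⟨n, hn⟩ := IsPGroup.iff_card.mp h1
    rw [← Nat.card_eq_fintype_card, hn]
    push_cast
    apply pow_ne_zero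
    intro h2
    rw [CharP.cast_eq_zero_iff k ℓ q] at h2
    exact hqℓ ((Nat.prime_dvd_prime_iff_eq hℓ.out hq).mp h2).symm
  let K := AlgebraicClosure k
  let b := Module.End.baseChangeHom k K V
  let ρ' : G →* End K (TensorProduct k K V) := (b.toMonoidHom).comp ρ
  have hρ' : ∀ g, ρ' g = (ρ g).baseChange K := fun g => rfl
  have hS' : ∑ f : F₀, ρ' (f : G) = 0 := by
    have h1 : b (∑ f : F₀, ρ (f : G)) = ∑ f : F₀, ρ' (f : G) := map_sum b _ _
    rw [← h1, hS, map_zero]
  have hcard' : ((Fintype.card F₀ : ℕ) : K) ≠ 0 := by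
    intro h
    apply hcard
    have h3 : algebraMap k K ((Fintype.card F₀ : ℕ) : k) = 0 := by
      simpa using h
    exact (map_eq_zero _).mp h3
  have hdim : finrank K (TensorProduct k K V) = finrank k V := Module.finrank_baseChange
  haveI hnt : Nontrivial (TensorProduct k K V) := by
    apply Module.nontrivial_of_finrank_pos (R := K)
    rw [hdim]
    exact Module.finrank_pos
  have h := fil_gen hp hp5 x hord hgen F₀ hcard' _ (TensorProduct k K V) ρ' rfl hS'
  have h2 : (ρ' x - 1 : End K (TensorProduct k K V)) = (ρ x - 1 : End k V).baseChange K := by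
    change b (ρ x) - 1 = b (ρ x - 1)
    rw [map_sub, map_one]
  rw [h2, hdim] at h
  have h3 := finrank_ker_le_baseChange K (ρ x - 1 : End k V)
  omega

end gen

end Cfsg.Agent.Lib.FGS.TGen

namespace Cfsg.Agent.Lib.FGS.TGen

open Module

universe u v w

variable {k : Type u} [Field k] {G : Type w} [Group G] [Finite G] [Group.IsSolvable G]
  {V : Type v} [AddCommGroup V] [Module k V] [FiniteDimensional k V]

/-- The version without faithfulness: it suffices that `x` acts nontrivially. -/
theorem T_gen' (ℓ : ℕ) [hℓ : Fact ℓ.Prime] [CharP k ℓ] (ρ : G →* End k V)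
    (hirr : ∀ U : Submodule k V, (∀ g, ∀ u ∈ U, ρ g u ∈ U) → U = ⊥ ∨ U = ⊤)
    {p : ℕ} (hp : p.Prime) (hp5 : 5 ≤ p) (x : G) (hord : orderOf x = p)
    (hgen : Subgroup.normalClosure ({x} : Set G) = ⊤) (hxker : x ∉ ρ.ker) :
    2 * finrank k (LinearMap.ker (ρ x - 1 : End k V)) < finrank k V := by
  haveI : Fact p.Prime := ⟨hp⟩
  have hxp : x ^ p = 1 := by rw [← hord, pow_orderOf_eq_one]
  obtain ⟨Γ, i1, i2, i3, ρ', π, hinj, hsurj, hρ', hgen', hker⟩ := quot_aux ρ x hgen
  have hx1 : π x ≠ 1 := fun h => hxker ((hker x).mp h)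
  have hord' : orderOf (π x) = p := by
    apply orderOf_eq_prime _ hx1
    rw [← map_pow, hxp, map_one]
  have h := T_gen ℓ ρ' hinj (by
    intro U hU
    apply hirr U
    intro g u hu
    rw [← hρ']
    exact hU (π g) u hu) hp hp5 (π x) hord' hgen'
  rwa [hρ'] at h

end Cfsg.Agent.Lib.FGS.TGen
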