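/-
Conjugacy of complements modulo a normal section, and the consequence of the fixed point estimate.
-/
import Mathlib
import Cfsg.Agent.Lib.FGS.TGen
import Cfsg.Agent.Lib.HallHigman.Section
import Cfsg.Agent.Lib.Coprime.Action
import Cfsg.Agent.Lib.Solvable.Carter
import Cfsg.Agent.Lib.HallHigman.FixedPoints
import Cfsg.Agent.Lib.PReduced.FrattiniResidual
import Cfsg.Agent.Lib.PGroups.Basic
import Cfsg.Agent.Lib.QuadAct.ZJ
import Cfsg.Agent.Lib.Coprime.Abelian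

set_option autoImplicit false

namespace Cfsg.Agent.Lib.FGS.CompConj

open Module
open Cfsg.Agent.Lib.Coprime.Action
open scoped commutatorElement

universe u

variable {Y : Type u} [Group Y] [Finite Y]

theorem complement_conj {r s : ℕ} [Fact r.Prime] [hs : Fact s.Prime] (hrs : r ≠ s)
    (U Ab D B : Subgroup Y) [hU : U.Normal] (hUr : IsPGroup r U)
    (hUA : ∀ y, ∃ u ∈ U, ∃ a ∈ Ab, u * a = y) (hinf : U ⊓ Ab = ⊥)
    (hDA : D ≤ Ab) (hDn : ∀ a ∈ Ab, ∀ d ∈ D, a * d * a⁻¹ ∈ D) (hDs : IsPGroup s D)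
    (hC : ∀ u ∈ U, (∀ d ∈ D, u * d = d * u) → u = 1)
    (hB : ∀ y, ∃ u ∈ U, ∃ b ∈ B, u * b = y) (hBU : U ⊓ B = ⊥) :
    ∃ u ∈ U, ∀ b ∈ B, u⁻¹ * b * u ∈ Ab := by
  classical
  have hcard : ∀ X : Subgroup Y, (∀ y, ∃ u ∈ U, ∃ b ∈ X, u * b = y) → U ⊓ X = ⊥ →
      Nat.card X * Nat.card U = Nat.card Y := by
    intro X h1 h2
    have h3 := Cfsg.Agent.Lib.Solvable.Hall.card_sup_mul_card_inf X U
    have h4 : X ⊔ U = ⊤ := by
      rw [eq_top_iff]
      intro y _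
      obtain ⟨u, hu, b, hb, rfl⟩ := h1 y
      rw [sup_comm]
      exact Subgroup.mul_mem_sup hu hb
    rw [h4, inf_comm, h2, Subgroup.card_bot, mul_one, Subgroup.card_top] at h3
    exact h3.symm
  have hcAb := hcard Ab hUA hinf
  have hcB := hcard B hB hBU
  set K : Subgroup Y := D ⊔ U with hK
  have hDU : D ⊓ U = ⊥ := by
    rw [eq_bot_iff, ← hinf]
    intro z hz
    exact ⟨hz.2, hDA hz.1⟩
  have hcK : Nat.card K = Nat.card D * Nat.card U := by
    have h3 := Cfsg.Agent.Lib.Solvable.Hall.card_sup_mul_card_inf D U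
    rw [hDU, Subgroup.card_bot, mul_one] at h3
    exact h3
  have hKmem : ∀ z, z ∈ K ↔ ∃ d ∈ D, ∃ u ∈ U, d * u = z := by
    intro z
    rw [hK, Subgroup.mem_sup_of_normal_right]
  have hUK : U ≤ K := le_sup_right
  have hDK : D ≤ K := le_sup_left
  have hKn : K.Normal := by
    constructor
    intro z hz y
    obtain ⟨d, hd, u, hu, rfl⟩ := (hKmem z).mp hz
    obtain ⟨u', hu', a, ha, rfl⟩ := hUA y
    have e : (u' * a) * (d * u) * (u' * a)⁻¹ =
        (u' * (a * d * a⁻¹) * u'⁻¹) * ((u' * a) * u * (u' * a)⁻¹) := by group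
    rw [e]
    refine K.mul_mem ?_ (hUK (hU.conj_mem u hu _))
    have e2 : u' * (a * d * a⁻¹) * u'⁻¹ = u' * ((a * d * a⁻¹) * u'⁻¹ * (a * d * a⁻¹)⁻¹) * (a * d * a⁻¹) := by
      group
    rw [e2]
    refine K.mul_mem (hUK (U.mul_mem hu' (hU.conj_mem _ (U.inv_mem hu') _))) (hDK (hDn a ha d hd))
  set S : Subgroup Y := B ⊓ K with hS
  have hcS : Nat.card S = Nat.card D := by
    have h3 := Cfsg.Agent.Lib.Solvable.Hall.card_sup_mul_card_inf B K
    have h4 : B ⊔ K = ⊤ := by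
      rw [eq_top_iff]
      intro y _
      obtain ⟨u, hu, b, hb, rfl⟩ := hB y
      rw [sup_comm]
      exact Subgroup.mul_mem_sup (hUK hu) hb
    rw [h4, Subgroup.card_top, hcK] at h3
    have h5 : Nat.card Y * Nat.card S = Nat.card Y * Nat.card D := by
      rw [← hcB]
      calc _ = Nat.card B * Nat.card U * Nat.card S := rfl
        _ = Nat.card Y * Nat.card S := by rw [hcB]
        _ = _ := h3
        _ = _ := by ring
    exact Nat.eq_of_mul_eq_mul_left Nat.card_pos h5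
  obtain ⟨m, hm⟩ := IsPGroup.iff_card.mp hUr
  have hnd : ¬ s ∣ D.relIndex K := by
    have h1 := card_eq_card_mul_relIndex hDK
    rw [hcK] at h1
    have h2 : D.relIndex K = Nat.card U := (Nat.eq_of_mul_eq_mul_left Nat.card_pos h1).symm
    rw [h2, hm]
    intro h3
    exact hrs ((Nat.prime_dvd_prime_iff_eq hs.out Fact.out).mp (hs.out.dvd_of_dvd_pow h3)).symm
  have hSy1 : IsSylowIn s D K := ⟨hDK, hDs, hnd⟩
  have hSK : S ≤ K := inf_le_right
  have hSy2 : IsSylowIn s S K := by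
    refine ⟨hSK, ?_, ?_⟩
    · obtain ⟨n, hn⟩ := IsPGroup.iff_card.mp hDs
      exact IsPGroup.of_card (hcS.trans hn)
    · rw [relIndex_eq_of_card_eq hSK hDK hcS]
      exact hnd
  obtain ⟨k, hk, hkS⟩ := hSy1.exists_conj hSy2
  -- `k = u d`
  obtain ⟨u, hu, d₀, hd₀, rfl⟩ : ∃ u ∈ U, ∃ d₀ ∈ D, u * d₀ = k := by
    have h1 : k ∈ U ⊔ D := by rw [sup_comm]; exact hk
    rwa [Subgroup.mem_sup_of_normal_left] at h1
  have hSmem : ∀ z, z ∈ S ↔ u⁻¹ * z * u ∈ D := by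
    intro z
    rw [← hkS, Subgroup.mem_pointwise_smul_iff_inv_smul_mem, MulAut.smul_def, MulAut.conj_inv_apply]
    have e1 : (u * d₀)⁻¹ * z * (u * d₀) = d₀⁻¹ * (u⁻¹ * z * u) * d₀ := by group
    rw [e1]
    constructor
    · intro h
      have h2 := D.mul_mem (D.mul_mem hd₀ h) (D.inv_mem hd₀)
      have e2 : d₀ * (d₀⁻¹ * (u⁻¹ * z * u) * d₀) * d₀⁻¹ = u⁻¹ * z * u := by group
      rwa [e2] at h2
    · intro h
      exact D.mul_mem (D.mul_mem (D.inv_mem hd₀) h) hd₀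
  refine ⟨u, hu, fun b hb => ?_⟩
  set y := u⁻¹ * b * u with hy
  have hyn : ∀ d ∈ D, y * d * y⁻¹ ∈ D := by
    intro d hd
    have h1 : u * d * u⁻¹ ∈ S := (hSmem _).mpr (by simpa [mul_assoc] using hd)
    have h2 : b * (u * d * u⁻¹) * b⁻¹ ∈ S :=
      ⟨B.mul_mem (B.mul_mem hb h1.1) (B.inv_mem hb), hKn.conj_mem _ h1.2 b⟩
    have h3 := (hSmem _).mp h2
    have e : y * d * y⁻¹ = u⁻¹ * (b * (u * d * u⁻¹) * b⁻¹) * u := by
      simp only [hy]
      group
    rw [e]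
    exact h3
  obtain ⟨u₂, hu₂, a₂, ha₂, hya⟩ := hUA y
  have hu₂n : ∀ d ∈ D, u₂ * d * u₂⁻¹ ∈ D := by
    intro d hd
    have h1 := hDn a₂⁻¹ (Ab.inv_mem ha₂) d hd
    have h2 := hyn _ h1
    have e : u₂ * d * u₂⁻¹ = y * (a₂⁻¹ * d * a₂⁻¹⁻¹) * y⁻¹ := by
      rw [← hya]
      group
    rw [e]
    exact h2
  have hu₂1 : u₂ = 1 := by
    apply hC u₂ hu₂
    intro d hd
    have h1 : u₂ * d * u₂⁻¹ * d⁻¹ ∈ U ⊓ Ab := by
      constructor
      · have e : u₂ * d * u₂⁻¹ * d⁻¹ = u₂ * (d * u₂⁻¹ * d⁻¹) := by group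
        rw [e]
        exact U.mul_mem hu₂ (hU.conj_mem _ (U.inv_mem hu₂) d)
      · exact Ab.mul_mem (hDA (hu₂n d hd)) (Ab.inv_mem (hDA hd))
    rw [hinf, Subgroup.mem_bot] at h1
    have h2 := mul_inv_eq_one.mp h1
    exact mul_inv_eq_iff_eq_mul.mp h2
  rw [hu₂1, one_mul] at hya
  change y ∈ Ab
  rw [← hya]
  exact ha₂

set_option maxHeartbeats 1000000 in
/-- The core: some twisted pair generates modulo nothing a subgroup containing `U`. -/
theorem Y_core {p r s : ℕ} [hp : Fact p.Prime] [hr : Fact r.Prime] [hs : Fact s.Prime] (hp5 : 5 ≤ p)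
    (hrs : r ≠ s) (U Ab D : Subgroup Y) [hU : U.Normal]
    (hUc : ∀ a ∈ U, ∀ b ∈ U, a * b = b * a) (hUe : ∀ a ∈ U, a ^ r = 1) (hU1 : U ≠ ⊥)
    (hsolv : Group.IsSolvable Ab)
    (hUA : ∀ y, ∃ u ∈ U, ∃ a ∈ Ab, u * a = y) (hinf : U ⊓ Ab = ⊥)
    (hDA : D ≤ Ab) (hDn : ∀ a ∈ Ab, ∀ d ∈ D, a * d * a⁻¹ ∈ D) (hDs : IsPGroup s D)
    (hC : ∀ u ∈ U, (∀ d ∈ D, u * d = d * u) → u = 1)
    (hirr : ∀ T : Subgroup Y, T ≤ U → (∀ a ∈ Ab, ∀ t ∈ T, a * t * a⁻¹ ∈ T) → T = ⊥ ∨ T = U)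
    (x a : Y) (hxA : x ∈ Ab) (haA : a ∈ Ab) (hxp : x ^ p = 1)
    (hAb : Ab = Subgroup.closure {x, a * x * a⁻¹}) :
    ∃ w ∈ U, U ≤ Subgroup.closure {x, w * (a * x * a⁻¹) * w⁻¹} := by
  classical
  by_contra hall
  push Not at hall
  set x' : Y := a * x * a⁻¹ with hx'
  have hx'A : x' ∈ Ab := Ab.mul_mem (Ab.mul_mem haA hxA) (Ab.inv_mem haA)
  have hUr : IsPGroup r U := Cfsg.Agent.Lib.Solvable.Basic.isPGroup_of_pow_eq_one hUe
  have hfixU : ∀ u ∈ U, ∀ z ∈ Ab, u⁻¹ * z * u ∈ Ab → z * u = u * z := by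
    intro u hu z hz h
    have h1 : (u⁻¹ * z * u) * z⁻¹ ∈ U ⊓ Ab := by
      constructor
      · have e : (u⁻¹ * z * u) * z⁻¹ = u⁻¹ * (z * u * z⁻¹) := by group
        rw [e]
        exact U.mul_mem (U.inv_mem hu) (hU.conj_mem u hu z)
      · exact Ab.mul_mem h (Ab.inv_mem hz)
    rw [hinf, Subgroup.mem_bot] at h1
    have h2 : u⁻¹ * z * u = z := mul_inv_eq_one.mp h1
    calc z * u = u * (u⁻¹ * z * u) := by group
      _ = u * z := by rw [h2]
  -- decomposition of the elements of `U`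
  have hdec : ∀ w ∈ U, ∃ u ∈ U, ∃ v ∈ U, w = u * v ∧ x * u = u * x ∧ x' * v = v * x' := by
    intro w hw
    set B : Subgroup Y := Subgroup.closure {x, w * x' * w⁻¹} with hB
    have hxB : x ∈ B := Subgroup.subset_closure (by simp)
    have hwB : w * x' * w⁻¹ ∈ B := Subgroup.subset_closure (by simp)
    have hsup : U ⊔ B = ⊤ := by
      have hAbS : Ab ≤ U ⊔ B := by
        rw [hAb, Subgroup.closure_le]
        intro z hz
        simp only [Set.mem_insert_iff, Set.mem_singleton_iff] at hz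
        rcases hz with hz | hz
        · rw [hz]
          exact (le_sup_right : B ≤ U ⊔ B) hxB
        · rw [hz]
          have e : x' = w⁻¹ * (w * x' * w⁻¹) * w := by group
          rw [e]
          exact (U ⊔ B).mul_mem ((U ⊔ B).mul_mem ((le_sup_left : U ≤ U ⊔ B) (U.inv_mem hw))
            ((le_sup_right : B ≤ U ⊔ B) hwB)) ((le_sup_left : U ≤ U ⊔ B) hw)
      rw [eq_top_iff]
      intro y _
      obtain ⟨u, hu, b, hb, rfl⟩ := hUA y
      exact (U ⊔ B).mul_mem ((le_sup_left : U ≤ U ⊔ B) hu) (hAbS hb)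
    have hB' : ∀ y, ∃ u ∈ U, ∃ b ∈ B, u * b = y := by
      intro y
      have h1 : y ∈ U ⊔ B := by rw [hsup]; trivial
      exact Subgroup.mem_sup_of_normal_left.mp h1
    have hT : U ⊓ B = ⊥ := by
      refine (hirr (U ⊓ B) inf_le_left ?_).resolve_right ?_
      · intro a₁ _ t ht
        obtain ⟨u₁, hu₁, b₁, hb₁, rfl⟩ := hB' a₁
        have ht1 : b₁ * t * b₁⁻¹ ∈ U := hU.conj_mem t ht.1 b₁
        have ht2 : b₁ * t * b₁⁻¹ ∈ B := B.mul_mem (B.mul_mem hb₁ ht.2) (B.inv_mem hb₁)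
        have e : (u₁ * b₁) * t * (u₁ * b₁)⁻¹ = b₁ * t * b₁⁻¹ := by
          have h3 := hUc u₁ hu₁ _ ht1
          calc (u₁ * b₁) * t * (u₁ * b₁)⁻¹ = (u₁ * (b₁ * t * b₁⁻¹)) * u₁⁻¹ := by group
            _ = ((b₁ * t * b₁⁻¹) * u₁) * u₁⁻¹ := by rw [h3]
            _ = _ := by group
        rw [e]
        exact ⟨ht1, ht2⟩
      · intro h
        apply hall w hw
        rw [← h]
        exact inf_le_right
    obtain ⟨u, hu, hconj⟩ := complement_conj hrs U Ab D B hUr hUA hinf hDA hDn hDs hC hB' hT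
    have h1 := hconj x hxB
    have h2 := hconj _ hwB
    have hv : u⁻¹ * w ∈ U := U.mul_mem (U.inv_mem hu) hw
    refine ⟨u, hu, u⁻¹ * w, hv, by group, (hfixU u hu x hxA h1), ?_⟩
    have h3 : (u⁻¹ * w)⁻¹⁻¹ * x' * (u⁻¹ * w)⁻¹ ∈ Ab := by
      have e : (u⁻¹ * w)⁻¹⁻¹ * x' * (u⁻¹ * w)⁻¹ = u⁻¹ * (w * x' * w⁻¹) * u := by group
      rw [e]
      exact h2
    have h4 := hfixU _ (U.inv_mem hv) x' hx'A h3
    have h5 : (u⁻¹ * w) * x' = x' * (u⁻¹ * w) := by
      calc (u⁻¹ * w) * x' = (u⁻¹ * w) * (x' * (u⁻¹ * w)⁻¹) * (u⁻¹ * w) := by group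
        _ = (u⁻¹ * w) * ((u⁻¹ * w)⁻¹ * x') * (u⁻¹ * w) := by rw [h4]
        _ = x' * (u⁻¹ * w) := by group
    exact h5.symm
  -- the module
  obtain ⟨V, i1, i2, i3, ρ, π', hadd, hsurj, hker, heq⟩ :=
    Cfsg.Agent.Lib.HallHigman.Section.exists_section_module (p := r) (⊥ : Subgroup Y) U bot_le
      (fun a ha b hb => by
        rw [Subgroup.mem_bot, hUc a ha b hb, mul_inv_cancel_right, mul_inv_cancel])
      (fun a ha => by
        rw [Subgroup.mem_bot]
        exact hUe a ha)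
  have hzero : π' 1 = 0 := by
    have := hadd 1 1
    rw [mul_one] at this
    simpa using this
  have hneg : ∀ t, π' t⁻¹ = - π' t := by
    intro t
    have := hadd t⁻¹ t
    rw [inv_mul_cancel, hzero] at this
    exact (eq_neg_of_add_eq_zero_left this.symm)
  have hinj : ∀ t : U, π' t = 0 → t = 1 := by
    intro t ht
    have h1 := (hker t).mp ht
    rw [Subgroup.mem_bot] at h1
    exact Subtype.ext h1
  have hactfix : ∀ g : Y, ∀ t : U, g * t.1 * g⁻¹ = t.1 → ρ g (π' t) = π' t := by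
    intro g t h
    exact heq g t t h.symm
  have hact : ∀ g : Y, ∀ t : U, ρ g (π' t) = π' ⟨g * t.1 * g⁻¹, hU.conj_mem _ t.2 g⟩ := by
    intro g t
    exact heq g t _ rfl
  haveI hV : Nontrivial V := by
    obtain ⟨t, ht⟩ := Subgroup.ne_bot_iff_exists_ne_one.mp hU1
    exact ⟨⟨π' t, 0, fun h => ht (hinj t h)⟩⟩
  haveI := hsolv
  let ρA : Ab →* End (ZMod r) V := ρ.comp Ab.subtype
  have hρA : ∀ g : Ab, ρA g = ρ g := fun g => rfl
  let xh : Ab := ⟨x, hxA⟩
  let ah : Ab := ⟨a, haA⟩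
  have hclos : ∀ L : Subgroup Ab, xh ∈ L → ah * xh * ah⁻¹ ∈ L → L = ⊤ := by
    intro L h1 h2
    have h3 : Subgroup.closure {x, x'} ≤ L.map Ab.subtype := by
      rw [Subgroup.closure_le]
      intro z hz
      simp only [Set.mem_insert_iff, Set.mem_singleton_iff] at hz
      rcases hz with hz | hz
      · rw [hz]
        exact ⟨xh, h1, rfl⟩
      · rw [hz]
        exact ⟨_, h2, rfl⟩
    rw [eq_top_iff]
    intro g _
    obtain ⟨g', hg', hgg⟩ := h3 (hAb.le g.2)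
    have : g' = g := Subtype.ext hgg
    rwa [← this]
  have hxker : xh ∉ ρA.ker := by
    intro h
    have h1 : ah * xh * ah⁻¹ ∈ ρA.ker := (MonoidHom.normal_ker ρA).conj_mem _ h _
    have h2 := hclos _ h h1
    obtain ⟨t, ht⟩ := Subgroup.ne_bot_iff_exists_ne_one.mp hU1
    apply ht
    have h3 : ∀ g : Ab, ∀ t : U, g.1 * t.1 = t.1 * g.1 := by
      intro g t
      have h4 : g ∈ ρA.ker := by rw [h2]; trivial
      have h5 : ρ g (π' t) = π' t := by
        have : ρA g = 1 := h4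
        rw [← hρA, this]
        rfl
      rw [hact] at h5
      have h6 := hinj (⟨g.1 * t.1 * g.1⁻¹, hU.conj_mem _ t.2 g.1⟩ * t⁻¹) (by
        rw [hadd, hneg, h5, add_neg_cancel])
      have h7 : g.1 * t.1 * g.1⁻¹ * t.1⁻¹ = 1 := congrArg Subtype.val h6
      have h8 := mul_inv_eq_one.mp h7
      exact mul_inv_eq_iff_eq_mul.mp h8
    apply Subtype.ext
    refine hC t.1 t.2 fun d hd => ?_
    exact (h3 ⟨d, hDA hd⟩ t).symm
  have hxh1 : xh ≠ 1 := by
    intro h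
    apply hxker
    rw [h]
    exact Subgroup.one_mem _
  have hord : orderOf xh = p := by
    apply orderOf_eq_prime _ hxh1
    apply Subtype.ext
    exact hxp
  have hgen : Subgroup.normalClosure ({xh} : Set Ab) = ⊤ := by
    have hnc : (Subgroup.normalClosure ({xh} : Set Ab)).Normal := Subgroup.normalClosure_normal
    have hx0 : xh ∈ Subgroup.normalClosure ({xh} : Set Ab) :=
      Subgroup.subset_normalClosure (Set.mem_singleton xh)
    exact hclos _ hx0 (hnc.conj_mem xh hx0 ah)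
  have hirrV : ∀ M : Submodule (ZMod r) V, (∀ g, ∀ m ∈ M, ρA g m ∈ M) → M = ⊥ ∨ M = ⊤ := by
    intro M hM
    let T : Subgroup Y :=
      { carrier := {y | ∃ h : y ∈ U, π' ⟨y, h⟩ ∈ M}
        mul_mem' := by
          rintro y₁ y₂ ⟨h₁, h₃⟩ ⟨h₂, h₄⟩
          refine ⟨U.mul_mem h₁ h₂, ?_⟩
          have := hadd ⟨y₁, h₁⟩ ⟨y₂, h₂⟩
          have e : (⟨y₁ * y₂, U.mul_mem h₁ h₂⟩ : U) = ⟨y₁, h₁⟩ * ⟨y₂, h₂⟩ := rfl
          rw [e, this]
          exact M.add_mem h₃ h₄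
        one_mem' := by
          refine ⟨U.one_mem, ?_⟩
          have e : (⟨1, U.one_mem⟩ : U) = 1 := rfl
          rw [e, hzero]
          exact M.zero_mem
        inv_mem' := by
          rintro y ⟨h, h₁⟩
          refine ⟨U.inv_mem h, ?_⟩
          have e : (⟨y⁻¹, U.inv_mem h⟩ : U) = (⟨y, h⟩ : U)⁻¹ := rfl
          rw [e, hneg]
          exact M.neg_mem h₁ }
    have hT1 : T ≤ U := fun y hy => hy.1
    rcases hirr T hT1 (by
      rintro a₁ ha₁ t ⟨h, h₁⟩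
      refine ⟨hU.conj_mem t h a₁, ?_⟩
      have h2 := hM ⟨a₁, ha₁⟩ _ h₁
      rw [hρA, hact] at h2
      exact h2) with h | h
    · left
      rw [eq_bot_iff]
      intro m hm
      obtain ⟨t, rfl⟩ := hsurj m
      have h1 : t.1 ∈ T := ⟨t.2, hm⟩
      rw [h, Subgroup.mem_bot] at h1
      have h2 : t = 1 := Subtype.ext h1
      rw [h2, hzero]
      exact Submodule.zero_mem _
    · right
      rw [eq_top_iff]
      intro m _
      obtain ⟨t, rfl⟩ := hsurj m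
      have h1 : t.1 ∈ T := by rw [h]; exact t.2
      exact h1.2
  have hfin := Cfsg.Agent.Lib.FGS.TGen.T_gen' r ρA hirrV hp.out hp5 xh hord hgen hxker
  set K₁ := LinearMap.ker (ρA xh - 1 : End (ZMod r) V) with hK₁
  set K₂ := LinearMap.ker (ρ x' - 1 : End (ZMod r) V) with hK₂
  have hK₁mem : ∀ v, v ∈ K₁ ↔ ρ x v = v := by
    intro v
    rw [hK₁, LinearMap.mem_ker, LinearMap.sub_apply, Module.End.one_apply, sub_eq_zero]
    rfl
  have hK₂mem : ∀ v, v ∈ K₂ ↔ ρ x' v = v := by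
    intro v
    rw [hK₂, LinearMap.mem_ker, LinearMap.sub_apply, Module.End.one_apply, sub_eq_zero]
  have hinva : ∀ v, ρ a (ρ a⁻¹ v) = v := by
    intro v
    rw [← Module.End.mul_apply, ← map_mul, mul_inv_cancel, map_one, Module.End.one_apply]
  have hle : finrank (ZMod r) K₂ ≤ finrank (ZMod r) K₁ := by
    let f : K₂ →ₗ[ZMod r] K₁ := (ρ a⁻¹).restrict (fun v hv => by
      rw [hK₁mem]
      have h1 := (hK₂mem v).mp hv
      have e : x * a⁻¹ = a⁻¹ * x' := by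
        rw [hx']
        group
      rw [← Module.End.mul_apply, ← map_mul, e, map_mul, Module.End.mul_apply, h1])
    apply LinearMap.finrank_le_finrank_of_injective (f := f)
    rw [← LinearMap.ker_eq_bot, LinearMap.ker_eq_bot']
    intro v hv
    apply Subtype.ext
    have h1 : ρ a⁻¹ (v : V) = 0 := congrArg Subtype.val hv
    have h2 := hinva v
    rw [h1, map_zero] at h2
    exact h2.symm
  have htop : K₁ ⊔ K₂ = ⊤ := by
    rw [eq_top_iff]
    intro v _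
    obtain ⟨t, rfl⟩ := hsurj v
    obtain ⟨u, hu, w, hw, h1, h2, h3⟩ := hdec t.1 t.2
    have e : t = ⟨u, hu⟩ * ⟨w, hw⟩ := Subtype.ext h1
    rw [e, hadd]
    refine Submodule.add_mem_sup ?_ ?_
    · rw [hK₁mem]
      apply hactfix
      change x * u * x⁻¹ = u
      rw [h2]
      group
    · rw [hK₂mem]
      apply hactfix
      change x' * w * x'⁻¹ = w
      rw [h3]
      group
  have h4 := Submodule.finrank_add_le_finrank_add_finrank K₁ K₂
  rw [htop, finrank_top] at h4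
  omega

theorem closure_eq_sup {H : Type*} [Group H] (P : Subgroup H) (x b : H) (hP : Subgroup.zpowers x = P) :
    P ⊔ P.map (MulAut.conj b).toMonoidHom = Subgroup.closure {x, b * x * b⁻¹} := by
  apply le_antisymm
  · apply sup_le
    · rw [← hP, Subgroup.zpowers_le]
      exact Subgroup.subset_closure (by simp)
    · rw [← hP, MonoidHom.map_zpowers, Subgroup.zpowers_le]
      apply Subgroup.subset_closure
      simp [MulAut.conj_apply]
  · rw [Subgroup.closure_le]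
    intro z hz
    simp only [Set.mem_insert_iff, Set.mem_singleton_iff] at hz
    rcases hz with hz | hz
    · rw [hz]
      exact (le_sup_left : P ≤ _) (hP ▸ Subgroup.mem_zpowers x)
    · rw [hz]
      exact (le_sup_right : P.map (MulAut.conj b).toMonoidHom ≤ _)
        ⟨x, hP ▸ Subgroup.mem_zpowers x, rfl⟩

set_option maxHeartbeats 1000000 in
theorem core_H {H : Type u} [Group H] [Finite H] {p r s : ℕ} [hp : Fact p.Prime] [hr : Fact r.Prime]
    [hs : Fact s.Prime] (hp5 : 5 ≤ p) (hrs : r ≠ s) (A W D P : Subgroup H) [hW : W.Normal]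
    (hWr : IsPGroup r W) (hsolA : Group.IsSolvable A) (hAW : ∀ y, ∃ w ∈ W, ∃ a ∈ A, w * a = y)
    (hDA : D ≤ A) (hDn : ∀ a ∈ A, ∀ d ∈ D, a * d * a⁻¹ ∈ D) (hDs : IsPGroup s D)
    (hPc : Nat.card P = p) (a : H) (haA : a ∈ A) (hA : A = P ⊔ P.map (MulAut.conj a).toMonoidHom)
    (hmax : ∀ B : Subgroup H, A ≤ B → (∃ b ∈ B, B = P ⊔ P.map (MulAut.conj b).toMonoidHom) → B = A)
    (hmin : ∀ T : Subgroup H, T ≤ W → (∀ a ∈ A, ∀ t ∈ T, a * t * a⁻¹ ∈ T) → T ≠ W →
      ∀ t ∈ T, ∀ d ∈ D, t * d = d * t)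
    (hWD : ¬ ∀ t ∈ W, ∀ d ∈ D, t * d = d * t) : False := by
  classical
  obtain ⟨x, hxP, hord, hzx⟩ :=
    Cfsg.Agent.Lib.HallHigman.FixedPoints.exists_generator_of_prime hp.out hPc
  have hxp : x ^ p = 1 := by rw [← hord, pow_orderOf_eq_one]
  have hDN : D ≤ Subgroup.normalizer (W : Set H) := by
    intro d _
    refine Subgroup.mem_normalizer_iff.mpr fun h => ⟨fun hh => hW.conj_mem h hh d, fun hh => ?_⟩
    have := hW.conj_mem' _ hh d
    simpa [mul_assoc] using this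
  have hcop : (Nat.card D).Coprime (Nat.card W) := IsPGroup.coprime_card_of_ne s r (Ne.symm hrs) D W hDs hWr
  have hsolv : Group.IsSolvable D ∨ Group.IsSolvable W := Or.inr (by
    haveI := hWr.isNilpotent
    infer_instance)
  -- Step 1
  have hcomm : ⁅W, D⁆ = W := by
    by_contra hne
    apply hWD
    have h1 : ⁅W, D⁆ ≤ W := commutator_le_of_le_normalizer hDN
    have h2 : ∀ g ∈ A, ∀ t ∈ ⁅W, D⁆, g * t * g⁻¹ ∈ (⁅W, D⁆ : Subgroup H) := by
      intro g hg t ht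
      have h3 : g ∈ Subgroup.normalizer ((⁅W, D⁆ : Subgroup H) : Set H) := by
        apply le_normalizer_commutator_of_le (T := A) _ _ hg
        · intro b _
          refine Subgroup.mem_normalizer_iff.mpr fun h => ⟨fun hh => hW.conj_mem h hh b, fun hh => ?_⟩
          have := hW.conj_mem' _ hh b
          simpa [mul_assoc] using this
        · intro b hb
          refine Subgroup.mem_normalizer_iff.mpr fun h => ⟨fun hh => hDn b hb h hh, fun hh => ?_⟩
          have := hDn b⁻¹ (A.inv_mem hb) _ hh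
          simpa [mul_assoc] using this
      exact (Subgroup.mem_normalizer_iff.mp h3 t).mp ht
    have h3 := hmin _ h1 h2 hne
    have h4 : ⁅⁅W, D⁆, D⁆ = ⊥ := by
      rw [eq_bot_iff, Subgroup.commutator_le]
      intro t ht d hd
      rw [Subgroup.mem_bot, commutatorElement_eq_one_iff_mul_comm]
      exact h3 t ht d hd
    rw [commutator_commutator_eq hDN hcop hsolv] at h4
    intro t ht d hd
    have h5 := Subgroup.commutator_mem_commutator ht hd
    rwa [h4, Subgroup.mem_bot, commutatorElement_eq_one_iff_mul_comm] at h5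
  -- `W` is not in `A`
  have hWA : A ⊓ W ≠ W := by
    intro h
    apply hWD
    intro t ht d hd
    have htA : t ∈ A := by
      rw [← h] at ht
      exact ht.1
    have h1 : t * d * t⁻¹ * d⁻¹ ∈ D ⊓ W := by
      constructor
      · exact D.mul_mem (hDn t htA d hd) (D.inv_mem hd)
      · have e : t * d * t⁻¹ * d⁻¹ = t * (d * t⁻¹ * d⁻¹) := by group
        rw [e]
        exact W.mul_mem ht (hW.conj_mem _ (W.inv_mem ht) d)
    have h2 : D ⊓ W = ⊥ := by
      rw [eq_bot_iff]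
      intro z hz
      have h3 := IsPGroup.coprime_card_of_ne s r (Ne.symm hrs) (D ⊓ W) (D ⊓ W)
        (hDs.to_le (inf_le_left : D ⊓ W ≤ D)) (hWr.to_le (inf_le_right : D ⊓ W ≤ W))
      have h4 : Nat.card ↥(D ⊓ W) = 1 := by
        simpa using h3
      have h5 := Subgroup.eq_bot_of_card_eq _ h4
      rw [h5] at hz
      exact hz
    rw [h2, Subgroup.mem_bot] at h1
    have h3 := mul_inv_eq_one.mp h1
    exact mul_inv_eq_iff_eq_mul.mp h3
  -- Frattini
  set Φ : Subgroup H := (frattini ↥W).map W.subtype with hΦ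
  haveI hΦn : Φ.Normal := Cfsg.Agent.Lib.PReduced.FrattiniResidual.map_frattini_normal W
  have hΦW : Φ ≤ W := Subgroup.map_subtype_le _
  have hΦc : ∀ u ∈ W, ∀ v ∈ W, u * v * u⁻¹ * v⁻¹ ∈ Φ := by
    intro u hu v hv
    have h1 := Cfsg.Agent.Lib.PGroups.Basic.commutator_le_frattini hWr
      (Subgroup.commutator_mem_commutator (Subgroup.mem_top (⟨u, hu⟩ : W)) (Subgroup.mem_top (⟨v, hv⟩ : W)))
    exact ⟨_, h1, rfl⟩
  have hΦp : ∀ u ∈ W, u ^ r ∈ Φ := by
    intro u hu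
    exact ⟨_, Cfsg.Agent.Lib.PGroups.Basic.pow_mem_frattini hWr (⟨u, hu⟩ : W), rfl⟩
  let π : H →* H ⧸ Φ := QuotientGroup.mk' Φ
  have hπ : Function.Surjective π := QuotientGroup.mk'_surjective Φ
  have hπe : ∀ y z, π y = π z ↔ y⁻¹ * z ∈ Φ := fun y z => QuotientGroup.eq
  have hπ1 : ∀ y, π y = 1 ↔ y ∈ Φ := fun y => QuotientGroup.eq_one_iff y
  set U : Subgroup (H ⧸ Φ) := W.map π with hU
  set Ab : Subgroup (H ⧸ Φ) := A.map π with hAb
  set D' : Subgroup (H ⧸ Φ) := D.map π with hD'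
  haveI hUn : U.Normal := Subgroup.Normal.map hW π hπ
  have hUc : ∀ u ∈ U, ∀ v ∈ U, u * v = v * u := by
    rintro _ ⟨u, hu, rfl⟩ _ ⟨v, hv, rfl⟩
    rw [← map_mul, ← map_mul, hπe]
    have e : (u * v)⁻¹ * (v * u) = v⁻¹ * u⁻¹ * v⁻¹⁻¹ * u⁻¹⁻¹ := by group
    rw [e]
    exact hΦc v⁻¹ (W.inv_mem hv) u⁻¹ (W.inv_mem hu)
  have hUe : ∀ u ∈ U, u ^ r = 1 := by
    rintro _ ⟨u, hu, rfl⟩
    rw [← map_pow, hπ1]
    exact hΦp u hu
  have hU1 : U ≠ ⊥ := by
    intro h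
    have h0 : W = ⊥ := by
      have h1 : W ≤ Φ := by
        intro t ht
        have h2 : π t ∈ U := ⟨t, ht, rfl⟩
        rw [h, Subgroup.mem_bot] at h2
        exact (hπ1 t).mp h2
      have h2 : (⊥ : Subgroup H) ⊔ Φ = W := by
        rw [bot_sup_eq]
        exact le_antisymm hΦW h1
      exact (Cfsg.Agent.Lib.QuadAct.ZJ.eq_of_sup_frattini W ⊥ h2 bot_le).symm
    apply hWD
    intro t ht d _
    rw [h0, Subgroup.mem_bot] at ht
    rw [ht, one_mul, mul_one]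
  have hD'N : D' ≤ Subgroup.normalizer (U : Set (H ⧸ Φ)) := by
    intro d _
    refine Subgroup.mem_normalizer_iff.mpr fun h => ⟨fun hh => hUn.conj_mem h hh d, fun hh => ?_⟩
    have := hUn.conj_mem' _ hh d
    simpa [mul_assoc] using this
  haveI hUcomm : IsMulCommutative U :=
    ⟨⟨fun a b => Subtype.ext (hUc a a.2 b b.2)⟩⟩
  have hC : ∀ u ∈ U, (∀ d ∈ D', u * d = d * u) → u = 1 := by
    intro u hu h
    have hcop' : (Nat.card D').Coprime (Nat.card U) :=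
      IsPGroup.coprime_card_of_ne s r (Ne.symm hrs) D' U (hDs.map π) (hWr.map π)
    have h1 := Cfsg.Agent.Lib.Coprime.Abelian.inf_commutator_eq_bot hD'N hcop'
    have h2 : ⁅U, D'⁆ = U := by
      rw [hU, hD', ← Subgroup.map_commutator, hcomm]
    rw [h2] at h1
    have h3 : u ∈ (U ⊓ Subgroup.centralizer (D' : Set (H ⧸ Φ))) ⊓ U :=
      ⟨⟨hu, Subgroup.mem_centralizer_iff.mpr fun d hd => (h d hd).symm⟩, hu⟩
    rw [h1, Subgroup.mem_bot] at h3
    exact h3
  have hmemU : ∀ y, π y ∈ U → y ∈ W := by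
    intro y hy
    obtain ⟨w, hw, hwy⟩ := hy
    have h1 : w⁻¹ * y ∈ Φ := (hπe w y).mp hwy
    have e : y = w * (w⁻¹ * y) := by group
    rw [e]
    exact W.mul_mem hw (hΦW h1)
  have hcentπ : ∀ y, (∀ d ∈ D, y * d = d * y) → ∀ d ∈ D', π y * d = d * π y := by
    rintro y h _ ⟨d, hd, rfl⟩
    rw [← map_mul, ← map_mul, h d hd]
  have hinf : U ⊓ Ab = ⊥ := by
    rw [eq_bot_iff]
    rintro z ⟨hz1, ⟨a₁, ha₁, rfl⟩⟩
    rw [Subgroup.mem_bot]
    have h1 : a₁ ∈ W := hmemU a₁ hz1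
    have hT := hmin (A ⊓ W) inf_le_right (fun g hg t ht =>
      ⟨A.mul_mem (A.mul_mem hg ht.1) (A.inv_mem hg), hW.conj_mem t ht.2 g⟩) hWA
    exact hC _ hz1 (hcentπ a₁ (fun d hd => hT a₁ ⟨ha₁, h1⟩ d hd))
  have hUA : ∀ y, ∃ u ∈ U, ∃ a ∈ Ab, u * a = y := by
    intro y
    obtain ⟨y', rfl⟩ := hπ y
    obtain ⟨w, hw, g, hg, rfl⟩ := hAW y'
    exact ⟨π w, ⟨w, hw, rfl⟩, π g, ⟨g, hg, rfl⟩, (map_mul _ _ _).symm⟩
  have hirr : ∀ T : Subgroup (H ⧸ Φ), T ≤ U → (∀ a ∈ Ab, ∀ t ∈ T, a * t * a⁻¹ ∈ T) → T = ⊥ ∨ T = U := by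
    intro T hTU hTn
    have hT₁W : T.comap π ≤ W := fun y hy => hmemU y (hTU hy)
    by_cases hT₁ : T.comap π = W
    · right
      apply le_antisymm hTU
      rintro _ ⟨y, hy, rfl⟩
      rw [← hT₁] at hy
      exact hy
    · left
      have h1 := hmin (T.comap π) hT₁W (by
        intro g hg t ht
        change π (g * t * g⁻¹) ∈ T
        rw [map_mul, map_mul, map_inv]
        exact hTn _ ⟨g, hg, rfl⟩ _ ht) hT₁
      rw [eq_bot_iff]
      intro t ht
      obtain ⟨y, rfl⟩ := hπ t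
      rw [Subgroup.mem_bot]
      exact hC _ (hTU ht) (hcentπ y (fun d hd => h1 y ht d hd))
  have hsolAb : Group.IsSolvable Ab :=
    Group.isSolvable_of_surjective (f := π.subgroupMap A) (π.subgroupMap_surjective A)
  have hDA' : D' ≤ Ab := Subgroup.map_mono hDA
  have hDn' : ∀ g ∈ Ab, ∀ d ∈ D', g * d * g⁻¹ ∈ D' := by
    rintro _ ⟨g, hg, rfl⟩ _ ⟨d, hd, rfl⟩
    exact ⟨g * d * g⁻¹, hDn g hg d hd, by simp⟩
  have hAcl : A = Subgroup.closure {x, a * x * a⁻¹} := by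
    rw [hA]
    exact closure_eq_sup P x a hzx
  have hAbcl : Ab = Subgroup.closure {π x, π a * π x * (π a)⁻¹} := by
    rw [hAb, hAcl, MonoidHom.map_closure, Set.image_pair]
    simp
  have hxA : x ∈ A := by
    rw [hA]
    exact (le_sup_left : P ≤ _) hxP
  obtain ⟨w0, hw0, hle⟩ := Y_core (p := p) (r := r) (s := s) hp5 hrs U Ab D' hUc hUe hU1 hsolAb hUA hinf
    hDA' hDn' (hDs.map π) hC hirr (π x) (π a) ⟨x, hxA, rfl⟩ ⟨a, haA, rfl⟩
    (by rw [← map_pow, hxp, map_one]) hAbcl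
  obtain ⟨w, hw, rfl⟩ := hw0
  set b : H := w * a with hb
  set B : Subgroup H := P ⊔ P.map (MulAut.conj b).toMonoidHom with hB
  have hBcl : B = Subgroup.closure {x, b * x * b⁻¹} := closure_eq_sup P x b hzx
  have hBmap : B.map π = Subgroup.closure {π x, π w * (π a * π x * (π a)⁻¹) * (π w)⁻¹} := by
    rw [hBcl, MonoidHom.map_closure, Set.image_pair]
    congr 2
    simp [hb, mul_assoc]
  rw [← hBmap] at hle
  have hWB : W ≤ B := by
    have h1 : (B ⊓ W) ⊔ Φ = W := by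
      apply le_antisymm (sup_le inf_le_right hΦW)
      intro w' hw'
      obtain ⟨b', hb', hbw⟩ := hle ⟨w', hw', rfl⟩
      have h2 : b'⁻¹ * w' ∈ Φ := (hπe b' w').mp hbw
      have h3 : b' ∈ W := by
        have e : b' = w' * (b'⁻¹ * w')⁻¹ := by group
        rw [e]
        exact W.mul_mem hw' (W.inv_mem (hΦW h2))
      have e : w' = b' * (b'⁻¹ * w') := by group
      rw [e]
      exact Subgroup.mul_mem_sup ⟨hb', h3⟩ h2
    have h2 := Cfsg.Agent.Lib.QuadAct.ZJ.eq_of_sup_frattini W (B ⊓ W) h1 inf_le_right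
    rw [← h2]
    exact inf_le_left
  have hAB : A ≤ B := by
    rw [hA]
    apply sup_le le_sup_left
    rintro _ ⟨z, hz, rfl⟩
    have e : (MulAut.conj a).toMonoidHom z = w⁻¹ * ((MulAut.conj b).toMonoidHom z) * w := by
      simp [hb, MulAut.conj_apply, mul_assoc]
    rw [e]
    refine B.mul_mem (B.mul_mem (B.inv_mem (hWB hw)) ?_) (hWB hw)
    exact (le_sup_right : P.map (MulAut.conj b).toMonoidHom ≤ B) ⟨z, hz, rfl⟩
  have hBA := hmax B hAB ⟨b, B.mul_mem (hWB hw) (hAB haA), rfl⟩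
  apply hWA
  apply le_antisymm inf_le_right
  exact le_inf (hBA ▸ hWB) le_rfl

end Cfsg.Agent.Lib.FGS.CompConj
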