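/-
The key claim for the maximal solvable subgroups `⟨P, P^a⟩`: a normal `s`-subgroup of `A` centralizes all
`r`-subgroups normalized by `A`.
-/
import Mathlib
import Cfsg.Agent.Lib.FGS.CompConj
import Cfsg.Agent.Lib.Solvable.WielandtHall
import Cfsg.Agent.Lib.Core.Basic

set_option autoImplicit false

namespace Cfsg.Agent.Lib.FGS.KeyClaim

open Cfsg.Agent.Lib.Coprime.Action Cfsg.Agent.Lib.FGS.CompConj
open scoped commutatorElement

universe u

variable {G : Type u} [Group G] [Finite G]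

set_option maxHeartbeats 1000000 in
theorem key_claim {p r s : ℕ} [hp : Fact p.Prime] [hr : Fact r.Prime] [hs : Fact s.Prime]
    (hp5 : 5 ≤ p) (hrs : r ≠ s) (P A : Subgroup G) (hP : Nat.card P = p) (hsol : Group.IsSolvable A)
    (a : G) (haA : a ∈ A) (hA : A = P ⊔ P.map (MulAut.conj a).toMonoidHom)
    (hmax : ∀ B : Subgroup G, A ≤ B → Group.IsSolvable ↥B →
      (∃ b ∈ B, B = P ⊔ P.map (MulAut.conj b).toMonoidHom) → B = A)
    (D : Subgroup G) (hDA : D ≤ A) (hDn : ∀ g ∈ A, ∀ d ∈ D, g * d * g⁻¹ ∈ D) (hDs : IsPGroup s D)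
    (W : Subgroup G) (hWr : IsPGroup r W) (hAW : A ≤ Subgroup.normalizer (W : Set G)) :
    ∀ t ∈ W, ∀ d ∈ D, t * d = d * t := by
  classical
  by_contra hcon
  let Pr : Subgroup G → Prop := fun T =>
    IsPGroup r T ∧ A ≤ Subgroup.normalizer (T : Set G) ∧ ¬ ∀ t ∈ T, ∀ d ∈ D, t * d = d * t
  obtain ⟨W₀, hW₀⟩ := exists_minimal_of_wellFoundedLT Pr ⟨W, hWr, hAW, hcon⟩
  obtain ⟨hW₀r, hW₀n, hW₀D⟩ := hW₀.1
  have hW₀min : ∀ T : Subgroup G, T ≤ W₀ → A ≤ Subgroup.normalizer (T : Set G) → T ≠ W₀ →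
      ∀ t ∈ T, ∀ d ∈ D, t * d = d * t := by
    intro T hT hTn hne
    by_contra h
    exact hne (le_antisymm hT (hW₀.2 ⟨hW₀r.to_le hT, hTn, h⟩ hT))
  -- the group `H`
  let H : Subgroup G := W₀ ⊔ A
  have hWH : W₀ ≤ H := le_sup_left
  have hAH : A ≤ H := le_sup_right
  have hPA : P ≤ A := by rw [hA]; exact le_sup_left
  have hPH : P ≤ H := hPA.trans hAH
  have hDH : D ≤ H := hDA.trans hAH
  let A' : Subgroup H := A.subgroupOf H
  let W' : Subgroup H := W₀.subgroupOf H
  let D' : Subgroup H := D.subgroupOf H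
  let P' : Subgroup H := P.subgroupOf H
  have hHn : H ≤ Subgroup.normalizer (W₀ : Set G) := sup_le Subgroup.le_normalizer hW₀n
  haveI hW'n : W'.Normal := (Subgroup.normal_subgroupOf_iff_le_normalizer hWH).mpr hHn
  have hW'r : IsPGroup r W' := hW₀r.comap_subtype
  have hA'sol : Group.IsSolvable A' :=
    solvable_of_solvable_injective
      (f := (Subgroup.subgroupOfEquivOfLe hAH).toMonoidHom) (MulEquiv.injective _)
  have hAW' : ∀ y : H, ∃ w ∈ W', ∃ g ∈ A', w * g = y := by
    rintro ⟨y, hy⟩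
    obtain ⟨w, hw, g, hg, rfl⟩ := exists_mul_of_mem_sup hW₀n hy
    exact ⟨⟨w, hWH hw⟩, hw, ⟨g, hAH hg⟩, hg, rfl⟩
  have hDA' : D' ≤ A' := fun d hd => hDA hd
  have hDn' : ∀ g ∈ A', ∀ d ∈ D', g * d * g⁻¹ ∈ D' := fun g hg d hd => hDn g hg d hd
  have hD's : IsPGroup s D' := hDs.comap_subtype
  have hP'c : Nat.card P' = p := by
    rw [← hP]
    exact Nat.card_congr (Subgroup.subgroupOfEquivOfLe hPH).toEquiv
  let a' : H := ⟨a, hAH haA⟩
  have hmapconj : ∀ (b : H) , (P'.map (MulAut.conj b).toMonoidHom).map H.subtype =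
      P.map (MulAut.conj (b : G)).toMonoidHom := by
    intro b
    ext z
    constructor
    · rintro ⟨_, ⟨y, hy, rfl⟩, rfl⟩
      exact ⟨y, hy, rfl⟩
    · rintro ⟨y, hy, rfl⟩
      exact ⟨_, ⟨⟨y, hPH hy⟩, hy, rfl⟩, rfl⟩
  have hP'map : P'.map H.subtype = P := by
    rw [Subgroup.map_subgroupOf_eq_of_le hPH]
  have hA' : A' = P' ⊔ P'.map (MulAut.conj a').toMonoidHom := by
    apply Subgroup.map_injective H.subtype_injective
    rw [Subgroup.map_sup, hmapconj, hP'map, Subgroup.map_subgroupOf_eq_of_le hAH]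
    exact hA
  -- solvability of `H`
  have hHsol : Group.IsSolvable H := by
    have h1 : Group.IsSolvable W' := by
      haveI := hW'r.isNilpotent
      infer_instance
    have h2 : Group.IsSolvable (H ⧸ W') := by
      refine Group.isSolvable_of_surjective (f := (QuotientGroup.mk' W').comp A'.subtype) ?_
      intro z
      obtain ⟨y, rfl⟩ := QuotientGroup.mk_surjective z
      obtain ⟨w, hw, g, hg, rfl⟩ := hAW' y
      refine ⟨⟨g, hg⟩, ?_⟩
      change ((g : H) : H ⧸ W') = ((w * g : H) : H ⧸ W')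
      rw [QuotientGroup.eq]
      have e : g⁻¹ * (w * g) = g⁻¹ * w * g⁻¹⁻¹ := by group
      rw [e]
      exact hW'n.conj_mem _ hw _
    exact solvable_of_ker_le_range W'.subtype (QuotientGroup.mk' W')
      (by
        intro y hy
        rw [QuotientGroup.ker_mk'] at hy
        exact ⟨⟨y, hy⟩, rfl⟩)
  have hmax' : ∀ B : Subgroup H, A' ≤ B →
      (∃ b ∈ B, B = P' ⊔ P'.map (MulAut.conj b).toMonoidHom) → B = A' := by
    rintro B hAB ⟨b, hb, hBb⟩
    have h1 : B.map H.subtype = A := by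
      apply hmax
      · intro g hg
        exact ⟨⟨g, hAH hg⟩, hAB hg, rfl⟩
      · exact solvable_of_solvable_injective
          (f := (Subgroup.equivMapOfInjective B H.subtype H.subtype_injective).symm.toMonoidHom)
          (MulEquiv.injective _)
      · refine ⟨b, ⟨b, hb, rfl⟩, ?_⟩
        rw [hBb, Subgroup.map_sup, hmapconj, hP'map]
    apply Subgroup.map_injective H.subtype_injective
    rw [h1, Subgroup.map_subgroupOf_eq_of_le hAH]
  have hmin' : ∀ T : Subgroup H, T ≤ W' → (∀ g ∈ A', ∀ t ∈ T, g * t * g⁻¹ ∈ T) → T ≠ W' →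
      ∀ t ∈ T, ∀ d ∈ D', t * d = d * t := by
    intro T hTW hTn hne t ht d hd
    have h1 := hW₀min (T.map H.subtype) (by
      rintro _ ⟨y, hy, rfl⟩
      exact hTW hy) (by
      intro g hg
      refine Subgroup.mem_normalizer_iff.mpr fun z => ?_
      have hfw : ∀ g ∈ A, ∀ z ∈ T.map H.subtype, g * z * g⁻¹ ∈ T.map H.subtype := by
        rintro g hg _ ⟨y, hy, rfl⟩
        exact ⟨_, hTn ⟨g, hAH hg⟩ hg y hy, rfl⟩
      refine ⟨hfw g hg z, fun hz => ?_⟩
      have := hfw g⁻¹ (A.inv_mem hg) _ hz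
      simpa [mul_assoc] using this) (by
      intro h
      apply hne
      apply Subgroup.map_injective H.subtype_injective
      rw [h, Subgroup.map_subgroupOf_eq_of_le hWH]) (t : G) ⟨t, ht, rfl⟩ (d : G) hd
    exact Subtype.ext h1
  have hW'D : ¬ ∀ t ∈ W', ∀ d ∈ D', t * d = d * t := by
    intro h
    apply hW₀D
    intro t ht d hd
    exact congrArg Subtype.val (h ⟨t, hWH ht⟩ ht ⟨d, hDH hd⟩ hd)
  exact core_H hp5 hrs A' W' D' P' hW'r hA'sol hAW' hDA' hDn' hD's hP'c a' haA hA' hmax' hmin' hW'D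

/-- A subgroup contained in the join of pairwise commuting `q`-subgroups, one for each prime `q`, is
nilpotent. -/
theorem nilpotent_of_parts (R : Nat.Primes → Subgroup G) (hRp : ∀ q : Nat.Primes, IsPGroup (q : ℕ) (R q))
    (hcomm : ∀ q q' : Nat.Primes, q ≠ q' → ∀ a ∈ R q, ∀ b ∈ R q', a * b = b * a)
    (X : Subgroup G) (hX : X ≤ ⨆ q, R q) : Group.IsNilpotent X := by
  classical
  have hfin : {q : Nat.Primes | R q ≠ ⊥}.Finite := by
    have h1 : {q : Nat.Primes | (q : ℕ) ∈ (Nat.card G).primeFactors}.Finite :=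
      Set.Finite.preimage (Nat.Primes.coe_nat_injective.injOn) (Finset.finite_toSet _)
    refine h1.subset fun q hq => ?_
    haveI : Fact (q : ℕ).Prime := ⟨q.2⟩
    rw [Set.mem_setOf_eq, Nat.mem_primeFactors]
    refine ⟨q.2, ?_, Nat.card_pos.ne'⟩
    obtain ⟨k, hk⟩ := IsPGroup.iff_card.mp (hRp q)
    have hk0 : k ≠ 0 := by
      rintro rfl
      rw [pow_zero] at hk
      exact hq (Subgroup.eq_bot_of_card_eq _ hk)
    have h2 : Nat.card (R q) ∣ Nat.card G := Subgroup.card_subgroup_dvd_card _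
    rw [hk] at h2
    exact (dvd_pow_self _ hk0).trans h2
  have hind : ∀ S : Finset Nat.Primes, Group.IsNilpotent ↥(S.sup R) := by
    intro S
    induction S using Finset.induction_on with
    | empty =>
      have h0 : (∅ : Finset Nat.Primes).sup R = ⊥ := rfl
      rw [h0]
      infer_instance
    | insert q S hq ih =>
      rw [Finset.sup_insert]
      haveI : Fact (q : ℕ).Prime := ⟨q.2⟩
      apply Cfsg.Agent.Lib.Solvable.Carter.isNilpotent_sup_of_commute _ (hRp q).isNilpotent ih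
      intro a ha b hb
      have h1 : S.sup R ≤ Subgroup.centralizer ({a} : Set G) := by
        refine Finset.sup_le fun q' hq' => ?_
        intro b' hb'
        refine Subgroup.mem_centralizer_iff.mpr fun w hw => ?_
        rw [Set.mem_singleton_iff.mp hw]
        exact hcomm q q' (fun h => hq (h ▸ hq')) a ha b' hb'
      exact (Subgroup.mem_centralizer_iff.mp (h1 hb) a rfl)
  have hle : X ≤ hfin.toFinset.sup R := by
    refine hX.trans (iSup_le fun q => ?_)
    by_cases hq : R q = ⊥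
    · rw [hq]
      exact bot_le
    · exact Finset.le_sup (f := R) (hfin.mem_toFinset.mpr hq)
  haveI := hind hfin.toFinset
  refine isNilpotent_of_ker_le_center (Subgroup.inclusion hle) ?_
  rw [(MonoidHom.ker_eq_bot_iff _).mpr (Subgroup.inclusion_injective hle)]
  exact bot_le

end Cfsg.Agent.Lib.FGS.KeyClaim
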